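import Cfsg.Agent.Blk.ExtraVal

/-! The principal `3`-block with extraspecial defect group of order `27`: the case of a central
element of order `3`. -/

set_option autoImplicit false

namespace Cfsg

open scoped ComplexConjugate
open Finset

universe u

variable {H : Type u} [Group H]

/-- the scalar by which a central element acts -/
noncomputable def cenVal (z : H) (ψ : IrrCharacter H) : ℂ := ψ.1 z / ψ.1 1

theorem omega3_cube {ω : ℂ} (hω : ω ^ 2 + ω + 1 = 0) : ω ^ 3 = 1 := by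
  linear_combination (ω - 1) * hω

theorem mul_conj_of_cube {x : ℂ} (h : x ^ 3 = 1) : x * conj x = 1 := by
  have h1 : ‖x‖ = 1 := Complex.norm_eq_one_of_pow_eq_one h (by norm_num)
  rw [Complex.mul_conj, Complex.normSq_eq_norm_sq, h1]
  simp

theorem conj_omega3 {ω : ℂ} (hω : ω ^ 2 + ω + 1 = 0) : conj ω = ω ^ 2 := by
  have h1 := mul_conj_of_cube (omega3_cube hω)
  have h2 := omega3_cube hω
  linear_combination ω ^ 2 * h1 - conj ω * h2

theorem omega3_ne_one {ω : ℂ} (hω : ω ^ 2 + ω + 1 = 0) : ω ≠ 1 := by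
  rintro rfl
  norm_num at hω

theorem omega3_sq {ω : ℂ} (hω : ω ^ 2 + ω + 1 = 0) : (ω ^ 2) ^ 2 + ω ^ 2 + 1 = 0 := by
  linear_combination (ω ^ 2 - ω + 1) * hω

theorem omega3_ne_sq {ω : ℂ} (hω : ω ^ 2 + ω + 1 = 0) : ω ≠ ω ^ 2 := fun e => by
  have h1 : ω * (ω - 1) = 0 := by linear_combination -e
  rcases mul_eq_zero.1 h1 with h | h
  · rw [h] at hω; norm_num at hω
  · exact omega3_ne_one hω (sub_eq_zero.1 h)

theorem exists_omega3 : ∃ ω : ℂ, ω ^ 2 + ω + 1 = 0 := by
  refine ⟨(-1 + (√3 : ℝ) * Complex.I) / 2, ?_⟩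
  have h : ((√3 : ℝ) : ℂ) ^ 2 = 3 := by
    rw [← Complex.ofReal_pow, Real.sq_sqrt (by norm_num)]; norm_num
  linear_combination ((√3 : ℝ) : ℂ) ^ 2 / 4 * Complex.I_sq - h / 4

theorem cube_root_cases {ω x : ℂ} (hω : ω ^ 2 + ω + 1 = 0) (h : x ^ 3 = 1) :
    x = 1 ∨ x = ω ∨ x = ω ^ 2 := by
  have h1 : (x - 1) * ((x - ω) * (x - ω ^ 2)) = 0 := by
    linear_combination h + (-x ^ 2 + x * ω - (ω - 1)) * hω
  simpa only [mul_eq_zero, sub_eq_zero] using h1

variable [Fintype H] {z : H}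

theorem apply_cen_mul (hz : z ∈ Subgroup.center H) (ψ : IrrCharacter H) (x : H) :
    ψ.1 (z * x) = cenVal z ψ * ψ.1 x := ψ.apply_mul_of_mem_center hz x

theorem cenVal_cube (hz : z ∈ Subgroup.center H) (h3 : orderOf z = 3) (ψ : IrrCharacter H) :
    cenVal z ψ ^ 3 = 1 := h3 ▸ ψ.div_pow_orderOf_of_mem_center hz

theorem cenVal_inv (ψ : IrrCharacter H) : cenVal z⁻¹ ψ = conj (cenVal z ψ) := by
  rw [cenVal, cenVal, ψ.apply_inv, map_div₀, ψ.one_eq_charDegree, map_natCast]

theorem cenVal_triv : cenVal z (IrrCharacter.triv H) = 1 := by simp [cenVal]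

theorem dvd_orderOf_cen_mul {p : ℕ} [Fact p.Prime] (hz : z ∈ Subgroup.center H)
    (hp : ∃ k : ℕ, orderOf z = p ^ k) (h1 : z ≠ 1) {s : H} (hs : ¬ p ∣ orderOf s) :
    p ∣ orderOf (z * s) := by
  rw [← pPart_ne_one_iff, pPart_mul_of_commute (Subgroup.mem_center_iff.1 hz s).symm hp hs]
  exact h1

theorem classInner_sectionPart_cen {p : ℕ} [Fact p.Prime]
    (hz : z ∈ Subgroup.center H) (hp : ∃ k : ℕ, orderOf z = p ^ k) (ψ φ : IrrCharacter H) :
    classInner (sectionPart p z ψ.1) φ.1 =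
      cenVal z ψ * conj (cenVal z φ) * classInner (pRegularPart p ψ.1) φ.1 := by
  rw [classInner_def, classInner_def, ← Equiv.sum_comp (Equiv.mulLeft z), mul_left_comm, mul_sum,
    mul_sum, mul_sum]
  refine sum_congr rfl fun s _ => ?_
  have h1 : IsConj z (pPart p (z * s)) ↔ ¬ p ∣ orderOf s := by
    rw [pPart_mul (Subgroup.mem_center_iff.1 hz s).symm, pPart_eq_self_iff.2 hp,
      ← pPart_eq_one_iff, isConj_iff]
    refine ⟨fun ⟨c, hc⟩ => ?_, fun h => ⟨1, by simp [h]⟩⟩
    rw [Subgroup.mem_center_iff.1 hz c, mul_inv_cancel_right] at hc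
    exact (mul_eq_left.1 hc.symm)
  rw [Equiv.coe_mulLeft]
  by_cases hs : p ∣ orderOf s
  · rw [sectionPart_of_not_isConj (by rw [h1]; exact fun h => h hs), pRegularPart_of_dvd hs]
    simp
  · rw [sectionPart_of_isConj (h1.2 hs), pRegularPart_of_not_dvd hs, apply_cen_mul hz,
      apply_cen_mul hz, map_mul]
    ring

open Classical in
/-- the characters of `B` on which `z` acts as `ω` -/
noncomputable def cenSet (B : Set (IrrCharacter H)) (z : H) (ω : ℂ) : Finset (IrrCharacter H) :=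
  {ψ ∈ irrFinset B | cenVal z ψ = ω}

theorem mem_cenSet {B : Set (IrrCharacter H)} {ω : ℂ} {ψ : IrrCharacter H} :
    ψ ∈ cenSet B z ω ↔ ψ ∈ B ∧ cenVal z ψ = ω := by simp [cenSet]

theorem eq_sum_cenSet (hz : z ∈ Subgroup.center H) (h3 : orderOf z = 3) {ω : ℂ}
    (hω : ω ^ 2 + ω + 1 = 0) {B : Set (IrrCharacter H)} {θ : H → ℂ} (h1 : blockPart B θ = θ)
    (h2 : pRegularPart 3 θ = θ) :
    θ = ∑ η ∈ cenSet B z ω, (3 * classInner θ η.1) • pRegularPart 3 η.1 := by
  classical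
  have := Fact.mk Nat.prime_three
  funext s
  rw [Finset.sum_apply]
  by_cases hs : 3 ∣ orderOf s
  · rw [pRegularPart_eq_self_iff.1 h2 s hs]
    simp [pRegularPart_of_dvd hs]
  have hz1 : z ≠ 1 := fun e => by rw [e, orderOf_one] at h3; omega
  have h4 : ∀ x, θ x = ∑ ψ ∈ irrFinset B, classInner θ ψ.1 * ψ.1 x := fun x => by
    conv_lhs => rw [← h1, blockPart_eq_sum_smul, Finset.sum_apply]
    rfl
  have h5 := pRegularPart_eq_self_iff.1 h2 _ (dvd_orderOf_cen_mul hz ⟨1, h3⟩ hz1 hs)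
  have h6 := pRegularPart_eq_self_iff.1 h2 _ (dvd_orderOf_cen_mul (inv_mem hz)
    ⟨1, by rw [orderOf_inv, h3, pow_one]⟩ (inv_ne_one.2 hz1) hs)
  have h7 : θ s = θ s + ω ^ 2 * θ (z * s) + ω * θ (z⁻¹ * s) := by rw [h5, h6]; ring
  rw [h7, h4 s, h4 (z * s), h4 (z⁻¹ * s), mul_sum, mul_sum, ← sum_add_distrib, ← sum_add_distrib,
    cenSet, sum_filter]
  refine sum_congr rfl fun ψ _ => ?_
  rw [apply_cen_mul hz, apply_cen_mul (inv_mem hz), cenVal_inv, Pi.smul_apply,
    pRegularPart_of_not_dvd hs, smul_eq_mul]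
  have h8 := omega3_cube hω
  rcases cube_root_cases hω (cenVal_cube hz h3 ψ) with e | e | e
  · rw [e, if_neg (omega3_ne_one hω).symm, map_one]
    linear_combination classInner θ ψ.1 * ψ.1 s * hω
  · rw [e, if_pos rfl, conj_omega3 hω]
    linear_combination 2 * classInner θ ψ.1 * ψ.1 s * h8
  · rw [e, if_neg (omega3_ne_sq hω).symm, conj_omega3 (omega3_sq hω)]
    linear_combination classInner θ ψ.1 * ψ.1 s * (hω + (ω + ω ^ 2) * h8)

theorem classInner_eq_sum_cenSet (hz : z ∈ Subgroup.center H) (h3 : orderOf z = 3)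
    {ω : ℂ} (hω : ω ^ 2 + ω + 1 = 0) {B : Set (IrrCharacter H)} {θ : H → ℂ}
    (h1 : blockPart B θ = θ) (h2 : pRegularPart 3 θ = θ) (φ : H → ℂ) :
    classInner θ φ = 3 * ∑ η ∈ cenSet B z ω,
      classInner θ η.1 * conj (classInner (pRegularPart 3 φ) η.1) := by
  conv_lhs => rw [eq_sum_cenSet hz h3 hω h1 h2, classInner_sum_left]
  rw [mul_sum]
  refine sum_congr rfl fun η _ => ?_
  rw [classInner_smul_left, conj_classInner, classInner_pRegularPart_comm, mul_assoc]

/-- `9 [ψ°, η]` for characters of the principal block -/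
noncomputable def exT (M : Ideal AlgInt) (ψ η : IrrCharacter H) : ℤ :=
  contrib 3 (principalBlock M H) ψ η / 3

variable {M : Ideal AlgInt}

theorem cast_exT (hM : IsPModular 3 M) (h27 : (Nat.card H).factorization 3 = 3)
    {ψ η : IrrCharacter H} (hψ : ψ ∈ principalBlock M H) (hη : η ∈ principalBlock M H)
    (h3 : 3 ∣ charDegree η.1) :
    (exT M ψ η : ℂ) = 9 * classInner (pRegularPart 3 ψ.1) η.1 := by
  have := Fact.mk Nat.prime_three
  have h1 : (3 : ℤ) ∣ contrib 3 (principalBlock M H) ψ η :=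
    (dvd_pow_self _ fun e => (hM.blockHeight_principalBlock_eq_zero_iff hη).1 e h3).trans
      (pow_blockHeight_dvd_contrib' (p := 3) ψ hη)
  obtain ⟨n, hn⟩ := h1
  have h2 := cast_contrib (p := 3) hψ η
  rw [hM.blockDefect_principalBlock, h27, hn] at h2
  rw [exT, hn, Int.mul_ediv_cancel_left _ (by norm_num)]
  push_cast at h2
  linear_combination h2 / 3

theorem exT_modEq (hM : IsPModular 3 M) (h27 : (Nat.card H).factorization 3 = 3)
    {ψ η : IrrCharacter H} (hψ : ψ ∈ principalBlock M H) (hη : η ∈ principalBlock M H)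
    (h3 : 3 ∣ charDegree η.1) :
    exT M ψ η ≡ charDegree ψ.1 * exT M (IrrCharacter.triv H) η [ZMOD 3] := by
  have := Fact.mk Nat.prime_three
  have := hM.charP
  obtain ⟨γ, -, hγ⟩ := (isPBlock_principalBlock (M := M) (G := H)).exists_gamma hM
  obtain ⟨n, hn⟩ := h3
  have h1 : ∀ ξ ∈ principalBlock M H, (exT M ξ η : resK M) = γ * charDegree ξ.1 * n := by
    intro ξ hξ
    have h2 := kappa_mul_one (p := 3) (pRegularPart 3 ξ.1) η
    rw [h27, η.one_eq_charDegree, hn] at h2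
    have h4 : (exT M ξ η : ℂ) = blkKappa 3 (pRegularPart 3 ξ.1) η.1 * n := by
      rw [cast_exT hM h27 hξ hη ⟨n, hn⟩]
      push_cast at h2
      linear_combination -h2 / 3
    rw [← red_intCast, h4, red_mul (hM.kappa_pRegularPart_mem _ _) (natCast_mem_valO _),
      hγ ξ hξ η hη, red_natCast, hM.redDeg_principalBlock]
  refine (CharP.intCast_eq_intCast (resK M) 3).1 ?_
  push_cast
  rw [h1 ψ hψ, h1 _ hM.triv_mem_principalBlock, IrrCharacter.charDegree_triv]
  push_cast
  ring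

theorem exT_triv_ne_zero (hM : IsPModular 3 M) (h27 : (Nat.card H).factorization 3 = 3)
    {η : IrrCharacter H} (hη : η ∈ principalBlock M H) (h3 : 3 ∣ charDegree η.1) :
    exT M (IrrCharacter.triv H) η ≠ 0 := fun e => by
  have := Fact.mk Nat.prime_three
  have h1 := cast_exT hM h27 hM.triv_mem_principalBlock hη h3
  have h2 := cast_contrib (p := 3) hM.triv_mem_principalBlock η
  rw [e, Int.cast_zero, eq_comm, mul_eq_zero] at h1
  rw [h1.resolve_left (by norm_num), mul_zero, Int.cast_eq_zero] at h2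
  exact isPBlock_principalBlock.contrib_ne_zero_of_height_zero hM hM.triv_mem_principalBlock hη
    ((hM.blockHeight_principalBlock_eq_zero_iff hM.triv_mem_principalBlock).2 (by
      rw [IrrCharacter.charDegree_triv]; norm_num)) h2

namespace XFus

variable {J : Finset H} (F : XFus z J) (hz : z ∈ Subgroup.center H) (hM : IsPModular 3 M)
  (hr : ∀ u ∈ J, IsConj u u⁻¹)
include F hz

theorem intVal_eq_zero_of_cenVal {u : H} (hu : u ∈ J) {η : IrrCharacter H}
    (h : cenVal z η ≠ 1) : intVal u η = 0 := by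
  have h1 := η.isClassFunction.eq_of_isConj (F.uz u hu)
  rw [apply_cen_mul hz] at h1
  have h2 : η.1 u = 0 := by
    by_contra h2
    exact h (mul_right_cancel₀ h2 (h1.symm.trans (one_mul _).symm))
  simp [intVal, h2]

include hr in
theorem dvd_of_cenVal (hJ : J.Nonempty) {η : IrrCharacter H} (h : cenVal z η ≠ 1) :
    3 ∣ charDegree η.1 := by
  obtain ⟨u, hu⟩ := hJ
  have h1 := intVal_modEq (F.ord u hu) (hr u hu) η
  rw [F.intVal_eq_zero_of_cenVal hz hu h] at h1
  unfold Int.ModEq at h1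
  omega

include hM hr

theorem classInner_cen {ψ φ : IrrCharacter H} (hψ : ψ ∈ principalBlock M H)
    (hφ : φ ∈ principalBlock M H) (h : cenVal z ψ = cenVal z φ) :
    9 * classInner ψ.1 φ.1 = 27 * classInner (pRegularPart 3 ψ.1) φ.1 +
      ((∑ u ∈ J, intVal u ψ * intVal u φ : ℤ) : ℂ) := by
  have := Fact.mk Nat.prime_three
  have h1 := mul_conj_of_cube (cenVal_cube hz F.ord_z φ)
  rw [F.classInner_eq, classInner_sectionPart_cen hz F.pow_z,
    classInner_sectionPart_cen (inv_mem hz) F.pow_z', cenVal_inv, cenVal_inv, h,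
    Complex.conj_conj, sum_congr rfl fun u hu => F.classInner_section hM hr hu hψ hφ,
    ← sum_div, mul_comm (conj _), h1]
  push_cast
  ring

theorem classInner_cenSet {ω : ℂ} (hω : ω ^ 2 + ω + 1 = 0) {η η' : IrrCharacter H}
    (hη : η ∈ cenSet (principalBlock M H) z ω) (hη' : η' ∈ cenSet (principalBlock M H) z ω)
    [Decidable (η = η')] :
    3 * classInner (pRegularPart 3 η.1) η'.1 = if η = η' then 1 else 0 := by
  rw [mem_cenSet] at hη hη'
  have h1 := F.classInner_cen hz hM hr hη.1 hη'.1 (hη.2.trans hη'.2.symm)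
  rw [sum_eq_zero fun u hu => by
    rw [F.intVal_eq_zero_of_cenVal hz hu (hη.2 ▸ omega3_ne_one hω), zero_mul],
    IrrCharacter.classInner_eq] at h1
  split_ifs at h1 ⊢ <;> simp only [Int.cast_zero] at h1 <;> linear_combination -h1 / 9

theorem card_cenSet {ω : ℂ} (hω : ω ^ 2 + ω + 1 = 0) :
    (cenSet (principalBlock M H) z ω).card = blockRank 3 (principalBlock M H) := by
  classical
  have := Fact.mk Nat.prime_three
  have hU := (isPBlock_principalBlock (M := M) (G := H)).isBlockUnion hM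
  have h1 := hU.blockRank_eq_sum_classInner hM
  rw [sum_congr rfl fun ψ hψ => classInner_eq_sum_cenSet hz F.ord_z hω
    (hU.blockPart_pRegularPart_irr_of_mem hM (mem_irrFinset.1 hψ)) (pRegularPart_pRegularPart _) _,
    ← mul_sum, sum_comm, mul_sum, sum_congr rfl fun η hη => show _ = (1 : ℂ) from ?_] at h1
  · simp only [sum_const, nsmul_eq_mul, mul_one] at h1
    exact_mod_cast h1.symm
  · have h2 := F.classInner_cenSet hz hM hr hω hη hη
    rw [if_pos rfl, classInner_pRegularPart_left,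
      ← hU.blockPart_pRegularPart_irr_of_mem hM (mem_cenSet.1 hη).1,
      classInner_blockPart_eq_sum, hU.blockPart_pRegularPart_irr_of_mem hM (mem_cenSet.1 hη).1]
      at h2
    rw [← h2]
    congr 1
    exact sum_congr rfl fun ψ _ => by rw [classInner_pRegularPart_irr_comm]

theorem sum_exT_sq (hJ : J.Nonempty) {ω : ℂ} (hω : ω ^ 2 + ω + 1 = 0) {ψ : IrrCharacter H}
    (hψ : ψ ∈ principalBlock M H) :
    ∑ η ∈ cenSet (principalBlock M H) z ω, exT M ψ η ^ 2 + ∑ u ∈ J, intVal u ψ ^ 2 = 9 := by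
  have := Fact.mk Nat.prime_three
  have hU := (isPBlock_principalBlock (M := M) (G := H)).isBlockUnion hM
  have h1 := F.classInner_cen hz hM hr hψ hψ rfl
  rw [ψ.classInner_self, classInner_eq_sum_cenSet hz F.ord_z hω
    (hU.blockPart_pRegularPart_irr_of_mem hM hψ) (pRegularPart_pRegularPart _), ← mul_assoc,
    mul_sum, sum_congr rfl fun η hη => show _ = ((exT M ψ η ^ 2 : ℤ) : ℂ) from ?_] at h1
  · simp only [← sq] at h1
    exact_mod_cast h1.symm
  · rw [mem_cenSet] at hη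
    rw [conj_classInner_pRegularPart_irr, Int.cast_pow,
      cast_exT hM F.facG hψ hη.1 (F.dvd_of_cenVal hz hr hJ (hη.2 ▸ omega3_ne_one hω))]
    ring

theorem sum_intVal_mul_exT (hJ : J.Nonempty) {ω : ℂ} (hω : ω ^ 2 + ω + 1 = 0)
    {η : IrrCharacter H} (hη : η ∈ cenSet (principalBlock M H) z ω) {u : H} (hu : u ∈ J) :
    ∑ ψ ∈ irrFinset (principalBlock M H), intVal u ψ * exT M ψ η = 0 := by
  have := Fact.mk Nat.prime_three
  have hU := (isPBlock_principalBlock (M := M) (G := H)).isBlockUnion hM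
  rw [mem_cenSet] at hη
  have h1 := congrFun (hU.blockPart_pRegularPart_irr_of_mem hM hη.1) u
  rw [pRegularPart_of_dvd (F.ord u hu).symm.dvd, blockPart_eq_sum_smul, Finset.sum_apply] at h1
  have h2 : ((∑ ψ ∈ irrFinset (principalBlock M H), intVal u ψ * exT M ψ η : ℤ) : ℂ) = 9 * 0 := by
    rw [← h1, mul_sum]
    push_cast
    refine sum_congr rfl fun ψ hψ => ?_
    rw [cast_exT hM F.facG (mem_irrFinset.1 hψ) hη.1
      (F.dvd_of_cenVal hz hr hJ (hη.2 ▸ omega3_ne_one hω)), cast_intVal (F.ord u hu) (hr u hu),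
      classInner_pRegularPart_irr_comm, Pi.smul_apply, smul_eq_mul]
    ring
  exact_mod_cast h2.trans (mul_zero _)

theorem card_cen : (irrFinset (principalBlock M H)).card =
    3 * blockRank 3 (principalBlock M H) + J.card := by
  have hU := (isPBlock_principalBlock (M := M) (G := H)).isBlockUnion hM
  have h1 : ∑ ψ ∈ irrFinset (principalBlock M H), (9 : ℂ) * classInner ψ.1 ψ.1 = _ :=
    sum_congr rfl fun ψ hψ => F.classInner_cen hz hM hr (mem_irrFinset.1 hψ)
      (mem_irrFinset.1 hψ) rfl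
  rw [sum_add_distrib, ← mul_sum, ← mul_sum, ← hU.blockRank_eq_sum_classInner hM,
    ← Int.cast_sum, sum_comm, sum_congr (s₁ := J) rfl fun u hu => show _ = (9 : ℤ) by
      simpa only [sq] using F.sum_intVal_sq hM hr hu] at h1
  simp only [IrrCharacter.classInner_self, sum_const, nsmul_eq_mul, mul_one] at h1
  have h2 : ((irrFinset (principalBlock M H)).card : ℂ) =
      ((3 * blockRank 3 (principalBlock M H) + J.card : ℕ) : ℂ) := by
    push_cast at h1 ⊢
    linear_combination h1 / 9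
  exact_mod_cast h2

theorem not_dvd_exT_triv (hJ : J.Nonempty) {ω : ℂ} (hω : ω ^ 2 + ω + 1 = 0) {η : IrrCharacter H}
    (hη : η ∈ cenSet (principalBlock M H) z ω) : ¬ 3 ∣ exT M (IrrCharacter.triv H) η := by
  have h1 := F.sum_exT_sq hz hM hr hJ hω hM.triv_mem_principalBlock
  have h2 := single_le_sum (f := fun η => exT M (IrrCharacter.triv H) η ^ 2)
    (fun _ _ => sq_nonneg _) hη
  have h3 := exT_triv_ne_zero hM F.facG (mem_cenSet.1 hη).1
    (F.dvd_of_cenVal hz hr hJ ((mem_cenSet.1 hη).2 ▸ omega3_ne_one hω))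
  have h4 := card_pos.2 hJ
  simp only [intVal_triv, one_pow, sum_const, nsmul_eq_mul, mul_one] at h1
  rintro ⟨k, hk⟩
  rw [hk] at h2 h3
  have : 1 ≤ k ^ 2 := by
    have : k ≠ 0 := by rintro rfl; simp at h3
    have := sq_pos_of_ne_zero this
    omega
  simp only [mul_pow] at h2
  omega

theorem six_le (hJ : J.Nonempty) : 6 ≤ blockRank 3 (principalBlock M H) + J.card := by
  classical
  obtain ⟨ω, hω⟩ := exists_omega3
  have h1 := F.card_height_zero hM hr hJ
  have h2 := F.card_cen hz hM hr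
  have h3 := F.card_cenSet hz hM hr hω
  have h4 := F.card_cenSet hz hM hr (omega3_sq hω)
  have h5 : Disjoint (cenSet (principalBlock M H) z ω) (cenSet (principalBlock M H) z (ω ^ 2)) :=
    disjoint_left.2 fun η h h' => omega3_ne_sq hω ((mem_cenSet.1 h).2.symm.trans (mem_cenSet.1 h').2)
  have h6 : Disjoint {χ ∈ irrFinset (principalBlock M H) | ¬ 3 ∣ charDegree χ.1}
      (cenSet (principalBlock M H) z ω ∪ cenSet (principalBlock M H) z (ω ^ 2)) :=
    disjoint_left.2 fun η h h' => (mem_filter.1 h).2 (F.dvd_of_cenVal hz hr hJ (by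
      rcases mem_union.1 h' with e | e <;> rw [(mem_cenSet.1 e).2]
      exacts [omega3_ne_one hω, omega3_ne_one (omega3_sq hω)]))
  have h7 := card_le_card (union_subset (filter_subset (fun χ => ¬ 3 ∣ charDegree χ.1) _)
    (union_subset (filter_subset _ _) (filter_subset _ _)) : _ ∪ (cenSet (principalBlock M H) z ω ∪
      cenSet (principalBlock M H) z (ω ^ 2)) ⊆ irrFinset (principalBlock M H))
  rw [card_union_of_disjoint h6, card_union_of_disjoint h5] at h7
  omega

theorem rank_add_card (hJ : J.Nonempty) : blockRank 3 (principalBlock M H) + J.card = 6 := by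
  classical
  obtain ⟨ω, hω⟩ := exists_omega3
  have h3 := F.card_cenSet hz hM hr hω
  have h0 := F.six_le hz hM hr hJ
  set E := cenSet (principalBlock M H) z ω
  have key : ∀ {ι : Type u} (s : Finset ι) (f : ι → ℤ), (∀ i ∈ s, ¬ 3 ∣ f i) →
      ∃ n : ℕ, ∑ i ∈ s, f i ^ 2 = s.card + 3 * n ∧ (n = 0 → ∀ i ∈ s, f i ^ 2 = 1) := by
    intro ι s f hf
    have a1 : ∀ i ∈ s, ∃ n : ℕ, f i ^ 2 = 1 + 3 * n := fun i hi => by
      have a2 := hf i hi
      have a3 : f i ^ 2 % 3 = 1 := by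
        rw [sq, Int.mul_emod]
        have : f i % 3 = 1 ∨ f i % 3 = 2 := by omega
        rcases this with h | h <;> rw [h] <;> norm_num
      have := sq_nonneg (f i)
      exact ⟨(f i ^ 2 / 3).toNat, by omega⟩
    choose! n hn using a1
    refine ⟨∑ i ∈ s, n i, ?_, fun h i hi => ?_⟩
    · rw [sum_congr rfl hn, sum_add_distrib, ← mul_sum]
      simp
    · rw [hn i hi, (sum_eq_zero_iff.1 h) i hi]
      simp
  have row : ∀ ψ ∈ principalBlock M H, ¬ 3 ∣ charDegree ψ.1 → ∃ n : ℕ,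
      E.card + J.card + 3 * n = 9 ∧
        (n = 0 → (∀ η ∈ E, exT M ψ η ^ 2 = 1) ∧ ∀ u ∈ J, intVal u ψ ^ 2 = 1) := by
    intro ψ hψ h
    obtain ⟨n₁, a1, a2⟩ := key E (exT M ψ) fun η hη => by
      have b1 := exT_modEq hM F.facG hψ (mem_cenSet.1 hη).1
        (F.dvd_of_cenVal hz hr hJ ((mem_cenSet.1 hη).2 ▸ omega3_ne_one hω))
      rw [b1.dvd_iff]
      exact Int.prime_three.not_dvd_mul (by exact_mod_cast h) (F.not_dvd_exT_triv hz hM hr hJ hω hη)
    obtain ⟨n₂, a3, a4⟩ := key J (fun u => intVal u ψ) fun u hu => by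
      rw [(intVal_modEq (F.ord u hu) (hr u hu) ψ).dvd_iff]
      exact_mod_cast h
    have a5 : ∑ η ∈ E, exT M ψ η ^ 2 + _ = _ := F.sum_exT_sq hz hM hr hJ hω hψ
    exact ⟨n₁ + n₂, by omega, fun e => ⟨a2 (by omega), a4 (by omega)⟩⟩
  obtain ⟨n, hn, -⟩ := row _ hM.triv_mem_principalBlock (by
    rw [IrrCharacter.charDegree_triv]; norm_num)
  by_contra h6
  obtain ⟨η, hη⟩ : E.Nonempty := card_pos.1 (h3 ▸ isPBlock_principalBlock.blockRank_pos hM)
  obtain ⟨u, hu⟩ := id hJ
  have h1 := congrArg (sgn3 (exT M (IrrCharacter.triv H) η) * ·)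
    (F.sum_intVal_mul_exT hz hM hr hJ hω hη hu)
  simp only [mul_zero] at h1
  rw [← F.sum_filter_eq hM hr hu _ fun χ h => by simp [h], mul_sum,
    sum_congr rfl fun ψ hψ => show _ = (1 : ℤ) from ?_] at h1
  · have := F.card_height_zero hM hr hJ
    simp only [sum_const, nsmul_eq_mul, mul_one] at h1
    omega
  · obtain ⟨hψ, hd⟩ := mem_filter.1 hψ
    rw [mem_irrFinset] at hψ
    obtain ⟨k, hk, a1⟩ := row ψ hψ hd
    obtain ⟨a2, a3⟩ := a1 (by omega)
    have b1 := exT_modEq hM F.facG hψ (mem_cenSet.1 hη).1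
      (F.dvd_of_cenVal hz hr hJ ((mem_cenSet.1 hη).2 ▸ omega3_ne_one hω))
    have b2 := intVal_modEq (F.ord u hu) (hr u hu) ψ
    have b3 := F.not_dvd_exT_triv hz hM hr hJ hω hη
    have b4 := b2.mul b1
    have b5 : (charDegree ψ.1 : ℤ) * charDegree ψ.1 ≡ 1 [ZMOD 3] := by
      unfold Int.ModEq
      rw [Int.mul_emod]
      have : (charDegree ψ.1 : ℤ) % 3 = 1 ∨ (charDegree ψ.1 : ℤ) % 3 = 2 := by omega
      rcases this with h | h <;> rw [h] <;> norm_num
    rw [← mul_assoc] at b4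
    have b6 := b4.trans (b5.mul_right _)
    rw [one_mul] at b6
    unfold Int.ModEq at b6
    rcases sq_eq_one_iff.1 (a2 η hη) with e | e <;>
      rcases sq_eq_one_iff.1 (a3 u hu) with e' | e' <;>
      rw [e, e'] at b6 ⊢ <;> unfold sgn3 <;> split_ifs <;> omega

end XFus

end Cfsg
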