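import Cfsg.Agent.Blk.ExtraCen

/-! The principal `3`-block with extraspecial defect group of order `27`: generalized
decomposition numbers on the central element. -/

set_option autoImplicit false

namespace Cfsg

open scoped ComplexConjugate
open Finset

universe u

/-- `3 ℤ[ω]` -/
def eisThree (ω : ℂ) : AddSubgroup ℂ where
  carrier := {x | ∃ a b : ℤ, x = 3 * (a + b * ω)}
  zero_mem' := ⟨0, 0, by simp⟩
  add_mem' := by
    rintro _ _ ⟨a, b, rfl⟩ ⟨c, d, rfl⟩
    exact ⟨a + c, b + d, by push_cast; ring⟩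
  neg_mem' := by
    rintro _ ⟨a, b, rfl⟩
    exact ⟨-a, -b, by push_cast; ring⟩

theorem mul_mem_eisThree {ω x : ℂ} (hω : ω ^ 2 + ω + 1 = 0) (hx : x ^ 3 = 1) {n : ℤ}
    (hn : 3 ∣ n) : x * n ∈ eisThree ω := by
  obtain ⟨k, rfl⟩ := hn
  rcases cube_root_cases hω hx with rfl | rfl | rfl
  · exact ⟨k, 0, by push_cast; ring⟩
  · exact ⟨0, k, by push_cast; ring⟩
  · exact ⟨-k, -k, by push_cast; linear_combination 3 * k * hω⟩

theorem int_mul_mem_eisThree {ω x : ℂ} (n : ℤ) (hx : x ∈ eisThree ω) : n * x ∈ eisThree ω := by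
  rw [← zsmul_eq_mul]; exact zsmul_mem hx n

theorem eis_mul_conj {ω : ℂ} (hω : ω ^ 2 + ω + 1 = 0) (n a b : ℤ) :
    (n - 3 * (a + b * ω)) * conj (n - 3 * (a + b * ω) : ℂ) =
      ((n ^ 2 - 3 * n * (2 * a - b) + 9 * eisN a b : ℤ) : ℂ) := by
  simp only [map_sub, map_mul, map_add, map_intCast, map_ofNat, conj_omega3 hω, eisN]
  push_cast
  linear_combination (-3 * n * b + 9 * a * b + 9 * b ^ 2 * (ω - 1)) * hω

theorem eis_add_conj {ω : ℂ} (hω : ω ^ 2 + ω + 1 = 0) (n a b : ℤ) :
    (n - 3 * (a + b * ω)) + conj (n - 3 * (a + b * ω) : ℂ) =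
      ((2 * n - 3 * (2 * a - b) : ℤ) : ℂ) := by
  simp only [map_sub, map_mul, map_add, map_intCast, map_ofNat, conj_omega3 hω]
  push_cast
  linear_combination (-3 * b) * hω

variable {G : Type u} [Group G] [Fintype G]

theorem classInner_sectionPart_inv {p : ℕ} (z : G) (χ ψ : IrrCharacter G) :
    classInner (sectionPart p z⁻¹ χ.1) ψ.1 = conj (classInner (sectionPart p z χ.1) ψ.1) := by
  rw [classInner_def, classInner_def, ← Equiv.sum_comp (Equiv.inv G), map_mul, map_inv₀,
    map_natCast, map_sum]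
  refine congrArg _ (sum_congr rfl fun g _ => ?_)
  have h : IsConj z⁻¹ (pPart p g⁻¹) ↔ IsConj z (pPart p g) := by
    rw [pPart_inv, isConj_iff, isConj_iff]
    exact exists_congr fun c => by rw [← conj_inv, inv_inj]
  rw [Equiv.inv_apply]
  by_cases hg : IsConj z (pPart p g)
  · rw [sectionPart_of_isConj (h.2 hg), sectionPart_of_isConj hg, χ.apply_inv, ψ.apply_inv,
      map_mul]
  · rw [sectionPart_of_not_isConj (mt h.1 hg), sectionPart_of_not_isConj hg]
    simp

/-- `9 [χ(z ·)°, η]` -/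
noncomputable def exZ (z : G) {C : Subgroup G} [Fintype C] (χ : IrrCharacter G)
    (η : IrrCharacter C) : ℂ := 9 * classInner (fun c : C => χ.1 (z * c)) (pRegularPart 3 η.1)

variable {M : Ideal AlgInt} {z : G} {C : Subgroup G} [Fintype C] (hM : IsPModular 3 M)
  (hz : orderOf z = 3) (hC : C = Subgroup.centralizer {z})
include hM hz hC

theorem pRegularPart_blockPart_secRes (θ : G → ℂ) (hθ : IsClassFunction G θ) :
    blockPart (principalBlock M C) (pRegularPart 3 fun c : C => θ (z * c)) =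
      pRegularPart 3 fun c : C => blockPart (principalBlock M G) θ (z * c) := by
  rw [(isPBlock_principalBlock.isBlockUnion hM).blockPart_pRegularPart' hM, pRegularPart_eq_iff]
  exact fun s hs => (hM.blockPart_principalBlock_section ⟨1, hz⟩ hC hθ hs).symm

theorem exZ_of_notMem {χ : IrrCharacter G} (hχ : χ ∉ principalBlock M G) {η : IrrCharacter C}
    (hη : η ∈ principalBlock M C) : exZ z χ η = 0 := by
  rw [exZ, ← classInner_pRegularPart_comm, ← classInner_blockPart_of_mem _ hη,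
    pRegularPart_blockPart_secRes hM hz hC _ χ.isClassFunction, blockPart_irr_of_notMem hχ]
  simp [show (fun _ : C => (0 : ℂ)) = 0 from rfl]

theorem sum_exZ_mul_conj {η η' : IrrCharacter C} (hη : η ∈ principalBlock M C) :
    ∑ χ ∈ irrFinset (principalBlock M G), exZ z χ η * conj (exZ z χ η') =
      81 * classInner (pRegularPart 3 η'.1) η.1 := by
  have := Fact.mk Nat.prime_three
  rw [sum_irrFinset_eq_sum_univ fun χ hχ => by rw [exZ_of_notMem hM hz hC hχ hη, zero_mul],
    ← sum_classInner_secRes_mul_conj ⟨1, hz⟩ hC η.isClassFunction, mul_sum]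
  refine sum_congr rfl fun χ _ => ?_
  rw [exZ, exZ, map_mul, map_ofNat]
  ring

theorem sum_apply_mul_conj_exZ {η : IrrCharacter C} (hη : η ∈ principalBlock M C) {u : G}
    (hu : ¬ IsConj z (pPart 3 u)) :
    ∑ χ ∈ irrFinset (principalBlock M G), χ.1 u * conj (exZ z χ η) = 0 := by
  have := Fact.mk Nat.prime_three
  have h1 := (isClassFunction_secInd 3 z C η.1).eq_sum_irr u
  rw [secInd_of_not_isConj ⟨1, hz⟩ hC _ hu] at h1
  rw [sum_irrFinset_eq_sum_univ fun χ hχ => by rw [exZ_of_notMem hM hz hC hχ hη, map_zero, mul_zero],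
    ← mul_zero 9, h1, mul_sum]
  refine sum_congr rfl fun χ _ => ?_
  rw [exZ, map_mul, map_ofNat, ← classInner_secInd_right χ.isClassFunction, conj_classInner]
  ring

theorem classInner_sectionPart_eq_exZ {ω : ℂ} (hω : ω ^ 2 + ω + 1 = 0) {χ : IrrCharacter G}
    (hχ : χ ∈ principalBlock M G) : 27 * classInner (sectionPart 3 z χ.1) χ.1 =
      ∑ η ∈ cenSet (principalBlock M C) ⟨z, self_mem_centralizer_eq hC⟩ ω,
        exZ z χ η * conj (exZ z χ η) := by
  have := Fact.mk Nat.prime_three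
  rw [classInner_sectionPart_eq ⟨1, hz⟩ hC χ.isClassFunction χ.isClassFunction,
    classInner_eq_sum_cenSet (self_mem_center_of_eq hC) (by rw [← hz, Subgroup.orderOf_mk]) hω
      (by rw [pRegularPart_blockPart_secRes hM hz hC _ χ.isClassFunction,
        blockPart_irr_of_mem hχ]) (pRegularPart_pRegularPart _), ← mul_assoc, mul_sum]
  refine sum_congr rfl fun η _ => ?_
  rw [exZ, map_mul, map_ofNat, classInner_pRegularPart_comm]
  ring

theorem classInner_sectionPart_ne_zero
    (h : (Nat.card C).factorization 3 = (Nat.card G).factorization 3) {χ : IrrCharacter G}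
    (hχ : χ ∈ principalBlock M G) : classInner (sectionPart 3 z χ.1) χ.1 ≠ 0 := by
  have := Fact.mk Nat.prime_three
  have h1 := ((hM.isInducedBlock_centralizer_principalBlock_iff
    (isPGroup_zpowers_of_orderOf Nat.prime_three ⟨1, hz⟩)
    (hC.trans (centralizer_zpowers_eq_singleton z).symm) isPBlock_principalBlock).2
      rfl).secProj_ne_zero_of_major hM ⟨1, hz⟩ hC (by
        rw [hM.blockDefect_principalBlock, hM.blockDefect_principalBlock, h]) hχ
  rw [← hM.inducingChars_principalBlock_of_pElement ⟨1, hz⟩ hC,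
    isPBlock_principalBlock.secProj_inducingChars hM ⟨1, hz⟩ hC χ.isClassFunction,
    blockPart_irr_of_mem hχ] at h1
  rw [← sectionPart_idem, classInner_sectionPart_left]
  exact fun e => h1 (classInner_self_eq_zero.1 e)

theorem exZ_sub_mem {J : Finset C} (F : XFus (⟨z, self_mem_centralizer_eq hC⟩ : C) J)
    (hr : ∀ u ∈ J, IsConj u u⁻¹) (hJ : J.Nonempty) {ω : ℂ} (hω : ω ^ 2 + ω + 1 = 0)
    {χ : IrrCharacter G} (hχ : χ ∈ principalBlock M G) {η : IrrCharacter C}
    (hη : η ∈ cenSet (principalBlock M C) ⟨z, self_mem_centralizer_eq hC⟩ ω) :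
    exZ z χ η - (charDegree χ.1 * exT M (IrrCharacter.triv C) η : ℤ) ∈ eisThree ω := by
  have := Fact.mk Nat.prime_three
  have := hM.charP
  have hcen := self_mem_center_of_eq hC
  set z' : C := ⟨z, self_mem_centralizer_eq hC⟩
  have hU := (isPBlock_principalBlock (M := M) (G := C)).isBlockUnion hM
  rw [mem_cenSet] at hη
  have h3 := F.dvd_of_cenVal hcen hr hJ (hη.2 ▸ omega3_ne_one hω)
  choose n hn using fun ψ : IrrCharacter C =>
    (χ.isCharacter.res C).exists_classInner_eq_nat ψ.isCharacter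
  have h1 : ∀ ψ : IrrCharacter C, classInner (fun c : C => χ.1 (z * c)) ψ.1 = cenVal z' ψ * n ψ :=
    fun ψ => by rw [classInner_secRes_irr hC, hn]; rfl
  have h2 : exZ z χ η = ∑ ψ ∈ irrFinset (principalBlock M C), cenVal z' ψ * n ψ * exT M ψ η := by
    rw [exZ, ← hU.blockPart_pRegularPart_irr_of_mem hM hη.1, ← classInner_blockPart_left,
      classInner_blockPart_eq_sum, mul_sum]
    refine sum_congr rfl fun ψ hψ => ?_
    rw [h1, cast_exT hM F.facG (mem_irrFinset.1 hψ) hη.1 h3, conj_classInner_pRegularPart_irr,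
      classInner_pRegularPart_irr_comm]
    ring
  have h4 : χ.1 z = ∑ ψ ∈ irrFinset (principalBlock M C), cenVal z' ψ * n ψ * charDegree ψ.1 := by
    have h5 := hM.blockPart_principalBlock_section ⟨1, hz⟩ hC χ.isClassFunction (s := 1) (by simp)
    rw [blockPart_irr_of_mem hχ, blockPart_eq_sum_smul, Finset.sum_apply] at h5
    simp only [OneMemClass.coe_one, mul_one] at h5
    rw [h5]
    exact sum_congr rfl fun ψ _ => by rw [Pi.smul_apply, h1, ψ.one_eq_charDegree, smul_eq_mul]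
  have h5 : (3 : ℤ) ∣ ∑ ψ ∈ irrFinset (principalBlock M C), n ψ * charDegree ψ.1 -
      charDegree χ.1 := by
    refine Int.ModEq.dvd ((CharP.intCast_eq_intCast (resK M) 3).1 ?_)
    have h6 := χ.isCharacter.isGeneralizedCharacter.red_mul_of_pElement hM (Commute.one_right z)
      ⟨1, hz⟩
    have hv : ∀ ψ, cenVal z' ψ ∈ valO M := fun ψ => mem_valO_iff.2
      (valM_eq_one_of_pow_eq_one (by norm_num) (cenVal_cube hcen F.ord_z ψ)).le
    rw [mul_one, h4, χ.one_eq_charDegree, red_natCast, red_sum _ fun ψ _ =>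
      mul_mem (mul_mem (hv ψ) (natCast_mem_valO _)) (natCast_mem_valO _)] at h6
    push_cast
    rw [← h6]
    refine sum_congr rfl fun ψ _ => ?_
    rw [red_mul (mul_mem (hv ψ) (natCast_mem_valO _)) (natCast_mem_valO _),
      red_mul (hv ψ) (natCast_mem_valO _), red_natCast, red_natCast,
      hM.red_eq_one_of_pow_p_pow (n := 1) (cenVal_cube hcen F.ord_z ψ), one_mul]
  set c := exT M (IrrCharacter.triv C) η
  have h6 : exZ z χ η - (charDegree χ.1 * c : ℤ) =
      ∑ ψ ∈ irrFinset (principalBlock M C),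
        (cenVal z' ψ * (n ψ * (exT M ψ η - charDegree ψ.1 * c) : ℤ) +
          (cenVal z' ψ - 1) * (n ψ * charDegree ψ.1 * c : ℤ)) +
      1 * ((∑ ψ ∈ irrFinset (principalBlock M C), n ψ * charDegree ψ.1 - charDegree χ.1) * c :
        ℤ) := by
    rw [h2]
    push_cast
    rw [one_mul, sub_mul, sum_mul, ← add_sub_assoc, ← sum_add_distrib]
    exact congrArg (· - _) (sum_congr rfl fun ψ _ => by ring)
  rw [h6]
  refine add_mem (sum_mem fun ψ hψ => add_mem (mul_mem_eisThree hω (cenVal_cube hcen F.ord_z ψ)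
    ((exT_modEq hM F.facG (mem_irrFinset.1 hψ) hη.1 h3).symm.dvd.mul_left _)) ?_)
    (mul_mem_eisThree hω (one_pow 3) (h5.mul_right _))
  by_cases e : cenVal z' ψ = 1
  · rw [e, sub_self, zero_mul]; exact zero_mem _
  · have h7 : (3 : ℤ) ∣ n ψ * charDegree ψ.1 * c :=
      ((Int.natCast_dvd_natCast.2 (F.dvd_of_cenVal hcen hr hJ e)).mul_left _).mul_right _
    rw [sub_mul]
    exact sub_mem (mul_mem_eisThree hω (cenVal_cube hcen F.ord_z ψ) h7)
      (mul_mem_eisThree hω (one_pow 3) h7)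

omit hz hC [Fintype C] in
theorem XFus.bessel {J : Finset G} (F : XFus z J) (hr : ∀ u ∈ J, IsConj u u⁻¹)
    {χ : IrrCharacter G} (hχ : χ ∈ principalBlock M G) {h : ℤ}
    (hh : 27 * classInner (sectionPart 3 z χ.1) χ.1 = h) :
    2 * h + 3 * ∑ u ∈ J, intVal u χ ^ 2 ≤ 27 := by
  have := Fact.mk Nat.prime_three
  have h1 := F.classInner_eq χ.1 χ.1
  have h2 := cast_contrib (p := 3) hχ χ
  have h3 := contrib_self_pos (p := 3) hχ
  have h4 := congrArg conj hh
  rw [map_mul, map_ofNat, map_intCast] at h4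
  rw [hM.blockDefect_principalBlock, F.facG] at h2
  rw [χ.classInner_self, classInner_sectionPart_inv,
    sum_congr rfl fun u hu => F.classInner_section hM hr hu hχ hχ, ← sum_div] at h1
  have h5 : ((contrib 3 (principalBlock M G) χ χ + 2 * h + 3 * ∑ u ∈ J, intVal u χ ^ 2 : ℤ) : ℂ) =
      (27 : ℤ) := by
    simp only [sq]
    push_cast at h2 ⊢
    linear_combination h2 - 27 * h1 - hh - h4
  have h6 := Int.cast_injective h5
  omega

omit hz in
theorem XFus.principal_count {J : Finset G} (F : XFus z J) (hr : ∀ u ∈ J, IsConj u u⁻¹)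
    {J' : Finset C} (F' : XFus (⟨z, self_mem_centralizer_eq hC⟩ : C) J')
    (hr' : ∀ u ∈ J', IsConj u u⁻¹) (hJ : J.Nonempty) (hJJ : J'.card = J.card) :
    #{χ ∈ irrFinset (principalBlock M G) | ¬ 3 ∣ charDegree χ.1} = 6 ∧
      Nat.card (principalBlock M G) + 2 * J.card = 18 ∧
      blockRank 3 (principalBlock M G) + J.card = 6 := by
  classical
  have := Fact.mk Nat.prime_three
  obtain ⟨ω, hω⟩ := exists_omega3
  have hz := F.ord_z
  have hJ' : J'.Nonempty := card_pos.1 (hJJ ▸ card_pos.2 hJ)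
  have hcen := self_mem_center_of_eq hC
  have hl := F'.rank_add_card hcen hM hr' hJ'
  have hE := F'.card_cenSet hcen hM hr' hω
  have hl0 := (isPBlock_principalBlock (M := M) (G := C)).blockRank_pos hM
  have hsec := fun χ hχ => classInner_sectionPart_eq_exZ hM hz hC hω (χ := χ) hχ
  have horth := fun η η' hη hη' => F'.classInner_cenSet hcen hM hr' hω (η := η) (η' := η') hη hη'
  have hc := fun η hη => F'.not_dvd_exT_triv hcen hM hr' hJ' hω (η := η) hη
  have hmem := fun χ hχ η hη => exZ_sub_mem hM hz hC F' hr' hJ' hω (χ := χ) hχ (η := η) hη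
  have hEB : ∀ η ∈ cenSet (principalBlock M C) ⟨z, self_mem_centralizer_eq hC⟩ ω,
    η ∈ principalBlock M C := fun η hη => (mem_cenSet.1 hη).1
  generalize cenSet (principalBlock M C) ⟨z, self_mem_centralizer_eq hC⟩ ω = E at *
  generalize exT M (IrrCharacter.triv C) = c at *
  set B := irrFinset (principalBlock M G) with hB
  set σ : IrrCharacter G → ℤ := fun χ => sgn3 (charDegree χ.1) with hσ
  set δ : IrrCharacter G → ℤ := fun χ => if 3 ∣ charDegree χ.1 then 0 else 1 with hδ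
  have hσ2 : ∀ χ, (σ χ : ℂ) * σ χ = 1 := fun χ => by exact_mod_cast sgn3_sq _
  have hε2 : ∀ η, (sgn3 (c η) : ℂ) * sgn3 (c η) = 1 := fun η => by exact_mod_cast sgn3_sq _
  have h1 : ∀ χ ∈ B, ∀ η ∈ E, ∃ a b : ℤ,
      σ χ * (sgn3 (c η) * exZ z χ η) = δ χ - 3 * (a + b * ω) := fun χ hχ η hη => by
    have a1 : (3 : ℤ) ∣ σ χ * charDegree χ.1 * (sgn3 (c η) * c η) - δ χ := by
      have a2 := sgn3_mul_emod (hc η hη)
      by_cases h : 3 ∣ charDegree χ.1
      · simp only [hδ, if_pos h, sub_zero]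
        exact ((Int.natCast_dvd_natCast.2 h).mul_left _).mul_right _
      · have a3 := sgn3_mul_emod (n := charDegree χ.1) (by exact_mod_cast h)
        simp only [hδ, if_neg h]
        refine Int.ModEq.dvd ?_
        unfold Int.ModEq
        rw [Int.mul_emod, a2, a3]
        norm_num
    obtain ⟨a, b, e⟩ := neg_mem (add_mem (int_mul_mem_eisThree (σ χ * sgn3 (c η))
      (hmem χ (mem_irrFinset.1 hχ) η hη)) (mul_mem_eisThree hω (one_pow 3) a1))
    refine ⟨a, b, ?_⟩
    push_cast at e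
    linear_combination -e
  choose! a b hab using h1
  set S : IrrCharacter G → ℤ := fun χ => ∑ η ∈ E, eisN (a χ η) (b χ η) with hS
  set r : IrrCharacter G → ℤ := fun χ => 2 * ∑ η ∈ E, a χ η - ∑ η ∈ E, b χ η with hr0
  set T : IrrCharacter G → ℤ := fun χ => eisN (∑ η ∈ E, a χ η) (∑ η ∈ E, b χ η) with hT
  set w : IrrCharacter G → ℂ := fun χ => ∑ η ∈ E, sgn3 (c η) * exZ z χ η with hw
  have h2 : ∀ χ ∈ B, ∑ η ∈ E, exZ z χ η * conj (exZ z χ η) =
      ((δ χ ^ 2 * E.card - 3 * δ χ * r χ + 9 * S χ : ℤ) : ℂ) := fun χ hχ => by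
    rw [sum_congr rfl fun η hη => show _ = ((δ χ ^ 2 - 3 * δ χ * (2 * a χ η - b χ η) +
      9 * eisN (a χ η) (b χ η) : ℤ) : ℂ) by
        rw [← eis_mul_conj hω, ← hab χ hχ η hη, map_mul, map_mul, map_intCast, map_intCast]
        linear_combination -(exZ z χ η * conj (exZ z χ η)) *
          (hσ2 χ * (sgn3 (c η) : ℂ) * sgn3 (c η) + hε2 η), ← Int.cast_sum]
    simp only [hS, hr0, sum_add_distrib, sum_sub_distrib, ← mul_sum, sum_const, nsmul_eq_mul,
      mul_comm (E.card : ℤ)]
  have h3 : ∀ χ ∈ B, σ χ * w χ = (δ χ * E.card : ℤ) -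
      3 * ((∑ η ∈ E, a χ η : ℤ) + (∑ η ∈ E, b χ η : ℤ) * ω) := fun χ hχ => by
    rw [hw, mul_sum, sum_congr rfl (hab χ hχ)]
    push_cast
    simp only [sum_add_distrib, sum_sub_distrib, ← mul_sum, ← sum_mul, sum_const, nsmul_eq_mul,
      mul_comm (E.card : ℂ)]
  have h4 : ∀ χ ∈ B, w χ * conj (w χ) =
      (((δ χ * E.card) ^ 2 - 3 * (δ χ * E.card) * r χ + 9 * T χ : ℤ) : ℂ) := fun χ hχ => by
    rw [← eis_mul_conj hω, ← h3 χ hχ, map_mul, map_intCast]
    linear_combination -(w χ * conj (w χ)) * hσ2 χ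
  have h5 : ∀ χ ∈ B, σ χ * (w χ + conj (w χ)) = ((2 * (δ χ * E.card) - 3 * r χ : ℤ) : ℂ) :=
    fun χ hχ => by rw [← eis_add_conj hω, ← h3 χ hχ, map_mul, map_intCast, mul_add]
  have h6 : ∀ η ∈ E, ∀ η' ∈ E, ∑ χ ∈ B, exZ z χ η * conj (exZ z χ η') =
      if η' = η then 27 else 0 := fun η hη η' hη' => by
    have := horth η' η hη' hη
    rw [sum_exZ_mul_conj hM hz hC (hEB η hη)]
    split_ifs at this ⊢ <;> linear_combination 27 * this
  have h7 : ∑ χ ∈ B, (δ χ ^ 2 * E.card - 3 * δ χ * r χ + 9 * S χ) = 27 * (E.card : ℤ) := by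
    refine Int.cast_injective (α := ℂ) ?_
    rw [Int.cast_sum, ← sum_congr rfl h2, sum_comm, sum_congr rfl fun η hη => h6 η hη η hη]
    simp [mul_comm]
  have h8 : ∑ χ ∈ B, ((δ χ * E.card) ^ 2 - 3 * (δ χ * E.card) * r χ + 9 * T χ) =
      27 * (E.card : ℤ) := by
    refine Int.cast_injective (α := ℂ) ?_
    rw [Int.cast_sum, ← sum_congr rfl h4]
    simp only [hw, map_sum, sum_mul_sum, map_mul, map_intCast]
    rw [sum_comm, sum_congr rfl fun η hη => show _ = (27 : ℂ) from ?_]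
    · simp [mul_comm]
    · rw [sum_comm, sum_congr rfl fun η' hη' => show _ = if η' = η then
        (sgn3 (c η) : ℂ) * sgn3 (c η') * 27 else 0 from ?_, sum_ite_eq', if_pos hη, hε2, one_mul]
      rw [← mul_ite_zero, ← h6 η hη η' hη', mul_sum]
      exact sum_congr rfl fun χ _ => by ring
  have h9 : ∀ u ∈ J, ∑ χ ∈ B, σ χ * intVal u χ * (2 * (δ χ * E.card) - 3 * r χ) = 0 := by
    intro u hu
    have a1 : ∑ χ ∈ B, intVal u χ * conj (w χ) = 0 := by
      simp only [hw, map_sum, mul_sum, map_mul, map_intCast]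
      rw [sum_comm]
      refine sum_eq_zero fun η hη => ?_
      rw [← mul_zero (sgn3 (c η) : ℂ), ← sum_apply_mul_conj_exZ hM hz hC (hEB η hη) (u := u) (by
        rw [pPart_eq_self_iff.2 (F.pow_u hu)]; exact fun e => F.nuz u hu e.symm), mul_sum]
      exact sum_congr rfl fun χ _ => by rw [cast_intVal (F.ord u hu) (hr u hu)]; ring
    have a2 := congrArg conj a1
    simp only [map_sum, map_mul, map_intCast, Complex.conj_conj, map_zero] at a2
    refine Int.cast_injective (α := ℂ) ?_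
    rw [Int.cast_sum, Int.cast_zero, ← add_zero 0]
    nth_rw 1 [← a1]
    rw [← a2, ← sum_add_distrib]
    refine sum_congr rfl fun χ hχ => ?_
    rw [Int.cast_mul, ← h5 χ hχ]
    push_cast
    linear_combination (intVal u χ : ℂ) * (w χ + conj (w χ)) * hσ2 χ
  have hbes := fun χ (hχ : χ ∈ B) => F.bessel hM hr (mem_irrFinset.1 hχ)
    ((hsec χ (mem_irrFinset.1 hχ)).trans (h2 χ hχ))
  have hpos : ∀ χ ∈ B, 3 ∣ charDegree χ.1 → S χ = 1 ∧ T χ = 1 := fun χ hχ h => by
    have a1 := hbes χ hχ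
    have a2 := classInner_sectionPart_ne_zero hM hz hC (by rw [F'.facG, F.facG])
      (mem_irrFinset.1 hχ)
    have a3 := (hsec χ (mem_irrFinset.1 hχ)).trans (h2 χ hχ)
    have a4 : 0 ≤ S χ := sum_nonneg fun _ _ => eisN_nonneg _ _
    have a5 : 0 ≤ ∑ u ∈ J, intVal u χ ^ 2 := sum_nonneg fun _ _ => sq_nonneg _
    simp only [hδ, if_pos h] at a1 a3
    have a6 : S χ ≠ 0 := fun e => a2 (by
      rw [e] at a3
      simpa using a3)
    have a7 : S χ = 1 := by omega
    exact ⟨a7, eisN_sum_eq_one _ _ _ a7⟩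
  set H := {χ ∈ B | ¬ 3 ∣ charDegree χ.1} with hH
  have hδ1 : ∀ χ ∈ H, δ χ = 1 := fun χ hχ => if_neg (mem_filter.1 hχ).2
  have split : ∀ f g : IrrCharacter G → ℤ, (∀ χ ∈ H, f χ = g χ) →
      (∀ χ ∈ B, 3 ∣ charDegree χ.1 → f χ = 9) →
      ∑ χ ∈ B, f χ = ∑ χ ∈ H, g χ + 9 * #{χ ∈ B | 3 ∣ charDegree χ.1} := fun f g e1 e2 => by
    rw [← sum_filter_not_add_sum_filter B (fun χ => 3 ∣ charDegree χ.1), sum_congr rfl e1,
      sum_congr rfl fun χ hχ => e2 χ (mem_filter.1 hχ).1 (mem_filter.1 hχ).2]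
    simp [mul_comm]
  have hsq : ∀ u χ, (σ χ * intVal u χ) ^ 2 = intVal u χ ^ 2 := fun u χ => by
    rw [mul_pow, sq (σ χ), sgn3_sq, one_mul]
  have core := extraThree_core H J E.card #{χ ∈ B | 3 ∣ charDegree χ.1}
    (fun u χ => σ χ * intVal u χ) S r T hJ (by omega) (by omega) (F.card_height_zero hM hr hJ)
    (fun u hu χ hχ => F.sgn_mul_intVal hM hr hu (mem_irrFinset.1 (mem_filter.1 hχ).1)
      (mem_filter.1 hχ).2)
    (fun u hu => by
      simp only [hsq]
      rw [F.sum_filter_eq hM hr hu _ fun χ h => by simp [h], F.sum_intVal_sq hM hr hu])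
    (fun u hu v hv huv => by
      rw [F.sum_filter_eq hM hr hu _ fun χ h => by simp [h],
        ← (F.sum_intVal_mul hM hr hu hv).trans (if_neg huv)]
      exact sum_congr rfl fun χ _ => by
        linear_combination intVal u χ * intVal v χ * sgn3_sq (charDegree χ.1))
    (fun χ _ => sum_nonneg fun _ _ => eisN_nonneg _ _) (fun χ _ => sum_two_mul_sub_le _ _ _)
    (fun χ _ => eisN_sum_le _ _ _) (fun χ _ => sq_le_four_mul_eisN _ _)
    (fun χ hχ => by
      have := hbes χ (mem_filter.1 hχ).1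
      simp only [hsq]
      rw [hδ1 χ hχ] at this
      omega)
    (by
      rw [← h7]
      refine (split _ _ (fun χ hχ => by rw [hδ1 χ hχ]; ring) fun χ hχ h => ?_).symm
      simp only [hδ, if_pos h, (hpos χ hχ h).1]
      ring)
    (by
      rw [← h8]
      refine (split _ _ (fun χ hχ => by rw [hδ1 χ hχ]; ring) fun χ hχ h => ?_).symm
      simp only [hδ, if_pos h, (hpos χ hχ h).2]
      ring)
    (fun u hu => by
      rw [← h9 u hu, ← F.sum_filter_eq hM hr hu _ fun χ h => by simp [h]]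
      exact sum_congr rfl fun χ hχ => by rw [hδ1 χ hχ, one_mul])
  have hk := F.card_principalBlock hM
  have hk2 := card_filter_add_card_filter_not (s := B) (fun χ => 3 ∣ charDegree χ.1)
  have hk3 : B.card = _ := card_irrFinset _
  rw [← hH] at hk2
  subst hC
  omega

omit hz hC [Fintype C] in
theorem XFus.principal_count_nilp {J : Finset G} (F : XFus z J) (hJ : J.card = 8)
    (h : HasNormalPComplement 3 G) :
    #{χ ∈ irrFinset (principalBlock M G) | ¬ 3 ∣ charDegree χ.1} = 9 ∧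
      Nat.card (principalBlock M G) = 11 ∧ blockRank 3 (principalBlock M G) = 1 := by
  classical
  have := Fact.mk Nat.prime_three
  have h1 := hM.blockRank_principalBlock_eq_one_iff'.2 h
  have h2 := F.card_principalBlock hM
  rw [h1, hM.blockRank_principalBlock_eq_one_iff'.2 (h.subgroup _), hJ] at h2
  refine ⟨?_, h2, h1⟩
  have h3 := hM.sum_principalBlock_charDegree_sq_of_hasNormalPComplement h
  have h4 := card_filter_add_card_filter_not (s := irrFinset (principalBlock M G))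
    (fun χ => 3 ∣ charDegree χ.1)
  rw [card_irrFinset, h2] at h4
  rw [F.facG, ← sum_filter_add_sum_filter_not _ (fun χ => 3 ∣ charDegree χ.1)] at h3
  have h5 := card_nsmul_le_sum {χ ∈ irrFinset (principalBlock M G) | 3 ∣ charDegree χ.1}
    (fun χ => charDegree χ.1 ^ 2) 9 fun χ hχ => by
      have := Nat.le_of_dvd χ.charDegree_pos (mem_filter.1 hχ).2
      nlinarith
  have h6 := card_nsmul_le_sum {χ ∈ irrFinset (principalBlock M G) | ¬ 3 ∣ charDegree χ.1}
    (fun χ => charDegree χ.1 ^ 2) 1 fun χ hχ => pow_pos χ.charDegree_pos 2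
  have h7 : 3 ∣ ∑ χ ∈ irrFinset (principalBlock M G) with 3 ∣ charDegree χ.1,
      charDegree χ.1 ^ 2 := dvd_sum fun χ hχ => (mem_filter.1 hχ).2.trans (dvd_pow_self _ two_ne_zero)
  have h8 : (∑ χ ∈ irrFinset (principalBlock M G) with ¬ 3 ∣ charDegree χ.1,
      charDegree χ.1 ^ 2) % 3 =
      #{χ ∈ irrFinset (principalBlock M G) | ¬ 3 ∣ charDegree χ.1} % 3 := by
    rw [card_eq_sum_ones, sum_nat_mod, sum_congr rfl fun χ hχ => show _ = 1 from ?_]
    have := (mem_filter.1 hχ).2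
    rw [sq, Nat.mul_mod]
    have : charDegree χ.1 % 3 = 1 ∨ charDegree χ.1 % 3 = 2 := by omega
    rcases this with h | h <;> rw [h]
  simp only [smul_eq_mul] at h5 h6
  omega

end Cfsg
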