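import Cfsg.Agent.Blk.Robinson
import Cfsg.Agent.Blk.BlockGalois
import Cfsg.Agent.Blk.BrauerHom
import Cfsg.Agent.CT.Burnside

/-! The Galois-fixed height zero characters of the principal block add up to zero modulo `M`. -/

set_option autoImplicit false

namespace Cfsg

open scoped ComplexConjugate

universe u

theorem sum_eq_sum_fixed_perm {p : ℕ} [Fact p.Prime] {X : Type*} [DecidableEq X]
    (π : Equiv.Perm X) {e : ℕ} (h : π ^ p ^ e = 1) {A : Type*} [AddCommMonoid A]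
    (hA : ∀ a : A, p • a = 0) (s : Finset X) (hs : ∀ x ∈ s, π x ∈ s) (f : X → A)
    (hf : ∀ x ∈ s, f (π x) = f x) : ∑ x ∈ s, f x = ∑ x ∈ s with π x = x, f x := by
  classical
  have hp : p.Prime := Fact.out
  have hfin : IsOfFinOrder π := isOfFinOrder_iff_pow_eq_one.2 ⟨_, pow_pos hp.pos e, h⟩
  have : Finite (Subgroup.zpowers π) := hfin.finite_zpowers
  have hP : IsPGroup p (Subgroup.zpowers π) := fun g => ⟨e, Subtype.ext (by
    obtain ⟨_, i, rfl⟩ := g
    simp only [SubgroupClass.coe_pow, OneMemClass.coe_one]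
    rw [← zpow_natCast, ← zpow_mul, mul_comm, zpow_mul, zpow_natCast, h, one_zpow])⟩
  have h1 : ∀ n : ℕ, ∀ x ∈ s, (π ^ n) x ∈ s ∧ f ((π ^ n) x) = f x := fun n x hx => by
    induction n with
    | zero => exact ⟨hx, rfl⟩
    | succ n ih => rw [pow_succ', Equiv.Perm.mul_apply]; exact ⟨hs _ ih.1, (hf _ ih.1).trans ih.2⟩
  have h2 : ∀ g : Subgroup.zpowers π, ∃ n : ℕ, π ^ n = g := fun g =>
    (hfin.mem_powers_iff_mem_zpowers.2 g.2)
  rw [sum_eq_sum_fixed hP hA s (fun g x hx => ?_) f (fun g x hx => ?_)]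
  · refine Finset.sum_congr (Finset.filter_congr fun x _ => ⟨fun h => h ⟨π, Subgroup.mem_zpowers π⟩,
      fun h g => ?_⟩) fun _ _ => rfl
    obtain ⟨n, hn⟩ := h2 g
    change (g : Equiv.Perm X) x = x
    rw [← hn]; exact Equiv.Perm.pow_apply_eq_self_of_apply_eq_self h n
  · obtain ⟨n, hn⟩ := h2 g
    change (g : Equiv.Perm X) x ∈ s
    rw [← hn]; exact (h1 n x hx).1
  · obtain ⟨n, hn⟩ := h2 g
    change f ((g : Equiv.Perm X) x) = f x
    rw [← hn]; exact (h1 n x hx).2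

variable {G : Type u} [Group G] [Finite G] {p : ℕ} {M : Ideal AlgInt}

theorem IsPBlock.sum_red_eq_zero (hM : IsPModular p M) (hp : p ∣ Nat.card G)
    {B : Set (IrrCharacter G)} (hB : IsPBlock M B) (g : G) :
    ∑ χ ∈ irrFinset B, (charDegree χ.1 : resK M) * red M (χ.1 g) = 0 := by
  have := hM.charP
  have h1 : ∑ χ ∈ irrFinset B, (charDegree χ.1 : ℂ) * χ.1 g =
      (Nat.card G : ℂ) * blockCoeff B g⁻¹ := by
    rw [blockCoeff_eq, mul_inv_cancel_left₀ (Nat.cast_ne_zero.2 Nat.card_pos.ne')]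
    exact Finset.sum_congr rfl fun χ _ => by
      rw [χ.apply_inv, Complex.conj_conj, χ.one_eq_charDegree]
  have h2 := congrArg (red M) h1
  rw [red_mul (natCast_mem_valO _) (hB.blockCoeff_mem hM _), red_natCast,
    (CharP.cast_eq_zero_iff (resK M) p _).2 hp, zero_mul,
    red_sum _ fun χ _ => mul_mem (natCast_mem_valO _) (χ.mem_valO g)] at h2
  rw [← h2]
  exact Finset.sum_congr rfl fun χ _ => by
    rw [red_mul (natCast_mem_valO _) (χ.mem_valO g), red_natCast]

open Classical in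
theorem IsPModular.sum_fixed_red_eq_zero (hM : IsPModular p M) (hp : p ∣ Nat.card G) {k e : ℕ}
    (hk : k.Coprime (Nat.card G)) (he : ∀ g : G, g ^ k ^ p ^ e = g)
    (hk₂ : ∀ g : G, ¬ p ∣ orderOf g → g ^ k = g) (g : G) :
    ∑ χ ∈ irrFinset (principalBlock M G) with
      ¬ p ∣ charDegree χ.1 ∧ ∀ g : G, χ.1 (g ^ k) = χ.1 g,
        (charDegree χ.1 : resK M) * red M (χ.1 g) = 0 := by
  have : Fact p.Prime := ⟨hM.1⟩
  have := hM.charP
  let π : Equiv.Perm (IrrCharacter G) := MulAction.toPerm (ZMod.unitOfCoprime k hk)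
  have hπ : ∀ χ, π χ = χ.powConj k hk := fun χ => IrrCharacter.unitOfCoprime_smul hk χ
  have hn : ∀ (n : ℕ) (χ : IrrCharacter G) (g : G), ((π ^ n) χ).1 g = χ.1 (g ^ k ^ n) := by
    intro n
    induction n with
    | zero => intro χ g; simp
    | succ n ih =>
      intro χ g
      rw [pow_succ', Equiv.Perm.mul_apply, hπ, IrrCharacter.powConj_apply, ih, ← pow_mul, pow_succ']
  have h1 : π ^ p ^ e = 1 := Equiv.ext fun χ => Subtype.ext (funext fun g => by
    rw [hn, he]; rfl)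
  obtain ⟨σ, hσ, -⟩ := exists_galois_pow.{u} Nat.card_pos.ne' hk
  have h2 := isPBlock_principalBlock.sum_red_eq_zero hM hp (pRegPart p g)
  rw [sum_eq_sum_fixed_perm π h1 (fun a => by simp [nsmul_eq_mul]) _ (fun χ hχ => ?_) _
    (fun χ _ => ?_), ← Finset.sum_filter_of_ne (p := fun χ : IrrCharacter G => ¬ p ∣ charDegree χ.1)
      (fun χ _ h hd => h (by rw [(CharP.cast_eq_zero_iff (resK M) p _).2 hd, zero_mul])),
    Finset.filter_filter] at h2
  · rw [← h2]
    refine Finset.sum_congr (Finset.filter_congr fun χ _ => ?_) fun χ _ => by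
      rw [hM.red_irr_pRegPart]
    rw [and_comm, hπ]
    exact and_congr_left' ⟨fun h => Subtype.ext (funext h), fun h => congrFun (congrArg Subtype.val h)⟩
  · rw [mem_irrFinset] at hχ ⊢
    rwa [hπ, χ.powConj_eq_galois hk (σ := (σ : ℂ →+* ℂ)) (fun _ => pow_card_eq_one') hσ,
      hM.galois_mem_principalBlock_iff]
  · rw [hπ, IrrCharacter.charDegree_powConj, IrrCharacter.powConj_apply,
      hk₂ _ (not_dvd_orderOf_pRegPart g)]

/-- if only one non-trivial height zero character of the principal block is fixed, it is linear -/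
theorem IsPModular.charDegree_eq_one_of_card_fixed_two (hM : IsPModular p M) (hp : p ∣ Nat.card G)
    {k e : ℕ} (hk : k.Coprime (Nat.card G)) (he : ∀ g : G, g ^ k ^ p ^ e = g)
    (hk₂ : ∀ g : G, ¬ p ∣ orderOf g → g ^ k = g)
    (h : Nat.card {χ : IrrCharacter G // χ ∈ principalBlock M G ∧ ¬ p ∣ charDegree χ.1 ∧
      ∀ g : G, χ.1 (g ^ k) = χ.1 g} = 2) {χ : IrrCharacter G} (h1 : χ ∈ principalBlock M G)
    (h2 : ¬ p ∣ charDegree χ.1) (h3 : ∀ g : G, χ.1 (g ^ k) = χ.1 g) : charDegree χ.1 = 1 := by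
  classical
  by_contra hne
  obtain ⟨g, hg⟩ := χ.exists_eq_zero hne
  have h4 := hM.sum_fixed_red_eq_zero hp hk he hk₂ g
  have ht : IrrCharacter.triv G ≠ χ := fun h => hne (h ▸ IrrCharacter.charDegree_triv)
  have h5 : IrrCharacter.triv G ∈ principalBlock M G ∧ ¬ p ∣ charDegree (IrrCharacter.triv G).1 ∧
      ∀ g : G, (IrrCharacter.triv G).1 (g ^ k) = (IrrCharacter.triv G).1 g :=
    ⟨hM.triv_mem_principalBlock, by simpa using hM.1.ne_one, fun _ => rfl⟩
  obtain ⟨y, -, hy⟩ := (Nat.card_eq_two_iff' ⟨_, h5⟩).1 h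
  rw [Finset.sum_eq_add_of_mem (IrrCharacter.triv G) χ (by simpa using h5)
    (by simpa using ⟨h1, h2, h3⟩) ht fun ψ hψ hc => absurd (congrArg Subtype.val
      ((hy ⟨ψ, by simpa using hψ⟩ fun h => hc.1 (congrArg Subtype.val h)).trans
        (hy ⟨χ, h1, h2, h3⟩ fun h => ht (congrArg Subtype.val h).symm).symm)) hc.2, hg] at h4
  simp at h4

end Cfsg
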