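import Cfsg.Agent.Blk.Frame

/-! The values of integral reproducing kernels of bounded trace satisfy a chain condition. -/

namespace Cfsg.Frm

open Finset Pointwise

universe u

/-- Negatives of the norms of the row sum function of kernels with denominator `e` and trace at
most `ρ`. -/
def Val (e : ℤ) (ρ : ℕ) : Set ℝ :=
  {x | ∃ (ι : Type u) (R : Finset ι) (n : ℝ) (K : ι → ι → ℝ) (φ : ι → ℝ), RK R n K ∧
    (∀ g ∈ R, ∑ h ∈ R, K g h = n * φ g) ∧ ∑ g ∈ R, K g g ≤ ρ * n ∧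
    (∀ h ∈ R, ∀ g ∈ R, ∃ m : ℤ, e * K h g = m) ∧ (∀ g ∈ R, ∃ m : ℤ, e * φ g = m) ∧
    ∑ g ∈ R, φ g * φ g = n * -x}

variable {ι : Type*} {R : Finset ι} {n : ℝ} {K : ι → ι → ℝ} {φ : ι → ℝ}

theorem RK.mem_of_row (hK : RK R n K) (hφ : ∀ g ∈ R, ∑ h ∈ R, K g h = n * φ g) : Mem R n K φ := by
  intro h hh
  refine mul_left_cancel₀ hK.pos.ne' ?_
  rw [mul_sum, sum_congr rfl fun g hg => by rw [mul_left_comm, ← hφ g hg, mul_sum], sum_comm,
    sum_congr rfl fun t ht => hK.rep h hh t ht, ← mul_sum, hφ h hh]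

theorem RK.sum_of_row (hK : RK R n K) (hφ : ∀ g ∈ R, ∑ h ∈ R, K g h = n * φ g) :
    ∑ g ∈ R, φ g * φ g = ∑ g ∈ R, φ g := by
  refine mul_left_cancel₀ hK.pos.ne' ?_
  rw [mul_sum, sum_congr rfl fun g hg => by rw [← mul_assoc, ← hφ g hg, sum_mul], sum_comm, mul_sum]
  refine sum_congr rfl fun h hh => ?_
  rw [← hK.mem_of_row hφ h hh]
  exact sum_congr rfl fun g _ => by rw [hK.symm]

theorem Val.nonpos {e : ℤ} {ρ : ℕ} {x : ℝ} (h : x ∈ Val.{u} e ρ) : x ≤ 0 := by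
  obtain ⟨ι, R, n, K, φ, hK, -, -, -, -, h6⟩ := h
  have : 0 ≤ n * -x := h6 ▸ sum_nonneg fun _ _ => mul_self_nonneg _
  linarith [(mul_nonneg_iff_of_pos_left hK.pos).1 this]

theorem Val.zero {e : ℤ} {x : ℝ} (h : x ∈ Val.{u} e 0) : x = 0 := by
  obtain ⟨ι, R, n, K, φ, hK, h2, h3, -, -, h6⟩ := h
  rw [sum_eq_zero fun g hg => by
    rw [hK.apply_zero (hK.mem_of_row h2) hg (hK.diag_zero (by simpa using h3) hg), zero_mul]] at h6
  simpa [hK.pos.ne'] using h6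

theorem Val.step {e : ℤ} (he : 0 < e) {ρ : ℕ} {x : ℝ} (h : x ∈ Val.{u} e (ρ + 1)) (hx : x < 0) :
    ∃ N y : ℤ, 0 < N ∧ N * -x ≤ e * (ρ + 1) ∧ y ^ 2 ≤ e ^ 2 * (ρ + 1) ∧
      x + y ^ 2 / (e * N) ∈ Val.{u} (e * N) ρ := by
  classical
  obtain ⟨ι, R, n, K, φ, hK, h2, h3, h4, h5, h6⟩ := h
  have hn := hK.pos
  have hm := hK.mem_of_row h2
  have he' : (0 : ℝ) < e := by exact_mod_cast he
  set S := R.filter fun g => K g g ≠ 0 with hS
  have hz : ∀ g ∈ R, φ g ≠ 0 → K g g ≠ 0 := fun g hg h h0 => h (hK.apply_zero hm hg h0)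
  have h7 : ∑ g ∈ S, φ g = n * -x := by
    rw [← h6, hK.sum_of_row h2, hS, sum_filter_of_ne hz]
  have h8 : ∑ g ∈ S, φ g ^ 2 = n * -x := by
    rw [← h6, hS, sum_filter_of_ne fun g hg h => hz g hg (pow_ne_zero_iff two_ne_zero |>.1 h)]
    simp only [sq]
  have hpos : 0 < n * -x := mul_pos hn (by linarith)
  have h9 : n * -x ≤ S.card := by
    have := sq_sum_le_card_mul_sum_sq (s := S) (f := φ)
    rw [h7, h8, sq] at this
    exact le_of_mul_le_mul_right this hpos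
  obtain ⟨a, ha, hmin⟩ := S.exists_min_image (fun a => K a a)
    (card_pos.1 (by exact_mod_cast hpos.trans_le h9))
  obtain ⟨ha, ha0⟩ := mem_filter.1 ha
  have hp : 0 < K a a := lt_of_le_of_ne (hK.diag_nonneg ha) ha0.symm
  have h10 : K a a * -x ≤ ρ + 1 := by
    have h11 := card_nsmul_le_sum S (fun g => K g g) (K a a) hmin
    rw [hS, sum_filter_of_ne fun _ _ h => h, nsmul_eq_mul, ← hS] at h11
    push_cast at h3
    refine le_of_mul_le_mul_left ?_ hn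
    nlinarith
  have h11 := hK.sum_pt ha ha0 hm hm
  have h12 : φ a * φ a ≤ K a a * -x := by
    have h13 : 0 ≤ n * -x - n * (φ a * φ a / K a a) := by
      rw [← h6, ← h11]; exact sum_nonneg fun _ _ => mul_self_nonneg _
    rw [← mul_sub, mul_nonneg_iff_of_pos_left hn, sub_nonneg, div_le_iff₀ hp] at h13
    linarith
  obtain ⟨N, hN⟩ := h4 a ha a ha
  obtain ⟨y, hy⟩ := h5 a ha
  refine ⟨N, y, by exact_mod_cast hN ▸ mul_pos he' hp, by rw [← hN]; nlinarith, ?_,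
    ι, R, n, _, _, hK.dfl (hK.mem_row ha) ha0 (hK.sum_sq ha), row_dfl h2 (h2 a ha), ?_,
    fun h hh g hg => ?_, fun g hg => ?_, ?_⟩
  · have : (y : ℝ) ^ 2 ≤ e ^ 2 * (ρ + 1) := by
      rw [← hy, mul_pow, sq (φ a)]
      exact mul_le_mul_of_nonneg_left (h12.trans h10) (sq_nonneg _)
    exact_mod_cast this
  · rw [trace_dfl ha0 (hK.sum_sq ha)]
    push_cast at h3
    linarith
  · obtain ⟨b, hb⟩ := h4 h hh g hg
    obtain ⟨c, hc⟩ := h4 a ha h hh
    obtain ⟨d, hd⟩ := h4 a ha g hg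
    refine ⟨b * N - c * d, ?_⟩
    push_cast
    rw [← hN, ← hb, ← hc, ← hd, Frm.dfl]
    field_simp
  · obtain ⟨b, hb⟩ := h5 g hg
    obtain ⟨d, hd⟩ := h4 a ha g hg
    refine ⟨b * N - y * d, ?_⟩
    push_cast
    rw [← hN, ← hb, ← hy, ← hd]
    field_simp
  · rw [h11, h6, ← hN, ← hy]
    field_simp
    ring

theorem Val.isWF (ρ : ℕ) : ∀ e : ℤ, 0 < e → (Val.{u} e ρ).IsWF := by
  induction ρ with
  | zero => exact fun e _ => (Set.finite_singleton (0 : ℝ)).isWF.mono fun x hx => Val.zero hx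
  | succ ρ ih =>
    intro e he
    refine Set.isWF_iff_no_descending_seq.2 fun f hf hall => ?_
    have h1 : f 1 < 0 := (hf zero_lt_one).trans_le (Val.nonpos (hall 0))
    obtain ⟨B, hB⟩ := exists_int_gt (e * (ρ + 1) / -f 1 : ℝ)
    have hU : (⋃ z ∈ Icc (1 : ℤ) B ×ˢ Icc (-(e ^ 2 * (ρ + 1) : ℤ)) (e ^ 2 * (ρ + 1)),
        ({-((z.2 : ℝ) ^ 2 / (e * z.1))} + Val.{u} (e * z.1) ρ : Set ℝ)).IsWF :=
      (Finset.isWF_bUnion _).2 fun z hz => (Set.finite_singleton _).isWF.add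
        (ih _ (mul_pos he (by have := (mem_Icc.1 (mem_product.1 hz).1).1; omega)))
    refine Set.isWF_iff_no_descending_seq.1 hU (fun i => f (i + 1))
      (fun i j h => hf (Nat.succ_lt_succ h)) fun i => ?_
    have h2 : f (i + 1) ≤ f 1 := hf.antitone (by omega)
    obtain ⟨N, y, h3, h4, h5, h6⟩ := Val.step he (hall (i + 1)) (h2.trans_lt h1)
    refine Set.mem_iUnion₂.2 ⟨(N, y), mem_product.2 ⟨mem_Icc.2 ⟨h3, ?_⟩, mem_Icc.2 ?_⟩,
      Set.mem_add.2 ⟨_, rfl, _, h6, by ring⟩⟩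
    · have h7 : (0 : ℝ) < N := by exact_mod_cast h3
      rw [div_lt_iff₀ (by linarith)] at hB
      have : (N : ℝ) < B := lt_of_mul_lt_mul_right (a := -f 1) (by nlinarith) (by linarith)
      exact_mod_cast this.le
    · exact abs_le.1 ((Int.le_self_sq _).trans ((sq_abs y).trans_le h5))

theorem Val.mono {e : ℤ} {ρ σ : ℕ} (h : ρ ≤ σ) : Val.{u} e ρ ⊆ Val.{u} e σ := by
  rintro x ⟨ι, R, n, K, φ, hK, h2, h3, h4⟩
  exact ⟨ι, R, n, K, φ, hK, h2, h3.trans (mul_le_mul_of_nonneg_right (by exact_mod_cast h)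
    hK.pos.le), h4⟩

/-- Sums of at most `j` members of `S`. -/
def sums (S : Set ℝ) : ℕ → Set ℝ
  | 0 => {0}
  | j + 1 => insert 0 S + sums S j

theorem isWF_sums {S : Set ℝ} (h : S.IsWF) : ∀ j, (sums S j).IsWF
  | 0 => (Set.finite_singleton _).isWF
  | j + 1 => (h.insert 0).add (isWF_sums h j)

theorem sum_mem_sums {S : Set ℝ} {κ : Type*} {f : κ → ℝ} :
    ∀ (j : ℕ) (s : Finset κ), s.card ≤ j → (∀ x ∈ s, f x ∈ S) → ∑ x ∈ s, f x ∈ sums S j
  | 0, s, h, _ => by rw [card_eq_zero.1 (Nat.le_zero.1 h)]; rfl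
  | j + 1, s, h, hs => by
    classical
    rcases s.eq_empty_or_nonempty with rfl | ⟨x, hx⟩
    · exact ⟨0, Set.mem_insert _ _, _, sum_mem_sums (f := f) j ∅ (by simp) (by simp), by simp⟩
    · exact ⟨f x, Set.mem_insert_of_mem _ (hs x hx), _, sum_mem_sums j (s.erase x)
        (by rw [card_erase_of_mem hx]; omega) fun y hy => hs y (mem_of_mem_erase hy),
        add_sum_erase _ _ hx⟩

end Cfsg.Frm
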