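import Cfsg.Agent.Blk.FrameAcc
import Cfsg.Agent.Blk.PrinFiveS

/-! The order of a Sylow subgroup is bounded in terms of `k(B₀)`. -/

namespace Cfsg.K5

open scoped ComplexConjugate
open Finset Cfsg.Frm

universe u

variable {G : Type u} [Group G] [Fintype G] {p : ℕ} {M : Ideal AlgInt}

/-- The kernel of the principal block. -/
noncomputable def KB (M : Ideal AlgInt) (h g : G) : ℤ :=
  ⌊(∑ χ ∈ irrFinset (principalBlock M G), χ.1 h * conj (χ.1 g)).re⌋

theorem cast_KB (hM : IsPModular p M) (h g : G) :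
    (KB M h g : ℂ) = ∑ χ ∈ irrFinset (principalBlock M G), χ.1 h * conj (χ.1 g) := by
  obtain ⟨m, hm⟩ := exists_int_of_forall_ringEquiv_fixed
    (z := ∑ χ ∈ irrFinset (principalBlock M G), χ.1 h * conj (χ.1 g))
    (IsIntegral.sum _ fun χ _ => (χ.isIntegral h).mul (χ.cconj.isIntegral g)) fun σ => by
      rw [map_sum, ← sum_irrFinset_galois (hM.galois_mem_principalBlock_iff (σ : ℂ →+* ℂ))
        fun χ => χ.1 h * conj (χ.1 g)]
      refine sum_congr rfl fun χ _ => ?_
      rw [map_mul, IrrCharacter.galois_apply, IrrCharacter.galois_apply,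
        ← χ.2.isCharacter.isGeneralizedCharacter.galois_conj]
      rfl
  rw [KB, hm]; simp

theorem KB_symm (hM : IsPModular p M) (h g : G) : KB M h g = KB M g h := by
  have h1 := congrArg conj (cast_KB hM h g)
  simp only [map_intCast, map_sum, map_mul, Complex.conj_conj, mul_comm (conj _)] at h1
  rw [← cast_KB hM] at h1
  exact_mod_cast h1

variable [hp : Fact p.Prime]

theorem sum_KB_mul (hM : IsPModular p M) {ψ : IrrCharacter G} (hψ : ψ ∈ principalBlock M G)
    {h : G} (hh : h ∈ regs p G) :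
    ∑ g ∈ regs p G, (KB M h g : ℂ) * ψ.1 g = Nat.card G * ψ.1 h := by
  have hq : (p : ℂ) ^ blockDefect p (principalBlock M G) ≠ 0 :=
    pow_ne_zero _ (by exact_mod_cast hp.out.ne_zero)
  refine mul_left_cancel₀ hq ?_
  simp only [cast_KB hM, sum_mul]
  rw [sum_comm, mul_sum, mul_left_comm, ← pRegularPart_of_not_dvd (θ := ψ.1) (mem_regs.1 hh),
    ← isPBlock_principalBlock.sum_contrib_mul_apply hM hψ, mul_sum]
  refine sum_congr rfl fun χ _ => ?_
  rw [← mul_assoc, ← pi_eq hψ, mul_assoc, sum_mul]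
  exact congrArg _ (sum_congr rfl fun g _ => by ring)

theorem rk_KB (hM : IsPModular p M) :
    RK (regs p G) (Nat.card G) fun h g => (KB M h g : ℝ) := by
  refine ⟨by exact_mod_cast Nat.card_pos, fun h g => by rw [KB_symm hM], fun h hh t _ => ?_⟩
  have h1 : ∑ g ∈ regs p G, (KB M h g : ℂ) * KB M g t = Nat.card G * KB M h t := by
    simp only [cast_KB hM _ t, mul_sum, ← mul_assoc]
    rw [sum_comm]
    exact sum_congr rfl fun ψ hψ => by rw [← sum_mul, sum_KB_mul hM (mem_irrFinset.1 hψ) hh]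
  exact_mod_cast h1

theorem row_KB (hM : IsPModular p M) {h : G} (hh : h ∈ regs p G) :
    ∑ g ∈ regs p G, (KB M h g : ℝ) = Nat.card G := by
  have h1 := sum_KB_mul hM hM.triv_mem_principalBlock hh
  simp only [IrrCharacter.triv_apply, mul_one] at h1
  exact_mod_cast h1

theorem trace_KB (hM : IsPModular p M) :
    ∑ g ∈ regs p G, (KB M g g : ℝ) = blockRank p (principalBlock M G) * Nat.card G := by
  have hq : (p : ℂ) ^ blockDefect p (principalBlock M G) ≠ 0 :=
    pow_ne_zero _ (by exact_mod_cast hp.out.ne_zero)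
  have h1 : ∑ g ∈ regs p G, (KB M g g : ℂ) = blockRank p (principalBlock M G) * Nat.card G := by
    refine mul_left_cancel₀ hq ?_
    have h2 : ∑ χ ∈ irrFinset (principalBlock M G), (contrib p (principalBlock M G) χ χ : ℂ) =
        (p : ℂ) ^ blockDefect p (principalBlock M G) * blockRank p (principalBlock M G) := by
      exact_mod_cast isPBlock_principalBlock.sum_contrib_self (G := G) hM
    simp only [cast_KB hM]
    rw [sum_comm, mul_sum, sum_congr rfl fun χ hχ => pi_eq (mem_irrFinset.1 hχ) χ, ← mul_sum, h2]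
    ring
  exact_mod_cast h1

theorem mem_val (hM : IsPModular p M) {k : ℕ} (hk : blockRank p (principalBlock M G) ≤ k) :
    -((regs p G).card / Nat.card G : ℝ) ∈ Val.{u} 1 k := by
  have hK := rk_KB (G := G) hM
  refine Val.mono hk ⟨G, _, _, _, fun _ => 1, hK, fun g hg => by rw [row_KB hM hg, mul_one],
    (trace_KB hM).le, fun h _ g _ => ⟨KB M h g, by simp⟩, fun _ _ => ⟨1, by simp⟩, ?_⟩
  rw [neg_neg, mul_div_cancel₀ _ hK.pos.ne']
  simp

open Classical in
theorem card_section_eq {u : G} (hu : ∃ k : ℕ, orderOf u = p ^ k) (C : Subgroup G) [Fintype C]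
    (hC : C = Subgroup.centralizer ({u} : Set G)) :
    (univ.filter fun g : G => IsConj (pPart p g) u).card = C.index * (regs p C).card := by
  refine le_antisymm (card_section_le u C hC) ?_
  have := Fintype.ofFinite (G ⧸ C)
  rw [Subgroup.index, Nat.card_eq_fintype_card, ← card_univ, ← card_product]
  have h1 : ∀ (t : G) (s : C), s ∈ regs p C → pPart p (t * (u * s) * t⁻¹) = t * u * t⁻¹ := by
    intro t s hs
    rw [pPart_conj, pPart_mul_of_commute
      (Subgroup.mem_centralizer_singleton_iff.1 (hC.le s.2)).symm hu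
      (by simpa using mem_regs.1 hs)]
  refine card_le_card_of_injOn (fun x => x.1.out * (u * x.2) * x.1.out⁻¹) (fun x hx => ?_)
    fun x hx y hy h => ?_
  · refine mem_coe.2 (mem_filter.2 ⟨mem_univ _, ?_⟩)
    rw [h1 _ _ (mem_product.1 hx).2]
    exact (isConj_iff.2 ⟨_, rfl⟩ : IsConj u _).symm
  · have h2 := congrArg (pPart p) h
    rw [h1 _ _ (mem_product.1 hx).2, h1 _ _ (mem_product.1 hy).2] at h2
    have h3 : x.1 = y.1 := by
      rw [← x.1.out_eq', ← y.1.out_eq', QuotientGroup.eq]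
      refine hC.ge (Subgroup.mem_centralizer_singleton_iff.2 ?_)
      calc _ = x.1.out⁻¹ * (y.1.out * u * y.1.out⁻¹) * y.1.out := by group
        _ = _ := by rw [← h2]; group
    simp only [h3, mul_left_inj, mul_right_inj] at h
    exact Prod.ext h3 (Subtype.ext h)

theorem exists_sum_val (hM : IsPModular p M) {k : ℕ} (hk : Nat.card (principalBlock M G) ≤ k) :
    ∃ y ∈ sums (Val.{u} 1 k) k, -((regs p G).card / Nat.card G : ℝ) + y = -1 := by
  classical
  obtain ⟨X, hX, hrep⟩ := exists_pElement_reps p G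
  have h3 := hM.card_principalBlock_eq_sum X hX hrep
  have hn : (Nat.card G : ℝ) ≠ 0 := by exact_mod_cast Nat.card_pos.ne'
  have h4 : (univ.filter fun g : G => p ∣ orderOf g) = (X.erase 1).biUnion fun x =>
      univ.filter fun g : G => IsConj (pPart p g) x := by
    ext g
    simp only [mem_filter, mem_univ, true_and, mem_biUnion, mem_erase]
    refine ⟨fun hg => ?_, fun ⟨x, ⟨hx, _⟩, h⟩ => ?_⟩
    · obtain ⟨x, ⟨hx, h5⟩, -⟩ := hrep (pPart p g) (exists_orderOf_pPart g)
      refine ⟨x, ⟨fun h => ?_, hx⟩, h5⟩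
      rw [h, isConj_one_left, pPart_eq_one_iff] at h5
      exact h5 hg
    · by_contra h5
      rw [pPart_eq_one_iff.2 h5, isConj_one_right] at h
      exact hx h
  have h5 : (univ.filter fun g : G => p ∣ orderOf g).card + (regs p G).card = Nat.card G := by
    have := card_filter_add_card_filter_not (s := (univ : Finset G)) fun g => p ∣ orderOf g
    rw [card_univ, ← Nat.card_eq_fintype_card] at this
    rw [← this]
    congr 2
  rw [h4, card_biUnion fun x hx y hy hxy => disjoint_left.2 fun g h6 h7 => hxy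
    ((hrep _ (exists_orderOf_pPart g)).unique ⟨mem_of_mem_erase hx, (mem_filter.1 h6).2⟩
      ⟨mem_of_mem_erase hy, (mem_filter.1 h7).2⟩)] at h5
  refine ⟨∑ x ∈ X.erase 1, -((univ.filter fun g : G => IsConj (pPart p g) x).card / Nat.card G : ℝ),
    sum_mem_sums k _ ?_ fun x hx => ?_, ?_⟩
  · refine (card_erase_le).trans (le_trans ?_ hk)
    rw [h3, card_eq_sum_ones]
    exact sum_le_sum fun x _ => blockRank_pos hp.out ⟨_, hM.triv_mem_principalBlock⟩
  · have := Fintype.ofFinite (Subgroup.centralizer ({x} : Set G))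
    have h6 := mem_val (G := Subgroup.centralizer ({x} : Set G)) hM (k := k) (le_trans (h3 ▸
      single_le_sum (f := fun x => blockRank p (principalBlock M
        (Subgroup.centralizer ({x} : Set G)))) (fun _ _ => Nat.zero_le _) (mem_of_mem_erase hx)) hk)
    rw [card_section_eq (hX x (mem_of_mem_erase hx)) _ rfl,
      ← (Subgroup.centralizer ({x} : Set G)).index_mul_card]
    push_cast
    rwa [mul_div_mul_left _ _ (by exact_mod_cast Subgroup.index_ne_zero_of_finite)]
  · rw [sum_neg_distrib, ← sum_div, ← neg_add, ← add_div, ← Nat.cast_sum, ← Nat.cast_add, add_comm,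
      h5, div_self hn]

theorem exists_bound (p : ℕ) [hp : Fact p.Prime] (k : ℕ) : ∃ N : ℕ, ∀ (G : Type u) [Group G]
    [Finite G] (M : Ideal AlgInt), IsPModular p M → Nat.card (principalBlock M G) ≤ k →
      (Nat.card G).factorization p ≤ N := by
  have hW := Val.isWF.{u} k 1 one_pos
  have hF := (Set.AddAntidiagonal.finite_of_isWF hW (isWF_sums hW k) (-1)).image Prod.fst
  have h1 : ∀ x : ℝ, ∃ N : ℕ, ∀ a A : ℕ, ¬ p ∣ A → -x * (p ^ a : ℕ) = A → a ≤ N := by
    intro x
    by_cases h : ∃ a A : ℕ, ¬ p ∣ A ∧ -x * (p ^ a : ℕ) = A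
    · obtain ⟨b, B, -, h3⟩ := h
      refine ⟨b, fun a A h4 h5 => not_lt.1 fun h6 => h4 ?_⟩
      obtain ⟨c, rfl⟩ := Nat.exists_eq_add_of_lt h6
      refine ⟨B * p ^ c, ?_⟩
      have : (A : ℝ) = p * (B * p ^ c) := by rw [← h5, ← h3]; push_cast; ring
      exact_mod_cast this
    · exact ⟨0, fun a A h4 h5 => absurd ⟨a, A, h4, h5⟩ h⟩
  choose f hf using h1
  obtain ⟨N, hN⟩ := (hF.image f).bddAbove
  refine ⟨N, fun G _ _ M hM hk => ?_⟩
  have := Fintype.ofFinite G
  obtain ⟨y, hy, h2⟩ := exists_sum_val hM hk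
  obtain ⟨A, -, h3, -, -, h4⟩ := exists_frac (G := G) hM
  refine (hf _ _ A h3 ?_).trans (hN ⟨_, ⟨(_, y), ⟨mem_val hM ((blockRank_le_card _).trans hk),
    hy, h2⟩, rfl⟩, rfl⟩)
  have hn : (Nat.card G : ℝ) ≠ 0 := by exact_mod_cast Nat.card_pos.ne'
  rw [neg_neg, div_mul_eq_mul_div, div_eq_iff hn]
  exact_mod_cast h4

end Cfsg.K5
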