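import Cfsg.Agent.CT.Degrees
import Cfsg.Agent.CT.ItoPSolv
import Cfsg.Agent.Blk.PrincDeg
import Cfsg.Agent.Blk.Cover
import Cfsg.Agent.Blk.Contrib
import Cfsg.Agent.Blk.BlockGalois

/-! Thompson's congruence for the principal block. -/

set_option autoImplicit false

namespace Cfsg

universe u

variable {G : Type u} [Group G] [Finite G] {p : ℕ} {M : Ideal AlgInt}

open Classical in
theorem IsPModular.sum_principal_pResidual (hM : IsPModular p M) :
    ((∑ θ ∈ irrFinset (principalBlock M (pResidual p G)), charDegree θ.1 ^ 2 : ℕ) : ZMod p) =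
      ∑ χ : IrrCharacter G with χ ∈ principalBlock M G ∧ ¬ p ∣ charDegree χ.1 ∧ ¬ p ∣ detOrder χ.1,
        (charDegree χ.1 : ZMod p) ^ 2 := by
  have hp := hM.fact_prime
  obtain ⟨P⟩ : Nonempty (Sylow p G) := inferInstance
  obtain ⟨k, hk⟩ := exists_index_pResidual (G := G) p
  have hsup := pResidual_sup_sylow P
  have hdet := fun θ : pResidual p G → ℂ => not_dvd_detOrder_pResidual θ
  have hN : (pResidual p G).Normal := inferInstance
  have hreg : ∀ g : G, ¬ p ∣ orderOf g → g ∈ (pResidual p G).subtype.range := fun g hg => by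
    rw [Subgroup.range_subtype]; exact mem_pResidual_of_not_dvd hg
  generalize pResidual p G = N at hk hsup hdet hN hreg
  have hB : ∀ {χ : IrrCharacter G} {θ : IrrCharacter N}, (∀ n : N, χ.1 n = θ.1 n) →
      (χ ∈ principalBlock M G ↔ θ ∈ principalBlock M N) := fun h =>
    hM.mem_principalBlock_iff_of_res_eq N.subtype N.subtype_injective hreg h
  have hfix : ∀ θ : IrrCharacter N, (∀ g : P, g • θ = θ) ↔ charInertia θ.1 = ⊤ := fun θ => by
    refine ⟨fun h => ?_, fun h g => IrrCharacter.charInertia_eq_top_iff.1 h g⟩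
    rw [eq_top_iff, ← hsup]
    exact sup_le θ.le_charInertia fun g hg => IrrCharacter.mem_charInertia_iff.2 (h ⟨g, hg⟩)
  have h1 := sum_eq_sum_fixed (X := IrrCharacter N) P.isPGroup' (A := ZMod p) (fun a => by simp)
    (irrFinset (principalBlock M N))
    (fun g _ h => mem_irrFinset.2 (hM.smul_mem_principalBlock g.1 (mem_irrFinset.1 h)))
    (fun θ => (charDegree θ.1 : ZMod p) ^ 2)
    (fun g θ _ => by rw [Subgroup.smul_def, IrrCharacter.charDegree_smul])
  rw [Nat.cast_sum]
  simp only [Nat.cast_pow]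
  rw [h1, ← Finset.sum_filter_of_ne (p := fun θ : IrrCharacter N => ¬ p ∣ charDegree θ.1)
    (fun θ _ h hd => h (by rw [(ZMod.natCast_eq_zero_iff _ _).2 hd]; simp))]
  have hcop : ∀ n : ℕ, ¬ p ∣ n → n.Coprime N.index := fun n hn => by
    rw [hk]; exact ((Nat.Prime.coprime_iff_not_dvd hp.out).2 hn).symm.pow_right k
  have hcop' : ∀ θ : IrrCharacter N, ¬ p ∣ charDegree θ.1 →
      (charDegree θ.1 * detOrder θ.1).Coprime N.index := fun θ h =>
    Nat.Coprime.mul_left (hcop _ h) (hcop _ (hdet _))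
  symm
  refine Finset.sum_bij (fun χ hχ => ⟨fun n : N => χ.1 n, isIrr_res_of_index_pow hp.out hk χ
    (Finset.mem_filter.1 hχ).2.2.1⟩) (fun χ hχ => ?_) (fun χ hχ ψ hψ h => ?_) (fun θ hθ => ?_)
    (fun χ hχ => by rw [charDegree_res])
  · simp only [Finset.mem_filter, Finset.mem_univ, true_and, mem_irrFinset] at hχ ⊢
    exact ⟨⟨(hB fun _ => rfl).1 hχ.1, (hfix _).2 χ.isClassFunction.charInertia_res⟩,
      by rw [charDegree_res]; exact hχ.2.1⟩
  · simp only [Finset.mem_filter, Finset.mem_univ, true_and] at hχ hψ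
    let θ : IrrCharacter N := ⟨fun n : N => χ.1 n, isIrr_res_of_index_pow hp.out hk χ hχ.2.1⟩
    exact (existsUnique_canonical_extension (θ := θ) χ.isClassFunction.charInertia_res
      (hcop' θ (by rw [charDegree_res]; exact hχ.2.1))).unique ⟨fun _ => rfl, hcop _ hχ.2.2⟩
      ⟨fun n => (congrFun (congrArg Subtype.val h) n).symm, hcop _ hψ.2.2⟩
  · simp only [Finset.mem_filter, mem_irrFinset] at hθ
    obtain ⟨χ, h1, h2⟩ := exists_extension_detOrder_eq ((hfix _).1 hθ.1.2) (hcop' θ hθ.2)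
    refine ⟨χ, ?_, Subtype.ext (funext h1)⟩
    simp only [Finset.mem_filter, Finset.mem_univ, true_and]
    exact ⟨(hB h1).2 hθ.1.1, by rw [charDegree_eq_of_extends h1]; exact hθ.2,
      by rw [h2]; exact hdet _⟩

/-- if `G` has no normal `p`-complement, some non-trivial character of `p'`-degree and `p'`
determinantal order in the principal block is fixed by a given `p`-group of power maps -/
theorem IsPModular.exists_principal_fixed (hM : IsPModular p M) (h : ¬ HasNormalPComplement p G)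
    {T : Subgroup (ZMod (Nat.card G))ˣ} (hT : IsPGroup p T) :
    ∃ χ ∈ principalBlock M G, χ ≠ IrrCharacter.triv G ∧ ¬ p ∣ charDegree χ.1 ∧
      ¬ p ∣ detOrder χ.1 ∧ ∀ t ∈ T, t • χ = χ := by
  classical
  have hp := hM.fact_prime
  by_contra hne
  push Not at hne
  have h1 := hM.sum_principal_pResidual (G := G)
  rw [hasNormalPComplement_iff_not_dvd_card_pResidual, not_not] at h
  rw [(ZMod.natCast_eq_zero_iff _ _).2 (Nat.dvd_of_factorization_pos (by
    rw [isPBlock_principalBlock.factorization_sum_charDegree_sq hM, hM.blockDefect_principalBlock]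
    have := hp.out.factorization_pos_of_dvd Nat.card_pos.ne' h
    omega)), sum_eq_sum_fixed hT (fun a => by simp) _ (fun t χ hχ => ?_) _
      (fun t χ _ => congrArg (fun n : ℕ => (n : ZMod p) ^ 2) (χ.charDegree_powConj _ (ZMod.val_coe_unit_coprime t.1))),
    Finset.sum_eq_single (IrrCharacter.triv G) (fun χ hχ h2 => ?_) (fun h2 => ?_)] at h1
  · simp at h1
  · simp only [Finset.mem_filter, Finset.mem_univ, true_and] at hχ
    obtain ⟨t, ht, h3⟩ := hne χ hχ.1.1 h2 hχ.1.2.1 hχ.1.2.2
    exact absurd (hχ.2 ⟨t, ht⟩) h3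
  · refine absurd (Finset.mem_filter.2 ⟨Finset.mem_filter.2 ⟨Finset.mem_univ _,
      hM.triv_mem_principalBlock, by simpa using hp.out.ne_one, ?_⟩, fun _ => rfl⟩) h2
    rw [show detOrder (IrrCharacter.triv G).1 = 1 from
      detOrder_eq_one_iff.2 fun g => detChar_unitsHom (1 : G →* ℂˣ) g]
    exact hp.out.not_dvd_one
  · obtain ⟨σ, hσ, -⟩ := exists_galois_pow.{u} Nat.card_pos.ne' (ZMod.val_coe_unit_coprime t.1)
    have h2 : t • χ = χ.galois σ := χ.powConj_eq_galois _ (fun _ => pow_card_eq_one') hσ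
    simp only [Finset.mem_filter, Finset.mem_univ, true_and] at hχ ⊢
    rw [h2, hM.galois_mem_principalBlock_iff, IrrCharacter.galois_val,
      χ.isCharacter.charDegree_galois, not_dvd_detOrder_iff hp.out]
    refine ⟨hχ.1, hχ.2.1, fun g k hg => ?_⟩
    rw [χ.isCharacter.detChar_map _ (χ.isCharacter.galois _),
      (not_dvd_detOrder_iff hp.out _).1 hχ.2.2 g k hg, map_one]

end Cfsg
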