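import Cfsg.Agent.Blk.ChainMor

/-! A nilpotency criterion testing only the radical centric subgroups. -/

set_option autoImplicit false

namespace Cfsg

open scoped MonoidAlgebra commutatorElement

universe u

variable {G : Type u} [Group G]

theorem conj_mem_chainStab {A N₁ N₂ : Subgroup G} {h : N₁ ≤ N₂} {x y : G}
    (hx : x ∈ chainStab A h) (h0 : y ∈ Subgroup.normalizer (A : Set G))
    (h1 : y ∈ Subgroup.normalizer (N₁ : Set G)) (h2 : y ∈ Subgroup.normalizer (N₂ : Set G)) :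
    y * x * y⁻¹ ∈ chainStab A h := by
  have key : ∀ a : G, ⁅a, y * x * y⁻¹⁆ = y * ⁅y⁻¹ * a * y, x⁆ * y⁻¹ := fun a => by
    simp only [commutatorElement_def]; group
  rw [Subgroup.mem_normalizer_iff''] at h0
  refine ⟨fun a ha => commutatorElement_eq_one_iff_mul_comm.1 ?_, fun a ha => ?_, fun a ha => ?_⟩ <;>
    rw [key]
  · rw [commutatorElement_eq_one_iff_mul_comm.2
      (hx.1 _ ((Subgroup.mem_normalizer_iff''.1 h1 a).1 ha)), mul_one, mul_inv_cancel]
  · exact (Subgroup.mem_normalizer_iff.1 h1 _).1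
      (hx.2.1 _ ((Subgroup.mem_normalizer_iff''.1 h2 a).1 ha))
  · exact (Subgroup.mem_normalizer_iff.1 h2 _).1 (hx.2.2 _ ((h0 a).1 ha))

theorem centralizer_le_chainStab {A N₁ N₂ : Subgroup G} (h : N₁ ≤ N₂) (h2 : N₂ ≤ A) :
    Subgroup.centralizer (A : Set G) ≤ chainStab A h := fun _ hy =>
  mem_chainStab h h2 (Or.inl ⟨fun a ha => hy a (h2 (h ha)), fun a ha => by
    rw [commutatorElement_eq_one_iff_mul_comm.2 (hy a ha)]; exact one_mem _⟩)

section fin
variable [Finite G] {p : ℕ}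

theorem chainStab_le_normalizer {A N₁ N₂ : Subgroup G} (h : N₁ ≤ N₂) (h2 : N₂ ≤ A) :
    chainStab A h ≤ Subgroup.normalizer (A : Set G) := fun x hx =>
  Subgroup.mem_normalizer_fintype fun a ha => by
    simpa [commutatorElement_def, mul_assoc] using mul_mem (inv_mem (h2 (hx.2.2 a ha))) ha

theorem mem_centralizer_of_mem_chainStab [Fact p.Prime] {A N₁ N₂ : Subgroup G} (h : N₁ ≤ N₂)
    (h2 : N₂ ≤ A) (hA : IsPGroup p A) {y : G} (hy : y ∈ chainStab A h) (hr : IsPRegular p y) :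
    y ∈ Subgroup.centralizer (A : Set G) := by
  have h3 := Subgroup.zpowers_le.2 hy
  have h4 := fun N (hN : N ≤ A) => coprime_card_of_isPGroup (hA.to_le hN)
    (show ¬ p ∣ Nat.card (Subgroup.zpowers y) by rwa [Nat.card_zpowers])
  exact le_centralizer_of_commutator_le_of_coprime (h4 _ h2)
    (Subgroup.commutator_le.2 fun a ha z hz => (h3 hz).2.2 a ha)
    (le_centralizer_of_commutator_le_of_coprime (h4 _ (h.trans h2))
      (Subgroup.commutator_le.2 fun a ha z hz => (h3 hz).2.1 a ha) fun z hz => (h3 hz).1)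
    (Subgroup.mem_zpowers y)

theorem mem_of_pRegPart_mem [Fact p.Prime] {L : Subgroup G} {x y : G} (hy : y ∈ L)
    (hx : x ∈ Subgroup.normalizer (L : Set G)) (hr : IsPRegular p x)
    (h : pRegPart p (y * x) ∈ L) : x ∈ L := by
  obtain ⟨n, hn⟩ := exists_orderOf_pPart (p := p) (y * x)
  have h1 : ∀ m : ℕ, (x ^ m)⁻¹ * (y * x) ^ m ∈ L := fun m => by
    induction m with
    | zero => simp
    | succ m ih =>
      have := (Subgroup.mem_normalizer_iff''.1 hx _).1 (mul_mem ih hy)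
      simpa only [pow_succ, mul_inv_rev, mul_assoc] using this
  have h2 : (y * x) ^ p ^ n ∈ L := by
    rw [← pPart_mul_pRegPart p (y * x), (commute_pPart_pRegPart p _).mul_pow, ← hn,
      pow_orderOf_eq_one, one_mul]
    exact pow_mem h _
  obtain ⟨m, hm⟩ := exists_pow_eq_self_of_coprime
    (((Nat.Prime.coprime_iff_not_dvd Fact.out).2 hr).pow_left n)
  exact hm ▸ pow_mem (inv_mem_iff.1 ((mul_mem_cancel_right h2).1 (h1 _))) m

end fin

variable {p : ℕ} {M : Ideal AlgInt} [Fintype G] {B : Set (IrrCharacter G)} {P : Subgroup G}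
  {e : (resK M)[G]}

/-- every element of `P` stabilizing an invariant chain of `Q` lies in `Q` -/
def ChainRad (p : ℕ) (P : Subgroup G) (e : (resK M)[G]) (Q : Subgroup G) : Prop :=
  ∀ (N₁ N₂ : Subgroup G) (h : N₁ ≤ N₂), N₂ ≤ Q → (∀ y, FHom p P e Q y →
    y ∈ Subgroup.normalizer (Q : Set G) → y ∈ Subgroup.normalizer (N₁ : Set G) ∧
      y ∈ Subgroup.normalizer (N₂ : Set G)) → P ⊓ chainStab Q h ≤ Q

theorem StarSetup.blockRank_eq_one_of_chainRad (S : StarSetup p M B P e)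
    (h : ∀ Q ≤ P, ChainRad p P e Q → ∀ x, FHom p P e Q x → x ∈ Subgroup.normalizer (Q : Set G) →
      IsPRegular p x → x ∈ Subgroup.centralizer (Q : Set G)) : blockRank p B = 1 := by
  have := S.hM.fact_prime
  have := S.hM.charP
  refine S.blockRank_eq_one_of_fHom fun Q => ?_
  induction hn : Q.index using Nat.strong_induction_on generalizing Q with | _ n ih => ?_
  suffices key : ∀ Q f, Q.index = n → PairLE p ⊤ Q f P e →
      IsDefGrp p (pairStab ⊤ Q f) f (P ⊓ pairStab ⊤ Q f) → ∀ x ∈ pairStab ⊤ Q f,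
        IsPRegular p x → x ∈ Subgroup.centralizer (Q : Set G) by
    rintro x hx hxn hr
    obtain ⟨f, hf⟩ := exists_pairLE S.isPair hx.choose_spec.1.le
    obtain ⟨y, -, h1, h2⟩ := S.hmax.exists_conj_isDefGrp le_rfl top_le_normalizer_top S.isBlk
      (S.isPairOf_of_pairLE hf) ((hf.isPair_left S.isPair).cenIn_le_pairStab le_rfl)
      (pairStab_le_norIn _ _ _) (isFixedGA_pairStab _ _ _)
    have h3 := conj_mem_conjSub (g := y).2 (hx.mem_pairStab S.isPair hxn hf)
    rw [conjSub_pairStab_of_mem _ _ (Subgroup.mem_top y)] at h2 h3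
    have := key _ _ (hn ▸ Subgroup.index_map_equiv _ (MulAut.conj y)) h1 h2 _ h3
      (by rwa [IsPRegular, ← (SemiconjBy.orderOf_eq y (by simp [SemiconjBy]) : orderOf x = _)])
    rwa [centralizer_conjSub, conj_mem_conjSub] at this
  clear hn Q
  intro Q f hn hf hD x hx hr
  have hK := pairStab_le_normalizer ⊤ Q f
  by_contra h0
  refine h0 (h Q hf.le (fun N₁ N₂ h12 h2 h3 => by_contra fun h4 => h0 ?_) x (hf.fHom hx) (hK hx) hr)
  set L := pairStab ⊤ Q f ⊓ chainStab Q h12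
  have hCL : Subgroup.centralizer (Q : Set G) ≤ L :=
    le_inf (hf.isPair_left S.isPair).centralizer_le_pairStab (centralizer_le_chainStab h12 h2)
  have hKL : pairStab ⊤ Q f ≤ Subgroup.normalizer (L : Set G) := fun y hy =>
    Subgroup.mem_normalizer_fintype fun l hl => ⟨mul_mem (mul_mem hy hl.1) (Subgroup.inv_mem _ hy),
      conj_mem_chainStab hl.2 (hK hy) (h3 y (hf.fHom hy) (hK hy)).1 (h3 y (hf.fHom hy) (hK hy)).2⟩
  obtain ⟨D, h5, -⟩ := hf.exists_isDefGrp_ge S.isPair (K := L) (by rwa [cenIn_top])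
    (le_normalizer_top _) (inf_le_left.trans hK) ((isFixedGA_pairStab _ _ _).mono inf_le_left)
  have h6 := hD.inf_of_normal' h5 inf_le_left hKL (isFixedGA_pairStab _ _ _)
  rw [inf_assoc, inf_eq_right.2 (inf_le_left : L ≤ _)] at h6
  have h7 := conjSub_eq_self_iff.2 (hK hx)
  have h8 : ∀ g ∈ pairStab ⊤ Q f, conjSub (P ⊓ L) g ≤ L := fun g hg =>
    (conjSub_mono inf_le_right g).trans (conjSub_eq_self_iff.2 (hKL hg)).le
  obtain ⟨y, hy, h9⟩ := PairMor.exists_ext S.isPair (hf.fHom hx) (h7.symm ▸ hf) (h7.symm ▸ hCL)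
    (h7.symm ▸ inf_le_left) h6 inf_le_left (h8 x hx)
  have h10 := mul_mem hy.1 hx
  have h11 : y * x ∈ Subgroup.normalizer ((Q ⊔ P ⊓ L : Subgroup G) : Set G) :=
    Subgroup.mem_normalizer_fintype fun a ha => (show conjSub _ (y * x) ≤ _ by
      rw [conjSub_sup, conjSub_eq_self_iff.2 (hK h10)]
      exact sup_le_sup_left (le_inf ((conjSub_mono le_sup_right _).trans h9.conj_le) (h8 _ h10)) _)
        (conj_mem_conjSub.2 ha)
  obtain ⟨g, hg⟩ := exists_pairLE S.isPair h9.le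
  have h12' := pRegPart_mem p (FHom.mem_pairStab S.isPair h9 h11 hg)
  refine mem_centralizer_of_mem_chainStab h12 h2 (S.isPGroup.to_le hf.le)
    (mem_of_pRegPart_mem (p := p) hy (hKL hx) hr (hCL (Subgroup.centralizer_le (le_sup_left (a := Q))
      (ih _ ?_ _ rfl _ (hg.fHom h12') (pairStab_le_normalizer _ _ _ h12')
        (not_dvd_orderOf_pRegPart _))))).2 hr
  refine hn ▸ Subgroup.index_strictAnti (lt_of_le_not_ge le_sup_left fun h13 => h4 fun a ha =>
    h13 (Subgroup.mem_sup_right ⟨ha.1, ?_, ha.2⟩))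
  exact ((hf.inf_pairStab S.isPair le_top).ge ⟨ha.1, chainStab_le_normalizer h12 h2 ha.2⟩).2

end Cfsg
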