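import Cfsg.Agent.Blk.RealBrauer
import Cfsg.Agent.Blk.Kappa
import Cfsg.Agent.Blk.ConstDiff
import Cfsg.Agent.CT.ClassSum
import Cfsg.Agent.CT.TwistForm

/-! Real nonprincipal `2`-blocks of groups with abelian Sylow `2`-subgroups. -/

set_option autoImplicit false

namespace Cfsg

open scoped ComplexConjugate MonoidAlgebra

universe u v

variable {G : Type u} [Group G] [Finite G] {M : Ideal AlgInt}

theorem card_cast_eq_of_involutive {α : Type v} [DecidableEq α] (s : Finset α) (f : α → α)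
    (hs : ∀ a ∈ s, f a ∈ s) (hf : ∀ a ∈ s, f (f a) = a) :
    (s.card : ZMod 2) = (s.filter fun a => f a = a).card := by
  rw [← Finset.card_filter_add_card_filter_not (s := s) fun a => f a = a, Nat.cast_add, add_eq_left,
    Finset.card_eq_sum_ones, Nat.cast_sum]
  refine Finset.sum_involution (fun a _ => f a) (fun a _ => CharTwo.add_self_eq_zero _)
    (fun a ha _ => (Finset.mem_filter.1 ha).2) (fun a ha => ?_) fun a ha =>
      hf a (Finset.mem_filter.1 ha).1
  obtain ⟨h1, h2⟩ := Finset.mem_filter.1 ha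
  exact Finset.mem_filter.2 ⟨hs a h1, fun h => h2 (by rw [← h, hf a h1])⟩

theorem commute_of_normalizes_of_sylow_comm
    (hab : ∀ Q : Subgroup G, IsPGroup 2 Q → IsMulCommutative Q) {D : Subgroup G} (hD : IsPGroup 2 D)
    {t : G} (ht : ∀ d ∈ D, t * d * t⁻¹ ∈ D) (h2 : t * t ∈ D) {d : G} (hd : d ∈ D) : Commute t d := by
  have := Fact.mk Nat.prime_two
  obtain ⟨k, hk⟩ := hD ⟨_, h2⟩
  have h3 : IsPGroup 2 (Subgroup.zpowers t) := isPGroup_zpowers_iff.2 (by
    have : t ^ 2 ^ (k + 1) = 1 := by rw [pow_succ', pow_mul, sq]; exact congrArg Subtype.val hk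
    obtain ⟨j, -, hj⟩ := (Nat.dvd_prime_pow Nat.prime_two).1 (orderOf_dvd_of_pow_eq_one this)
    exact ⟨j, hj⟩)
  have := hab _ (hD.to_sup_of_normal_left' h3
    (Subgroup.zpowers_le.2 (Subgroup.mem_normalizer_fintype ht)))
  exact congrArg Subtype.val (this.is_comm.comm
    ⟨t, Subgroup.mem_sup_right (Subgroup.mem_zpowers t)⟩ ⟨d, Subgroup.mem_sup_left hd⟩)

open Classical in
theorem odd_card_two_element_pairs [Fintype G]
    (hab : ∀ Q : Subgroup G, IsPGroup 2 Q → IsMulCommutative Q) {x t : G} (hx : ¬ 2 ∣ orderOf x)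
    (ht : t * t = 1) (htx : t * x * t⁻¹ = x⁻¹)
    (hC : ¬ 2 ∣ Nat.card (Subgroup.centralizer ({x} : Set G))) :
    ((Finset.univ.filter fun a : G => pRegPart 2 a = 1 ∧ pRegPart 2 (a⁻¹ * x) = 1).card : ZMod 2) = 1 := by
  have := Fact.mk Nat.prime_two
  have P : ∀ {a b : G} (g : G), pRegPart 2 a = 1 → b = g * a⁻¹ * g⁻¹ → pRegPart 2 b = 1 :=
    fun g h e => by rw [e, pRegPart_conj, pRegPart_inv, h]; simp
  have ti : t⁻¹ = t := inv_eq_of_mul_eq_one_right ht
  obtain ⟨y, hy, hty⟩ : ∃ y, x = y * y ∧ t * y * t⁻¹ = y⁻¹ := by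
    obtain ⟨m, hm⟩ := Nat.odd_iff.2 (Nat.two_dvd_ne_zero.1 hx)
    refine ⟨x ^ (m + 1), ?_, by rw [← conj_pow, htx, inv_pow]⟩
    rw [← pow_add, show m + 1 + (m + 1) = orderOf x + 1 by omega, pow_succ, pow_orderOf_eq_one, one_mul]
  have e1 : x * t = t * x⁻¹ := by rw [← htx, ← mul_assoc, ← mul_assoc, ht, one_mul, ti]
  have e2 : t * y⁻¹ = y * t := by rw [← hty, ← mul_assoc, ← mul_assoc, ht, one_mul, ti]
  set j := y * t with hj
  have jj : j * j = 1 := by
    nth_rw 1 [← e2]; rw [hj, mul_assoc, inv_mul_cancel_left, ht]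
  have ji : j⁻¹ = j := inv_eq_of_mul_eq_one_right jj
  have jt : j * t * j⁻¹ = x * t := by
    calc _ = y * (t * t) * t⁻¹ * y⁻¹ := by rw [hj]; group
      _ = _ := by rw [ht, mul_one, ti, mul_assoc, e2, hy, hj, mul_assoc]
  have jt' : j * (x * t) * j⁻¹ = t := by
    rw [← jt, ji]
    calc _ = (j * j) * t * (j * j) := by group
      _ = t := by rw [jj, one_mul, mul_one]
  have fix : ∀ a, x * t * a * t⁻¹ = a ↔ a * t * a⁻¹ = x * t := fun a => by
    rw [mul_inv_eq_iff_eq_mul, mul_inv_eq_iff_eq_mul, eq_comm]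
  have Q : ∀ {a}, pRegPart 2 a = 1 → a * t * a⁻¹ = x * t → pRegPart 2 (a⁻¹ * x) = 1 := fun {a} h e =>
    P t h (by rw [← mul_inv_cancel_right x t, ← e]; group)
  have pj : pRegPart 2 j = 1 := pRegPart_eq_one_iff.2 (by
    obtain ⟨i, -, hi⟩ := (Nat.dvd_prime_pow Nat.prime_two (m := 1)).1
      (orderOf_dvd_of_pow_eq_one (x := j) (by rw [pow_one, sq, jj]))
    exact ⟨i, hi⟩)
  rw [card_cast_eq_of_involutive _ (fun a => x * t * a * t⁻¹) (fun a ha => ?_) fun a _ => ?_,
    card_cast_eq_of_involutive _ (fun a => j * a⁻¹ * j⁻¹) (fun a ha => ?_) fun a _ => ?_,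
    Finset.card_eq_one.2 ⟨j, ?_⟩, Nat.cast_one]
  · ext a
    simp only [Finset.mem_filter, Finset.mem_univ, true_and, fix, Finset.mem_singleton]
    refine ⟨fun ⟨⟨⟨h1, _⟩, h3⟩, h4⟩ => ?_, ?_⟩
    · have c : Commute j a := commute_of_normalizes_of_sylow_comm hab
        (isPGroup_zpowers_iff.2 (pRegPart_eq_one_iff.1 h1)) (fun d hd => by
          obtain ⟨i, rfl⟩ := Subgroup.mem_zpowers_iff.1 hd
          rw [← conj_zpow, show j * a * j⁻¹ = a⁻¹ by rw [← inv_inj, conj_inv, h4, inv_inv]]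
          exact Subgroup.zpow_mem _ (Subgroup.inv_mem _ (Subgroup.mem_zpowers a)) i)
        (jj ▸ Subgroup.one_mem _) (Subgroup.mem_zpowers a)
      have ai : a⁻¹ = a := by rw [c.inv_right.eq, mul_inv_cancel_right] at h4; exact h4
      have c1 : Commute (a⁻¹ * j) t := by
        rw [Commute, SemiconjBy, ← mul_inv_eq_iff_eq_mul]
        calc _ = a⁻¹ * (j * t * j⁻¹) * a := by group
          _ = t := by rw [jt, ← h3]; group
      have c2 : Commute (a⁻¹ * j) j := c.symm.inv_left.mul_left (Commute.refl j)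
      have c3 : Commute (a⁻¹ * j) y := by
        have := c2.mul_right c1.inv_right
        rwa [hj, mul_inv_cancel_right] at this
      have c4 : a⁻¹ * j ∈ Subgroup.centralizer ({x} : Set G) :=
        Subgroup.mem_centralizer_singleton_iff.2 (hy ▸ c3.mul_right c3)
      have c5 : (a⁻¹ * j) ^ 2 = 1 := by
        rw [c.symm.inv_left.mul_pow, sq, sq, jj, mul_one]; nth_rw 2 [ai]; exact inv_mul_cancel a
      by_contra hne
      refine hC (orderOf_eq_prime c5 (fun h => hne ?_) ▸ Subgroup.orderOf_dvd_natCard _ c4)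
      exact inv_mul_eq_one.1 h
    · rintro rfl
      exact ⟨⟨⟨pj, Q pj jt⟩, jt⟩, by rw [mul_inv_cancel, one_mul, ji]⟩
  · simp only [Finset.mem_filter, Finset.mem_univ, true_and, fix] at ha ⊢
    have h1 : j * a⁻¹ * j⁻¹ * t * (j * a⁻¹ * j⁻¹)⁻¹ = x * t := by
      calc _ = j * a⁻¹ * (j⁻¹ * t * j⁻¹⁻¹) * a * j⁻¹ := by group
        _ = j * a⁻¹ * (a * t * a⁻¹) * a * j⁻¹ := by rw [ha.2, ← jt, ji, ji]
        _ = _ := by rw [← jt]; group
    exact ⟨⟨P j ha.1.1 rfl, Q (P j ha.1.1 rfl) h1⟩, h1⟩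
  · calc _ = (j * j) * a * (j * j)⁻¹ := by group
      _ = a := by rw [jj]; simp
  · simp only [Finset.mem_filter, Finset.mem_univ, true_and] at ha ⊢
    exact ⟨P t ha.2 (by rw [e1]; group), P t ha.1 (by group)⟩
  · calc _ = x * (t * x * t⁻¹) * (t * t) * a * (t * t)⁻¹ := by group
      _ = a := by rw [htx, ht]; simp

/-- with abelian Sylow `2`-subgroups, a real class of defect zero gives a real character of
defect zero -/
theorem IsPModular.exists_real_defectZero (hM : IsPModular 2 M)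
    (hab : ∀ Q : Subgroup G, IsPGroup 2 Q → IsMulCommutative Q) {x t : G} (hx : ¬ 2 ∣ orderOf x)
    (ht : t * t = 1) (htx : t * x * t⁻¹ = x⁻¹)
    (hC : ¬ 2 ∣ Nat.card (Subgroup.centralizer ({x} : Set G))) :
    ∃ χ : IrrCharacter G, χ.cconj = χ ∧ 2 ^ (Nat.card G).factorization 2 ∣ charDegree χ.1 := by
  classical
  have := Fintype.ofFinite G
  have := Fact.mk Nat.prime_two
  have := hM.charP
  have h1 := hM.inIrrSpan_pElement_indicator (G := G)
  set Ξ : G → ℂ := fun g => if pRegPart 2 g = 1 then 1 else 0 with hΞ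
  choose m hm using fun χ : IrrCharacter G => χ.charDegree_dvd_card
  have hc := h1.classInner_irr_mem
  have e1 : ∑ g, Ξ g * Ξ (g⁻¹ * x) =
      ∑ χ : IrrCharacter G, classInner Ξ χ.1 * classInner Ξ χ.1 * (m χ * χ.1 x) := by
    simp only [h1.isClassFunction.eq_sum_irr, Finset.sum_mul_sum]
    rw [Finset.sum_comm]
    refine Finset.sum_congr rfl fun ψ _ => ?_
    rw [Finset.sum_comm, Finset.sum_eq_single ψ (fun χ _ hne => ?_) (by simp)]
    · have := ψ.one_mul_sum_mul_inv_mul ψ x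
      rw [if_pos rfl, hm ψ, Nat.cast_mul, ← ψ.one_eq_charDegree, mul_assoc,
        mul_right_inj' ψ.one_ne_zero] at this
      rw [← this, Finset.mul_sum]
      exact Finset.sum_congr rfl fun g _ => by ring
    · have := χ.one_mul_sum_mul_inv_mul ψ x
      rw [if_neg hne, mul_eq_zero, or_iff_right χ.one_ne_zero] at this
      rw [← mul_zero (classInner Ξ ψ.1 * classInner Ξ χ.1), ← this, Finset.mul_sum]
      exact Finset.sum_congr rfl fun g _ => by ring
  have e2 : ∑ g, Ξ g * Ξ (g⁻¹ * x) = ((Finset.univ.filter fun a : G =>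
      pRegPart 2 a = 1 ∧ pRegPart 2 (a⁻¹ * x) = 1).card : ℕ) := by
    rw [← Finset.sum_boole]
    exact Finset.sum_congr rfl fun g _ => by simp only [hΞ, ite_and]; split_ifs <;> simp
  have e3 := congrArg (ZMod.castHom (dvd_refl 2) (resK M)) (odd_card_two_element_pairs hab hx ht htx hC)
  have hmem : ∀ χ : IrrCharacter G, m χ * χ.1 x ∈ valO M := fun χ =>
    mul_mem (natCast_mem_valO _) (χ.mem_valO x)
  rw [map_natCast, map_one, ← red_natCast, ← e2, e1,
    red_sum _ fun χ _ => mul_mem (mul_mem (hc χ) (hc χ)) (hmem χ)] at e3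
  by_contra! hno
  refine one_ne_zero (e3.symm.trans (Finset.sum_involution (fun χ _ => χ.cconj) (fun χ _ => ?_)
    (fun χ _ h0 h => h0 ?_) (fun _ _ => Finset.mem_univ _) fun χ _ => χ.cconj_cconj))
  · have a1 : classInner Ξ χ.cconj.1 = classInner Ξ χ.1 := by
      rw [classInner_def, classInner_def, ← Equiv.sum_comp (Equiv.inv G)]
      simp only [Equiv.inv_apply, IrrCharacter.cconj_apply', inv_inv, hΞ, pRegPart_inv, inv_eq_one]
    have a2 : m χ.cconj = m χ := Nat.eq_of_mul_eq_mul_left χ.charDegree_pos (by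
      rw [← hm χ, hm χ.cconj, χ.charDegree_cconj])
    rw [a1, a2, χ.cconj_apply', ← htx, χ.isClassFunction, CharTwo.add_self_eq_zero]
  · have a1 : 2 ∣ m χ := by
      by_contra hn
      refine hno χ h ((Nat.Coprime.pow_left _ ((Nat.Prime.coprime_iff_not_dvd Nat.prime_two).2
        hn)).dvd_of_dvd_mul_right ?_)
      rw [← hm χ]; exact Nat.ordProj_dvd _ _
    rw [red_mul (mul_mem (hc χ) (hc χ)) (hmem χ), red_mul (natCast_mem_valO _) (χ.mem_valO x),
      red_natCast, (CharP.cast_eq_zero_iff (resK M) 2 _).2 a1, zero_mul, mul_zero]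

/-- with abelian Sylow `2`-subgroups and a real element `x ≠ 1` of odd order there is a character
outside the principal `2`-block fixed by `g ↦ g₂ g₂'⁻¹` -/
theorem IsPModular.exists_pow_fixed_notMem (hM : IsPModular 2 M) (k n : ℕ) :
    ∀ (G : Type u) [Group G] [Finite G], Nat.card G = n →
      (∀ Q : Subgroup G, IsPGroup 2 Q → IsMulCommutative Q) →
      (∀ g : G, g ^ k = pPart 2 g * (pRegPart 2 g)⁻¹) → ∀ x : G, x ≠ 1 → ¬ 2 ∣ orderOf x →
      IsConj x x⁻¹ → ∃ χ : IrrCharacter G, χ ∉ principalBlock M G ∧ ∀ g, χ.1 (g ^ k) = χ.1 g := by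
  have := Fact.mk Nat.prime_two
  induction n using Nat.strong_induction_on with
  | _ n ih =>
  intro G _ _ hn hab hk x x1 hx hr
  subst hn
  obtain ⟨D, t, hD, hDC, hDi, ht, htD, htt⟩ := exists_sylow_centralizer_of_real hr
  by_cases D1 : D = ⊥
  · subst D1
    rw [Subgroup.relIndex_bot_left] at hDi
    obtain ⟨χ, h1, h2⟩ := hM.exists_real_defectZero hab hx htt ht hDi
    refine ⟨χ, fun h => ?_, fun g => ?_⟩
    · have h3 := (isPBlock_principalBlock.blockDefect_eq_zero_iff_dvd hM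
        hM.triv_mem_principalBlock).1 ((isPBlock_principalBlock.blockDefect_eq_zero_iff_dvd hM h).2 h2)
      have h4 : orderOf t = 2 := orderOf_eq_prime (by rw [sq]; exact htt) (by
        rintro rfl
        refine hx (orderOf_eq_prime ?_ x1).symm.dvd
        rw [one_mul, inv_one, mul_one] at ht
        rw [sq]; nth_rw 2 [ht]; exact mul_inv_cancel x)
      rw [IrrCharacter.charDegree_triv, Nat.dvd_one, Nat.pow_eq_one] at h3
      have := (Nat.prime_two.dvd_iff_one_le_factorization Nat.card_pos.ne').1 (h4 ▸ orderOf_dvd_natCard t)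
      omega
    · by_cases hg : 2 ∣ orderOf g
      · rw [χ.eq_zero_of_ordProj_dvd h2 hg, χ.eq_zero_of_ordProj_dvd h2]
        rwa [((coprime_card_of_pow_eq hk).symm.of_dvd_left (orderOf_dvd_natCard g)).orderOf_pow]
      · rw [hk, pPart_eq_one_iff.2 hg, pRegPart_eq_self_iff.2 hg, one_mul, ← χ.cconj_apply', h1]
  obtain ⟨u, hu, u1⟩ := (D.bot_or_exists_ne_one).resolve_left D1
  have hu2 := exists_orderOf_eq_pow_of_mem hD hu
  have hZ := isPGroup_zpowers_iff.2 hu2
  by_cases hC : Subgroup.centralizer ({u} : Set G) = ⊤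
  · have hc : ∀ g : G, g ∈ Subgroup.centralizer (Subgroup.zpowers u : Set G) := fun g => by
      rw [centralizer_zpowers_eq_singleton, hC]; trivial
    have hN : (Subgroup.zpowers u).Normal := ⟨fun z hz g => by
      rwa [← Subgroup.mem_centralizer_iff.1 (hc g) z hz, mul_inv_cancel_right]⟩
    set f := QuotientGroup.mk' (Subgroup.zpowers u)
    have hf : Function.Surjective f := QuotientGroup.mk'_surjective _
    have hker : IsPGroup 2 f.ker := by rwa [QuotientGroup.ker_mk']
    obtain ⟨χ, h1, h2⟩ := ih _ (by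
        rw [(Subgroup.zpowers u).card_eq_card_quotient_mul_card_subgroup]
        exact lt_mul_of_one_lt_right Nat.card_pos ((Subgroup.one_lt_card_iff_ne_bot _).2 (by simpa)))
      (G ⧸ Subgroup.zpowers u) rfl (fun Q hQ => by
        have := hab _ (hQ.comap_of_ker_isPGroup f hker)
        rw [← Subgroup.map_comap_eq_self_of_surjective hf Q]
        infer_instance)
      (fun g => by
        obtain ⟨g, rfl⟩ := hf g
        rw [← map_pow, hk, map_mul, map_inv, map_pPart, map_pRegPart])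
      (f x) (fun h => x1 (by
        have h3 := exists_orderOf_eq_pow_of_mem hker h
        rw [← pRegPart_eq_self_iff.2 hx, pRegPart_eq_one_iff.2 h3]))
      (fun h => hx (h.trans (orderOf_map_dvd f x))) (map_inv f x ▸ f.map_isConj hr)
    exact ⟨χ.comap f hf, fun h => h1 ((hM.comap_mem_principalBlock_iff_of_regular f hf hker
      (fun g _ => by rw [QuotientGroup.ker_mk']; exact hc g) χ).1 h), fun g => by
        simpa using h2 (f g)⟩
  set C := Subgroup.centralizer ({u} : Set G) with hCdef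
  have xC : x ∈ C := Subgroup.mem_centralizer_singleton_iff.2
    (Subgroup.mem_centralizer_singleton_iff.1 (hDC hu)).symm
  have tC : t ∈ C := Subgroup.mem_centralizer_singleton_iff.2
    (commute_of_normalizes_of_sylow_comm hab hD htD htt hu)
  obtain ⟨ψ, h1, h2⟩ := ih _ (lt_of_le_of_ne (Nat.le_of_dvd Nat.card_pos C.card_subgroup_dvd_card)
      fun e => hC (C.eq_top_of_card_eq e)) C rfl
    (fun Q hQ => by
      have := hab _ (hQ.map C.subtype)
      rw [← Subgroup.comap_map_eq_self_of_injective C.subtype_injective Q]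
      exact Subgroup.comap_injective_isMulCommutative _ C.subtype_injective)
    (fun g => Subtype.ext (by simp [coe_pPart, coe_pRegPart, hk])) ⟨x, xC⟩
    (fun h => x1 (congrArg Subtype.val h)) (by simpa using hx)
    (isConj_iff.2 ⟨⟨t, tC⟩, Subtype.ext ht⟩)
  have hb := isPBlock_blockOf (M := M) ψ
  obtain ⟨B, hB⟩ := hb.inducedBlockDefined_of_pElement hM hu2 hCdef
  have h3 : SameBlock M ψ.1 ψ.cconj.1 := hM.sameBlock_of_eq_on_pRegular fun g hg => by
    rw [ψ.cconj_apply', ← h2 g]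
    have hg' : ¬ 2 ∣ orderOf (g : G) := by simpa using hg
    refine congrArg ψ.1 (Subtype.ext ?_)
    rw [Subgroup.coe_pow, hk, pPart_eq_one_iff.2 hg', pRegPart_eq_self_iff.2 hg', one_mul,
      Subgroup.coe_inv]
  obtain ⟨χ, h4, h5⟩ := hB.exists_pow_fixed hM hk hu2 hCdef hb hB.2.1 fun χ hχ =>
    hM.sameBlock_trans h3 (hM.sameBlock_cconj hχ)
  refine ⟨χ, fun h => h1 ?_, h5⟩
  rw [hB.2.1.eq_of_mem hM isPBlock_principalBlock h4 h,
    hM.isInducedBlock_centralizer_principalBlock_iff hZ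
      (hCdef.trans (centralizer_zpowers_eq_singleton u).symm) hb] at hB
  rw [← hB]; exact hM.mem_blockOf_self ψ

/-- an involutive power map fixes a nontrivial character of the principal `2`-block of a group of
even order -/
theorem IsPModular.exists_principal_pow_fixed (hM : IsPModular 2 M) (h2 : 2 ∣ Nat.card G) {k : ℕ}
    (hk : k.Coprime (Nat.card G)) (hkk : ∀ g : G, (g ^ k) ^ k = g) :
    ∃ χ ∈ principalBlock M G, χ ≠ IrrCharacter.triv G ∧ ∀ g, χ.1 (g ^ k) = χ.1 g := by
  classical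
  have := Fact.mk Nat.prime_two
  obtain ⟨P⟩ := (inferInstance : Nonempty (Sylow 2 G))
  obtain ⟨σ, hσ, -⟩ := exists_galois_pow.{u} Nat.card_pos.ne' hk
  have e : ∀ χ : IrrCharacter G, χ.powConj k hk = χ.galois σ := fun χ =>
    χ.powConj_eq_galois hk (fun g => pow_card_eq_one') hσ
  have h1 := (ZMod.natCast_eq_zero_iff _ 2).2
    ((P.dvd_card_of_dvd_card h2).trans (hM.card_sylow_dvd_sum_sq P))
  rw [← Finset.add_sum_erase _ _ (mem_irrFinset.2 hM.triv_mem_principalBlock),
    IrrCharacter.charDegree_triv] at h1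
  push_cast at h1
  by_contra! hno
  rw [Finset.sum_involution (fun (χ : IrrCharacter G) _ => χ.powConj k hk) (fun χ _ => by
    rw [IrrCharacter.charDegree_powConj, CharTwo.add_self_eq_zero]) (fun χ hχ _ h => ?_) (fun χ hχ => ?_)
    fun χ _ => Subtype.ext (funext fun g => by simp [hkk])] at h1
  · simp at h1
  · obtain ⟨h3, h4⟩ := Finset.mem_erase.1 hχ
    obtain ⟨g, hg⟩ := hno χ (mem_irrFinset.1 h4) h3
    exact hg (congrFun (congrArg Subtype.val h) g)
  · obtain ⟨h3, h4⟩ := Finset.mem_erase.1 hχ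
    rw [e]
    exact Finset.mem_erase.2 ⟨fun h => h3 (IrrCharacter.galois_injective _
      (h.trans (IrrCharacter.galois_triv _).symm)),
      mem_irrFinset.2 ((hM.galois_mem_principalBlock_iff _ χ).2 (mem_irrFinset.1 h4))⟩

end Cfsg
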