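import Cfsg.Agent.Blk.AutTrace
import Cfsg.Agent.Blk.RealBlock
import Cfsg.Agent.Blk.Principal

/-! Real Brauer characters: the trace of complex conjugation on the span of the Brauer characters,
and characters fixed by the Galois automorphism fixing `p`-power roots of unity and inverting the
`p'`-roots of unity. -/

set_option autoImplicit false

namespace Cfsg

open scoped ComplexConjugate MonoidAlgebra

universe u v w

variable {G : Type u} [Group G] [Finite G] {p : ℕ} {M : Ideal AlgInt}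

/-- the antipode of the group algebra -/
noncomputable def gaStar {R : Type v} [CommRing R] (a : R[G]) : R[G] :=
  gaOfFun fun g => a.coeff g⁻¹

theorem gaStar_mul {R : Type v} [CommRing R] (a b : R[G]) :
    gaStar (a * b) = gaStar b * gaStar a := by
  have := Fintype.ofFinite G
  refine ga_ext fun x => ?_
  simp only [gaStar, coeff_gaOfFun]
  rw [ga_coeff_mul', ga_coeff_mul, ← Equiv.sum_comp (Equiv.inv G)]
  simp [mul_comm]

theorem isIdempotentElem_gaStar {R : Type v} [CommRing R] {a : R[G]} (h : IsIdempotentElem a) :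
    IsIdempotentElem (gaStar a) := by
  rw [IsIdempotentElem, ← gaStar_mul, h.eq]

omit [Finite G] in
theorem isClassFunction_comp_inv {θ : G → ℂ} (hθ : IsClassFunction G θ) :
    IsClassFunction G fun x => θ x⁻¹ := fun g h => by
  simp only [conj_inv]; exact hθ _ _

theorem tau_one_comp_inv {θ : G → ℂ} (hθ : IsClassFunction G θ) {e : (resK M)[G]}
    (he : IsIdempotentElem e) : tau M (fun x => θ x⁻¹) 1 e = tau M θ 1 (gaStar e) := by
  have := Fintype.ofFinite G
  obtain ⟨E, hE, rfl⟩ := exists_idem_lift' he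
  have h1 : gaStar (toK M G E) = toK M G (gaStar E) := ga_ext fun g => by
    simp only [gaStar, coeff_gaOfFun, coeff_toK']
  rw [tau_one_toK (isClassFunction_comp_inv hθ) hE, h1, tau_one_toK hθ (isIdempotentElem_gaStar hE),
    charAlg_eq_sum, charAlg_eq_sum, ← Equiv.sum_comp (Equiv.inv G)]
  simp [gaStar]

theorem comp_inv_mem_regSpan {U : Set (IrrCharacter G)} (hU : ∀ χ ∈ U, χ.cconj ∈ U) {θ : G → ℂ}
    (h : θ ∈ regSpan p U) : (fun x => θ x⁻¹) ∈ regSpan p U := by
  obtain ⟨a, rfl⟩ := mem_regSpan_iff_exists.1 h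
  have : (fun x => (∑ χ ∈ irrFinset U, a χ • pRegularPart p χ.1) x⁻¹) =
      ∑ χ ∈ irrFinset U, a χ • pRegularPart p χ.cconj.1 := by
    funext x
    simp only [Finset.sum_apply, Pi.smul_apply, pRegularPart_apply, orderOf_inv,
      IrrCharacter.cconj_apply']
  rw [this]
  exact Submodule.sum_mem _ fun χ hχ =>
    Submodule.smul_mem _ _ (pRegularPart_mem_regSpan (hU χ (mem_irrFinset.1 hχ)))

theorem IsBasicSet.sum_inv_eq [Fintype G] {U : Set (IrrCharacter G)} {ι : Type v} [Fintype ι]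
    {φ : ι → G → ℂ} {d : IrrCharacter G → ι → ℤ} (h : IsBasicSet p U φ d) :
    ∑ s ∈ Finset.univ.filter (fun s : G => ¬ p ∣ orderOf s), ∑ ψ ∈ irrFinset U,
      ψ.1 s⁻¹ * conj (ψ.1 s) = Nat.card G * ∑ i, classInner (fun x => φ i x⁻¹) (projChar U d i) := by
  classical
  have hG : (Nat.card G : ℂ) ≠ 0 := Nat.cast_ne_zero.2 Nat.card_pos.ne'
  simp only [classInner_def, Finset.mul_sum _ _ (Nat.card G : ℂ), mul_inv_cancel_left₀ hG]
  rw [Finset.sum_filter]
  conv_rhs => rw [Finset.sum_comm]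
  refine Finset.sum_congr rfl fun x _ => ?_
  split_ifs with hx
  · exact (Finset.sum_eq_zero fun i _ => by
      rw [h.apply_of_dvd i (by rwa [orderOf_inv]), zero_mul]).symm
  · have : ∀ ψ ∈ irrFinset U, ψ.1 x⁻¹ * conj (ψ.1 x) =
        ∑ i, φ i x⁻¹ * (((d ψ i : ℤ) : ℂ) * conj (ψ.1 x)) := by
      intro ψ hψ
      rw [h.irr_apply (mem_irrFinset.1 hψ) (by rwa [orderOf_inv]), Finset.sum_mul]
      exact Finset.sum_congr rfl fun i _ => by ring
    rw [Finset.sum_congr rfl this, Finset.sum_comm]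
    refine Finset.sum_congr rfl fun i _ => ?_
    rw [projChar_apply, map_sum, Finset.mul_sum]
    exact Finset.sum_congr rfl fun ψ _ => by simp

theorem IsBrauerData.exists_invMat [Fintype G] (hM : IsPModular p M) {U : Set (IrrCharacter G)}
    (hU : IsBlockUnion M U) {s : Finset (resK M)[G]} {φ : s → G → ℂ} {f : s → ℕ}
    (h : IsBrauerData p M U s φ f) : ∃ n : s → s → ℕ, ∀ i j, classInner (fun x => φ i x⁻¹)
      (projChar U (fun χ (j : s) => (decNum M χ.1 j.1 : ℤ)) j) = n i j := by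
  have hidem : ∀ i : s, IsIdempotentElem (i : (resK M)[G]) := fun i => (h.reps.prim i i.2).idem
  choose n hn using fun i j : s => h.tau_nat i (gaStar j.1) (isIdempotentElem_gaStar (hidem j))
  refine ⟨n, fun i j => ?_⟩
  rw [hU.classInner_projChar_decNum hM (fun j : s => (j : (resK M)[G])) j (hidem j)
    (h.reps.blk j j.2) (isClassFunction_comp_inv (h.basic.isClassFunction i)),
    tau_one_comp_inv (h.basic.isClassFunction i) (hidem j), hn]

theorem IsBlockUnion.exists_sum_inv_eq_nat [Fintype G] (hM : IsPModular p M)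
    {U : Set (IrrCharacter G)} (hU : IsBlockUnion M U) :
    ∃ n : ℕ, ∑ s ∈ Finset.univ.filter (fun s : G => ¬ p ∣ orderOf s), ∑ ψ ∈ irrFinset U,
      ψ.1 s⁻¹ * conj (ψ.1 s) = n := by
  obtain ⟨s, φ, f, h⟩ := hU.exists_isBrauerData hM
  obtain ⟨n, hn⟩ := h.exists_invMat hM hU
  exact ⟨Nat.card G * ∑ i, n i i, by rw [h.basic.sum_inv_eq]; simp [hn]⟩

theorem two_mul_dvd_sum_of_invMat {ι : Type v} [Fintype ι] (n : ι → ι → ℕ)
    (h1 : ∀ i, ∑ j, n i j * n j i = 1) (h0 : ∀ i, n i i = 0) (a b : ι → ℕ)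
    (ha : ∀ j, a j = ∑ i, n i j * a i) (hb : ∀ i, b i = ∑ j, n i j * b j) {c : ℕ}
    (hc : ∀ i, c ∣ a i * b i) : 2 * c ∣ ∑ i, a i * b i := by
  classical
  have key : ∀ i, ∃ j, n i j * n j i ≠ 0 ∧ ∀ l, n i l * n l i ≠ 0 → l = j := by
    intro i
    obtain ⟨j, -, hj⟩ := Finset.exists_ne_zero_of_sum_ne_zero (by rw [h1 i]; exact one_ne_zero)
    refine ⟨j, hj, fun l hl => by_contra fun hne => ?_⟩
    have := Finset.add_le_sum (f := fun j => n i j * n j i) (fun _ _ => Nat.zero_le _)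
      (Finset.mem_univ l) (Finset.mem_univ j) hne
    rw [h1 i] at this
    omega
  choose π h2 h3 using key
  have hπ : ∀ i, π (π i) = i := fun i => (h3 _ _ (by rw [mul_comm]; exact h2 i)).symm
  have le1 : ∀ {x y z : ℕ}, x ≠ 0 → x * y ≤ z → y ≤ z := fun hx h =>
    (Nat.le_mul_of_pos_left _ (Nat.pos_of_ne_zero hx)).trans h
  have hb' : ∀ i, b (π i) ≤ b i := fun i => le1 (left_ne_zero_of_mul (h2 i)) (by
    rw [hb i]
    exact Finset.single_le_sum (f := fun j => n i j * b j) (fun _ _ => Nat.zero_le _)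
      (Finset.mem_univ _))
  have ha' : ∀ i, a (π i) ≤ a i := fun i => le1 (right_ne_zero_of_mul (h2 i)) (by
    rw [ha i]
    exact Finset.single_le_sum (f := fun j => n j i * a j) (fun _ _ => Nat.zero_le _)
      (Finset.mem_univ _))
  have e : ∀ i, a (π i) * b (π i) = a i * b i := fun i => by
    rw [le_antisymm (ha' i) (by simpa [hπ] using ha' (π i)),
      le_antisymm (hb' i) (by simpa [hπ] using hb' (π i))]
  choose w hw using hc
  rcases c.eq_zero_or_pos with rfl | c0
  · simp [hw]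
  have e2 : ∀ i, w (π i) = w i := fun i => Nat.eq_of_mul_eq_mul_left c0 (by rw [← hw, ← hw, e])
  simp only [hw, ← Finset.mul_sum]
  rw [mul_comm]
  refine Nat.mul_dvd_mul_left c ((ZMod.natCast_eq_zero_iff _ 2).1 ?_)
  push_cast
  refine Finset.sum_involution (fun i _ => π i) (fun i _ => ?_) (fun i _ _ h => h2 i ?_)
    (fun _ _ => Finset.mem_univ _) fun i _ => hπ i
  · rw [e2, CharTwo.add_self_eq_zero]
  · rw [h, h0, zero_mul]

/-- a real `2`-block has a real Brauer character -/
theorem IsPBlock.sum_inv_ne_zero [Fintype G] (hM : IsPModular 2 M) {B : Set (IrrCharacter G)}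
    (hB : IsPBlock M B) (hr : ∀ χ ∈ B, χ.cconj ∈ B) :
    ∑ s ∈ Finset.univ.filter (fun s : G => ¬ 2 ∣ orderOf s), ∑ ψ ∈ irrFinset B,
      ψ.1 s⁻¹ * conj (ψ.1 s) ≠ 0 := by
  classical
  have := Fact.mk Nat.prime_two
  have hU := hB.isBlockUnion hM
  obtain ⟨s, φ, f, h⟩ := hU.exists_isBrauerData hM
  obtain ⟨n, hn⟩ := h.exists_invMat hM hU
  rw [h.basic.sum_inv_eq]
  simp only [hn]
  intro h0
  have h1 : ∑ i, n i i = 0 := by
    exact_mod_cast (mul_eq_zero.1 h0).resolve_left (Nat.cast_ne_zero.2 Nat.card_pos.ne')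
  have e1 : ∀ i x, φ i x⁻¹ = ∑ j, n i j * φ j x := fun i x => by
    have := congrFun (h.basic.eq_sum_of_mem_regSpan hM hU
      (comp_inv_mem_regSpan hr (h.basic.mem_regSpan i))) x
    simpa [hn] using this
  have e2 : ∀ i, ∑ j, n i j * n j i = 1 := fun i => by
    have := congrFun (h.basic.eq_of_sum_eq (a := fun l => ∑ j, (n i j : ℂ) * n j l)
      (b := fun l => if l = i then 1 else 0) (by
        funext x
        have := e1 i x⁻¹
        simp only [inv_inv, e1, Finset.mul_sum] at this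
        simp only [Finset.sum_apply, Pi.smul_apply, smul_eq_mul, Finset.sum_mul, ite_mul, one_mul,
          zero_mul, Finset.sum_ite_eq', Finset.mem_univ, if_true]
        rw [this, Finset.sum_comm]
        simp only [mul_assoc])) i
    simp only [if_true] at this
    exact_mod_cast this
  have e3 : ∀ i, f i = ∑ j, n i j * f j := fun i => by
    have := e1 i 1
    simp only [inv_one, h.one] at this
    exact_mod_cast this
  have e4 : ∀ j : s, projDeg M B j.1 = ∑ i : s, n i j * projDeg M B i.1 := fun j => by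
    have := congrFun (h.basic.eq_sum_projChar hM hU
      (comp_inv_mem_regSpan hr (h.basic.projChar_mem_regSpan hM hU j))) 1
    have e : ∀ i, classInner (fun x => projChar B (fun χ (j : s) => (decNum M χ.1 j.1 : ℤ)) j x⁻¹)
        (φ i) = n i j := fun i => by
      rw [← hn, classInner_def, classInner_def]
      congr 1
      refine Finset.sum_congr rfl fun x _ => ?_
      rw [h.basic.apply_inv, mul_comm, (isGeneralizedCharacter_projChar j).apply_inv]
    simp only [inv_one, Finset.sum_apply, Pi.smul_apply, smul_eq_mul, IsBrauerData.projChar_one,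
      e] at this
    exact_mod_cast this
  have hd : blockDefect 2 B ≤ (Nat.card G).factorization 2 := Nat.sub_le _ _
  have e5 := two_mul_dvd_sum_of_invMat n e2 (fun i => Finset.sum_eq_zero_iff.1 h1 i (Finset.mem_univ i))
    _ _ e4 e3 (c := 2 ^ (2 * (Nat.card G).factorization 2 - blockDefect 2 B)) fun i => by
      rw [show 2 * (Nat.card G).factorization 2 - blockDefect 2 B = (Nat.card G).factorization 2 +
        ((Nat.card G).factorization 2 - blockDefect 2 B) by omega, pow_add]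
      refine Nat.mul_dvd_mul (h.pow_dvd_projDeg hM hU i) (h.dvd_deg Nat.prime_two (fun χ hχ => ?_) i)
      have := factorization_charDegree_eq (p := 2) hχ
      exact (Nat.prime_two.pow_dvd_iff_le_factorization χ.charDegree_pos.ne').2 (by omega)
  obtain ⟨ψ, hψ⟩ := hB.nonempty hM
  rw [← h.sum_charDegree_sq Nat.prime_two, ← pow_succ', Nat.prime_two.pow_dvd_iff_le_factorization
    (Finset.sum_pos' (fun _ _ => Nat.zero_le _)
      ⟨ψ, mem_irrFinset.2 hψ, pow_pos ψ.charDegree_pos 2⟩).ne',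
    hB.factorization_sum_charDegree_sq hM] at e5
  omega

theorem coprime_card_of_pow_eq [Fact p.Prime] {k : ℕ}
    (hk : ∀ g : G, g ^ k = pPart p g * (pRegPart p g)⁻¹) : k.Coprime (Nat.card G) := by
  refine Nat.coprime_of_dvd fun q hq h1 h2 => ?_
  have := Fact.mk hq
  obtain ⟨g, hg⟩ := exists_prime_orderOf_dvd_card' q h2
  have h3 : g ^ k = 1 := orderOf_dvd_iff_pow_eq_one.1 (hg ▸ h1)
  rw [hk, mul_inv_eq_one] at h3
  have h4 : pPart p g = 1 := by rw [← pPart_pPart, h3, pPart_pRegPart]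
  have h5 := pPart_mul_pRegPart p g
  rw [← h3, h4, one_mul] at h5
  exact hq.one_lt.ne (by rw [← hg, ← h5, orderOf_one])

theorem IsPBlock.sum_section_inv [Fintype G] [DecidableEq G] (hM : IsPModular p M)
    {B : Set (IrrCharacter G)} (hB : IsPBlock M B) {k : ℕ}
    (hk : ∀ g : G, g ^ k = pPart p g * (pRegPart p g)⁻¹) {u : G} (hu : ∃ j : ℕ, orderOf u = p ^ j)
    {C : Subgroup G} [Fintype C] (hC : C = Subgroup.centralizer {u}) :
    ∑ g ∈ Finset.univ.filter (fun g : G => pPart p g = u), ∑ χ ∈ irrFinset B,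
      χ.1 (g ^ k) * conj (χ.1 g) = ∑ s ∈ Finset.univ.filter (fun s : C => ¬ p ∣ orderOf s),
      ∑ ψ ∈ irrFinset (inducingChars M C B), ψ.1 s⁻¹ * conj (ψ.1 s) := by
  have := Fact.mk hM.prime
  rw [sum_filter_pPart_eq hu hC]
  refine Finset.sum_congr rfl fun s hs => ?_
  simp only [Finset.mem_filter, Finset.mem_univ, true_and] at hs
  obtain ⟨e1, e2⟩ := pPart_pRegPart_unique
    (Subgroup.mem_centralizer_singleton_iff.1 (hC.le s.2)).symm hu (by simpa using hs)
  rw [← hB.sum_mul_conj_section hM hu hC (by rwa [orderOf_inv]) hs, hk, e1, e2]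
  rfl

/-- a block induced from a real `2`-block of the centralizer of a `2`-element contains a character
fixed by `g ↦ g₂ g₂'⁻¹` -/
theorem IsInducedBlock.exists_pow_fixed (hM : IsPModular 2 M) {k : ℕ}
    (hk : ∀ g : G, g ^ k = pPart 2 g * (pRegPart 2 g)⁻¹) {u : G} (hu : ∃ j : ℕ, orderOf u = 2 ^ j)
    {C : Subgroup G} (hC : C = Subgroup.centralizer {u}) {b : Set (IrrCharacter C)}
    {B : Set (IrrCharacter G)} (hb : IsPBlock M b) (hB : IsPBlock M B) (h : IsInducedBlock M C b B)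
    (hr : ∀ χ ∈ b, χ.cconj ∈ b) : ∃ χ ∈ B, ∀ g, χ.1 (g ^ k) = χ.1 g := by
  classical
  have := Fact.mk Nat.prime_two
  have := Fintype.ofFinite G
  have key : ∀ v : G, ∃ n : ℕ, ∑ g ∈ Finset.univ.filter (fun g : G => pPart 2 g = v),
      ∑ χ ∈ irrFinset B, χ.1 (g ^ k) * conj (χ.1 g) = n := fun v => by
    by_cases hv : ∃ j : ℕ, orderOf v = 2 ^ j
    · rw [hB.sum_section_inv hM hk hv rfl]
      exact (hM.isBlockUnion_inducingChars _ B).exists_sum_inv_eq_nat hM
    · refine ⟨0, ?_⟩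
      rw [Finset.filter_false_of_mem, Finset.sum_empty, Nat.cast_zero]
      exact fun g _ hg => hv (hg ▸ exists_orderOf_pPart g)
  choose n hn using key
  have h1 := card_pow_fixed_mul B (coprime_card_of_pow_eq hk)
  rw [← Finset.sum_fiberwise (s := Finset.univ) (g := pPart 2)] at h1
  simp only [hn] at h1
  by_contra! hno
  have : IsEmpty {χ : IrrCharacter G // χ ∈ B ∧ ∀ g, χ.1 (g ^ k) = χ.1 g} :=
    ⟨fun χ => by obtain ⟨g, hg⟩ := hno χ.1 χ.2.1; exact hg (χ.2.2 g)⟩
  rw [Nat.card_of_isEmpty (α := {χ : IrrCharacter G // χ ∈ B ∧ ∀ g, χ.1 (g ^ k) = χ.1 g}),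
    Nat.cast_zero, mul_zero] at h1
  have h2 : n u = 0 := Finset.sum_eq_zero_iff.1 (by exact_mod_cast h1.symm) u (Finset.mem_univ u)
  have h3 := hn u
  have hs : irrFinset (inducingChars M C B) = irrFinset b ∪ irrFinset (inducingChars M C B ∩ bᶜ) := by
    ext ψ
    simp only [Finset.mem_union, mem_irrFinset, Set.mem_inter_iff, Set.mem_compl_iff]
    refine ⟨by tauto, fun h' => h'.elim (fun h' => ?_) And.left⟩
    rwa [hM.mem_inducingChars_iff, ← hb.eq_blockOf hM h']
  obtain ⟨m₁, e1⟩ := (hb.isBlockUnion hM).exists_sum_inv_eq_nat hM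
  obtain ⟨m₂, e2⟩ := ((hM.isBlockUnion_inducingChars C B).inter
    ((hb.isBlockUnion hM).compl hM)).exists_sum_inv_eq_nat hM
  rw [hB.sum_section_inv hM hk hu hC, hs, h2] at h3
  simp only [Finset.sum_union (s₁ := irrFinset b) (s₂ := irrFinset (inducingChars M C B ∩ bᶜ))
    (Finset.disjoint_left.2 fun ψ h1 h2 => (mem_irrFinset.1 h2).2 (mem_irrFinset.1 h1)),
    Finset.sum_add_distrib, e1, e2] at h3
  have h4 : m₁ + m₂ = 0 := by exact_mod_cast h3
  exact hb.sum_inv_ne_zero hM hr (by rw [e1, show m₁ = 0 by omega, Nat.cast_zero])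

end Cfsg
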