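import Cfsg.Agent.Blk.IndexTwo
import Cfsg.Agent.Blk.Over
import Cfsg.Agent.CT.SymChar

/-!
# Blocks of symmetric and alternating groups
-/

set_option autoImplicit false

namespace Cfsg
namespace SymCh

open Finset Equiv ComplexConjugate

variable {N p : ℕ} {M : Ideal AlgInt} {α : Type} [Fintype α] [DecidableEq α]

/-- The characters whose beta-sets lie in a class. -/
def clsSet (α : Type) [Fintype α] [DecidableEq α] (N p : ℕ) (c : Fin p → ℕ) :
    Set (IrrCharacter (Perm α)) := irrB α N '' (bc N p c (Fintype.card α))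

theorem sum_clsSet {A : Type*} [AddCommMonoid A] (c : Fin p → ℕ) (F : IrrCharacter (Perm α) → A) :
    ∑ χ ∈ irrFinset (clsSet α N p c), F χ = ∑ X ∈ bc N p c (Fintype.card α), F (irrB α N X) := by
  classical
  rw [← sum_image (f := F) fun X hX Y hY h => irrB_injOn (mem_bc.1 hX).1 (mem_bc.1 hY).1 h]
  congr 1
  ext χ
  simp [clsSet]

theorem card_clsSet (c : Fin p → ℕ) :
    Nat.card (clsSet α N p c) = #(bc N p c (Fintype.card α)) := by
  rw [← card_irrFinset, card_eq_sum_ones, sum_clsSet, ← card_eq_sum_ones]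

/-- The indicator of the `p`-regular cycle types. -/
def regInd (p : ℕ) (ρ : Multiset ℕ) : ℚ := if ∀ r ∈ ρ, ¬ p ∣ r then 1 else 0

theorem pRegularPart_eq (hp : p.Prime) (χ : Perm α → ℂ) : pRegularPart p χ =
    fun σ => (regInd p (typ σ) : ℂ) * χ σ := by
  funext σ
  rw [pRegularPart_apply, regInd]
  have := dvd_orderOf_iff hp σ
  by_cases h : p ∣ orderOf σ
  · rw [if_pos h, if_neg (by rw [← this]; simpa)]; simp
  · rw [if_neg h, if_pos (this.1 h)]; simp

theorem isBlockUnion_clsSet (hM : IsPModular p M) (hN : Fintype.card α ≤ N) (c : Fin p → ℕ) :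
    IsBlockUnion M (clsSet α N p c) := by
  refine hM.isBlockUnion_of_classInner ?_
  rintro _ ⟨X, hX, rfl⟩ ψ hψ
  obtain ⟨Y, hY, rfl⟩ := exists_irrB_eq hN ψ
  rw [mem_coe, mem_bc] at hX
  obtain ⟨ε, -, -, h⟩ := (isLab_irrB hX.1).classInner_mul (isLab_irrB hY)
  rw [pRegularPart_eq hM.prime, h (regInd p)]
  have h1 := sum_rptn_eq_zero (p := p) hN hX.1 hY fun h => hψ ⟨Y, mem_bc.2 ⟨hY, h ▸ hX.2⟩, rfl⟩
  rw [rptn, sum_filter] at h1
  rw [sum_congr rfl (g := fun ρ => if ∀ r ∈ ρ, ¬ p ∣ r then ph N X ρ * ph N Y ρ / zz ρ else 0)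
    fun ρ _ => by unfold regInd; split_ifs <;> simp, h1]
  simp

theorem sum_classInner_clsSet (c : Fin p → ℕ) (η : Multiset ℕ → ℚ) :
    ∑ χ ∈ irrFinset (clsSet α N p c), classInner (fun σ => η (typ σ) * χ.1 σ) χ.1 =
      ((∑ ρ ∈ ptn (Fintype.card α), η ρ * mm N p c (Fintype.card α) ρ ρ / zz ρ : ℚ) : ℂ) := by
  rw [sum_clsSet]
  simp_rw [mm, mul_sum, sum_div]
  rw [sum_comm, Rat.cast_sum]
  refine sum_congr rfl fun X hX => ?_
  obtain ⟨ε, -, h1, h⟩ := (isLab_irrB (mem_bc.1 hX).1).classInner_mul (isLab_irrB (mem_bc.1 hX).1)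
  rw [h, h1 rfl rfl, one_mul]

theorem blockRank_clsSet (hM : IsPModular p M) (hN : Fintype.card α ≤ N) (c : Fin p → ℕ) :
    (blockRank p (clsSet α N p c) : ℚ) = ll N p c (fun _ => 1) (Fintype.card α) := by
  have h := (isBlockUnion_clsSet hM hN c).blockRank_eq_sum_classInner hM
  simp_rw [pRegularPart_eq hM.prime] at h
  rw [sum_classInner_clsSet c (regInd p)] at h
  rw [← Rat.cast_natCast (α := ℂ), Rat.cast_inj] at h
  rw [h, ll, rptn, sum_filter]
  exact sum_congr rfl fun ρ _ => by unfold regInd; split_ifs <;> simp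

/-- The combinatorial data attached to a class. -/
structure ClsData (n N p : ℕ) (c : Fin p → ℕ) (m₀ w : ℕ) : Prop where
  le : n ≤ N
  eq : n = m₀ + p * w
  sum : ∑ j, c j = N
  bas : m₀ + tri N = base c
  big : ∀ j, w ≤ c j

theorem exists_clsData (hM : IsPModular p M) {B : Set (IrrCharacter (Perm α))}
    (hB : IsPBlock M B) : ∃ N c m₀ w, ClsData (Fintype.card α) N p c m₀ w ∧ B ⊆ clsSet α N p c := by
  have hp := hM.prime.pos
  obtain ⟨χ, hχ⟩ := hB.nonempty hM
  set n := Fintype.card α with hn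
  obtain ⟨X, hX, rfl⟩ := exists_irrB_eq (N := p * n + n) (by omega) χ
  have h1 := sum_eq_base_add hp X
  have h2 := tri_le_base (clsF p X)
  rw [sum_clsF hp, (mem_bs.1 hX).1] at h2
  rw [(mem_bs.1 hX).2] at h1
  have h3 := Nat.le_mul_of_pos_left (wt p X) hp
  refine ⟨p * n + n, clsF p X, n - p * wt p X, wt p X, ⟨by omega, by omega, ?_, by omega,
    fun j => le_trans (by omega) (le_clsF hX (k := n) le_rfl j)⟩, ?_⟩
  · rw [sum_clsF hp, (mem_bs.1 hX).1]
  · exact (isBlockUnion_clsSet hM (by omega) _).subset_of_mem hM hB hχ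
      ⟨X, mem_bc.2 ⟨hX, rfl⟩, rfl⟩

variable {c : Fin p → ℕ} {m₀ w : ℕ}

theorem ClsData.blockRank_eq (h : ClsData (Fintype.card α) N p c m₀ w) (hM : IsPModular p M) :
    blockRank p (clsSet α N p c) = cc (p - 1) w := by
  have h1 := blockRank_clsSet hM h.le c
  rw [h.eq, ll_one hM.prime.pos h.sum h.bas h.big (h.eq ▸ h.le)] at h1
  exact_mod_cast h1

theorem ClsData.card_eq (h : ClsData (Fintype.card α) N p c m₀ w) (hp : 0 < p) :
    Nat.card (clsSet α N p c) = cc p w := by
  rw [card_clsSet, card_bc hp h.sum h.big (by rw [h.eq, ← h.bas]; ring)]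

theorem ClsData.exists_elt (h : ClsData (Fintype.card α) N p c m₀ w) (hp : p.Prime) :
    ∃ u : Perm α, u.cycleType = Multiset.replicate w p ∧ ∀ χ ∈ clsSet α N p c, χ.1 u ≠ 0 := by
  obtain ⟨u, hu⟩ := exists_typ_eq (α := α)
    (ρ := Multiset.replicate w p + Multiset.replicate m₀ 1) (by
      rw [mem_ptn]
      refine ⟨by simp [h.eq]; ring, fun r hr => ?_⟩
      rcases Multiset.mem_add.1 hr with hr | hr <;> rw [Multiset.eq_of_mem_replicate hr]
      exacts [hp.pos, one_pos])
  refine ⟨u, ?_, ?_⟩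
  · rw [← Perm.filter_parts_partition_eq_cycleType, ← typ, hu, Multiset.filter_add,
      Multiset.filter_eq_self.2, Multiset.filter_eq_nil.2, add_zero]
    · intro r hr; simp [Multiset.eq_of_mem_replicate hr]
    · intro r hr; rw [Multiset.eq_of_mem_replicate hr]; exact hp.two_le
  · rintro _ ⟨X, hX, rfl⟩
    rw [irrB_ne_zero_iff (mem_bc.1 hX).1, hu]
    exact ph_replicate_ne_zero hp.pos h.bas (h.eq ▸ hX)

theorem exists_base_group {u : Perm α} (hu : u.cycleType = Multiset.replicate w p) :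
    ∃ E : Subgroup (Perm α), Nat.card E = p ^ w ∧ (∀ a ∈ E, ∀ b ∈ E, a * b = b * a) ∧
      (∀ a ∈ E, a ^ p = 1) ∧ E ≤ Subgroup.centralizer {u} ∧
      Subgroup.centralizer {u} ≤ Subgroup.normalizer (E : Set (Perm α)) := by
  have hord : ∀ c ∈ u.cycleFactorsFinset, orderOf c = p := by
    intro c hc
    rw [(Perm.mem_cycleFactorsFinset_iff.1 hc).1.orderOf]
    refine Multiset.eq_of_mem_replicate (n := w) ?_
    rw [← hu, Perm.cycleType_def]
    exact Multiset.mem_map_of_mem _ hc
  let f := Subgroup.noncommPiCoprod u.pairwise_commute_of_mem_zpowers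
  have hf : Function.Injective f := by
    intro a b hab
    have := Perm.OnCycleFactors.kerParam_injective u (a₁ := (1, a)) (a₂ := (1, b))
      (by simpa [Perm.OnCycleFactors.kerParam] using hab)
    exact (Prod.ext_iff.1 this).2
  have hr : f.range = Subgroup.closure (u.cycleFactorsFinset : Set (Perm α)) := by
    rw [Subgroup.noncommPiCoprod_range]
    simp only [Subgroup.zpowers_eq_closure, ← Subgroup.closure_iUnion]
    congr 1
    ext c; simp
  refine ⟨f.range, ?_, ?_, ?_, ?_, ?_⟩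
  · rw [← Nat.card_congr (MonoidHom.ofInjective hf).toEquiv, Nat.card_pi,
      prod_congr rfl (g := fun _ => p) fun c _ => by rw [Nat.card_zpowers, hord c c.2]]
    have : #u.cycleFactorsFinset = w := by
      simpa [Perm.cycleType_def] using congrArg Multiset.card hu
    simp [this]
  · rintro _ ⟨a, rfl⟩ _ ⟨b, rfl⟩
    rw [← map_mul, ← map_mul]
    congr 1
    funext c
    exact mul_comm' _ _
  · rintro _ ⟨a, rfl⟩
    rw [← map_pow, ← map_one f]
    congr 1
    funext c
    have := pow_card_eq_one' (x := a c)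
    rwa [Nat.card_zpowers, hord c c.2] at this
  · rw [hr, Subgroup.closure_le]
    intro c hc
    exact Subgroup.mem_centralizer_singleton_iff.2 (Perm.self_mem_cycle_factors_commute hc)
  · rw [hr]
    intro g hg
    rw [Subgroup.mem_centralizer_singleton_iff] at hg
    have key : ∀ k : Perm α, k * u = u * k → ∀ x ∈ Subgroup.closure
        (u.cycleFactorsFinset : Set (Perm α)), k * x * k⁻¹ ∈ Subgroup.closure
        (u.cycleFactorsFinset : Set (Perm α)) := by
      intro k hk x hx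
      induction hx using Subgroup.closure_induction with
      | mem c hc =>
        refine Subgroup.subset_closure ?_
        have := (Perm.mem_cycleFactorsFinset_conj u k c).2 hc
        rwa [hk, mul_inv_cancel_right] at this
      | one => simp
      | mul a b _ _ ha hb => simpa [mul_assoc] using Subgroup.mul_mem _ ha hb
      | inv a _ ha => simpa [mul_assoc] using Subgroup.inv_mem _ ha
    rw [Subgroup.mem_normalizer_iff]
    refine fun x => ⟨key g hg x, fun hx => ?_⟩
    simpa [mul_assoc] using key g⁻¹ (Commute.inv_left hg) _ hx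

theorem ClsData.exists_isConjLE (h : ClsData (Fintype.card α) N p c m₀ w) (hM : IsPModular p M)
    {B : Set (IrrCharacter (Perm α))} (hB : IsPBlock M B) (hBc : B ⊆ clsSet α N p c)
    {D : Subgroup (Perm α)} (hD : IsDefectGroup p M B D) :
    ∃ E : Subgroup (Perm α), Nat.card E = p ^ w ∧ (∀ a ∈ E, ∀ b ∈ E, a * b = b * a) ∧
      (∀ a ∈ E, a ^ p = 1) ∧ E ≤ D := by
  obtain ⟨u, hu, hu'⟩ := h.exists_elt hM.prime
  obtain ⟨E, h1, h2, h3, h4, h5⟩ := exists_base_group hu
  obtain ⟨χ, hχ⟩ := hB.nonempty hM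
  have := Fact.mk hM.prime
  obtain ⟨x, hx⟩ := hD.isConjLE_of_apply_ne_zero_of_normal hM hB hχ (u := u) (by
    have : orderOf u ∣ p ^ 1 := by
      rw [← Perm.lcm_cycleType, hu, Multiset.lcm_dvd]
      intro r hr
      simp [Multiset.eq_of_mem_replicate hr]
    obtain ⟨k, -, hk⟩ := (Nat.dvd_prime_pow hM.prime).1 this
    exact ⟨k, hk⟩) (hu' χ (hBc hχ)) (IsPGroup.of_card h1) h4 h5
  refine ⟨_, ?_, ?_, ?_, hx⟩
  · rw [← h1]
    exact Nat.card_congr (E.equivMapOfInjective _ (MulAut.conj x).injective).toEquiv.symm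
  · rintro _ ⟨a, ha, rfl⟩ _ ⟨b, hb, rfl⟩
    rw [← map_mul, ← map_mul, h2 a ha b hb]
  · rintro _ ⟨a, ha, rfl⟩
    rw [← map_pow, h3 a ha, map_one]

theorem card_split_clsSet [Nontrivial α] (c : Fin p → ℕ) :
    (Nat.card {χ | χ ∈ clsSet α N p c ∧ classInner (fun n : alternatingGroup α => χ.1 n)
      (fun n : alternatingGroup α => χ.1 n) ≠ 1} : ℚ) =
      ∑ ρ ∈ ptn (Fintype.card α), sgn ρ * mm N p c (Fintype.card α) ρ ρ / zz ρ := by
  classical
  have h := sum_classInner_clsSet (α := α) (N := N) c sgn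
  have h1 : ∀ χ : IrrCharacter (Perm α), classInner (fun σ => sgn (typ σ) * χ.1 σ) χ.1 =
      if classInner (fun n : alternatingGroup α => χ.1 n)
        (fun n : alternatingGroup α => χ.1 n) ≠ 1 then 1 else 0 := by
    intro χ
    have h2 := classInner_res_self_eq (alternatingGroup.index_eq_two (α := α)) χ
    have h3 : (fun σ => (sgn (typ σ) : ℂ) * χ.1 σ) =
        fun g => (if g ∈ alternatingGroup α then 1 else -1) * χ.1 g := by
      funext σ
      rw [sgn_typ]
      rcases Int.units_eq_one_or (Perm.sign σ) with h | h <;> simp [h]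
    rw [h3]
    rcases classInner_res_self_of_index_two (alternatingGroup.index_eq_two (α := α)) χ with h | h
    · rw [if_neg (by simpa using h)]
      convert (by linear_combination h - h2 :
        classInner (fun g => (if g ∈ alternatingGroup α then 1 else -1) * χ.1 g) χ.1 = 0)
    · rw [if_pos (by rw [h]; norm_num)]
      convert (by linear_combination h - h2 :
        classInner (fun g => (if g ∈ alternatingGroup α then 1 else -1) * χ.1 g) χ.1 = 1)
  simp_rw [h1] at h
  rw [sum_boole] at h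
  rw [← card_irrFinset]
  have h2 : irrFinset {χ | χ ∈ clsSet α N p c ∧ classInner (fun n : alternatingGroup α => χ.1 n)
      (fun n : alternatingGroup α => χ.1 n) ≠ 1} = {χ ∈ irrFinset (clsSet α N p c) |
        classInner (fun n : alternatingGroup α => χ.1 n)
      (fun n : alternatingGroup α => χ.1 n) ≠ 1} := by
    ext; simp
  rw [h2]
  exact_mod_cast h

theorem ClsData.card_split_two [Nontrivial α] (h : ClsData (Fintype.card α) N p c m₀ 2)
    (hp : p.Prime) :
    Nat.card {χ | χ ∈ clsSet α N p c ∧ classInner (fun n : alternatingGroup α => χ.1 n)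
      (fun n : alternatingGroup α => χ.1 n) ≠ 1} + 2 * p ≤ cc p 2 := by
  classical
  have h1 := le_card_filter_ne_zero hp.pos h.sum h.bas (h.eq ▸ h.le) hp.one_lt.ne'
  rw [← h.eq] at h1
  obtain ⟨u, hu⟩ := exists_typ_eq (α := α) (ρ := (2 * p) ::ₘ Multiset.replicate m₀ 1) (by
    rw [mem_ptn]
    refine ⟨by simp [h.eq]; ring, fun r hr => ?_⟩
    rcases Multiset.mem_cons.1 hr with rfl | hr
    · have := hp.pos; omega
    · rw [Multiset.eq_of_mem_replicate hr]; exact one_pos)
  have hu' : u ∉ alternatingGroup α := by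
    intro h2
    have := sgn_typ u
    rw [hu, Perm.mem_alternatingGroup.1 h2] at this
    simp [sgn] at this
    norm_num at this
  have h2 : Nat.card {χ | χ ∈ clsSet α N p c ∧ classInner (fun n : alternatingGroup α => χ.1 n)
      (fun n : alternatingGroup α => χ.1 n) ≠ 1} ≤ #{X ∈ bc N p c (Fintype.card α) |
        ¬ ph N X ((2 * p) ::ₘ Multiset.replicate m₀ 1) ≠ 0} := by
    refine le_trans ?_ (card_image_le (f := irrB α N))
    rw [← card_irrFinset]
    refine card_le_card fun χ hχ => ?_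
    obtain ⟨⟨X, hX, rfl⟩, h3⟩ := mem_irrFinset.1 hχ
    refine mem_image_of_mem _ (mem_filter.2 ⟨hX, ?_⟩)
    rw [← hu, ← irrB_ne_zero_iff (mem_bc.1 hX).1, not_not]
    exact apply_eq_zero_of_classInner_res_ne_one alternatingGroup.index_eq_two h3 hu'
  have h3 := card_filter_add_card_filter_not (s := bc N p c (Fintype.card α))
    (fun X => ph N X ((2 * p) ::ₘ Multiset.replicate m₀ 1) ≠ 0)
  rw [← h.card_eq (α := α) hp.pos, card_clsSet]
  omega

theorem ClsData.card_split_four [Nontrivial α] {c : Fin 2 → ℕ}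
    (h : ClsData (Fintype.card α) N 2 c m₀ 4) :
    Nat.card {χ | χ ∈ clsSet α N 2 c ∧ classInner (fun n : alternatingGroup α => χ.1 n)
      (fun n : alternatingGroup α => χ.1 n) ≠ 1} = 2 := by
  have h1 := card_split_clsSet (α := α) (N := N) c
  rw [h.eq, sum_mm_eq' two_pos sgn sgn_add h.bas (h.eq ▸ h.le)] at h1
  have h2 : ∀ k ≤ 4, ll N 2 c sgn (m₀ + 2 * k) = pn k := by
    intro k hk
    rw [← cc_one_left, show cc 1 k = cc (2 - 1) k from rfl, ← ll_one two_pos h.sum h.bas (fun j => hk.trans (h.big j))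
      (by have := h.eq; have := h.le; omega)]
    refine sum_congr rfl fun ρ hρ => ?_
    congr 2
    have := (mem_rptn.1 hρ).2
    rw [sgn]
    refine Multiset.prod_eq_one fun a ha => ?_
    obtain ⟨r, hr, rfl⟩ := Multiset.mem_map.1 ha
    rw [Odd.neg_one_pow (Nat.odd_iff.2 (by have := this r hr; omega)), neg_neg]
  have h3 : ∀ μ : Multiset ℕ, sgn (μ.map (2 * ·)) = ((-1 : ℤ) ^ μ.card : ℤ) := by
    intro μ
    simp [sgn]
  have h4 : ∀ j ≤ 4, ∑ μ ∈ ptn j, (((-1 : ℤ) ^ μ.card : ℤ) : ℚ) =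
      ((∑ μ ∈ ptnC 4 j, (-1 : ℤ) ^ μ.card : ℤ) : ℚ) := by
    intro j hj
    rw [ptn_eq_ptnC 4 j hj, Int.cast_sum]
  simp only [sum_range_succ, range_zero, sum_empty, h3] at h1
  rw [h4 0 (by omega), h4 1 (by omega), h4 2 (by omega), h4 3 (by omega), h4 4 (by omega),
    h2 _ (by omega), h2 _ (by omega), h2 _ (by omega), h2 _ (by omega), h2 _ (by omega),
    show ∑ μ ∈ ptnC 4 0, (-1 : ℤ) ^ μ.card = 1 by decide +kernel,
    show ∑ μ ∈ ptnC 4 1, (-1 : ℤ) ^ μ.card = -1 by decide +kernel,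
    show ∑ μ ∈ ptnC 4 2, (-1 : ℤ) ^ μ.card = 0 by decide +kernel,
    show ∑ μ ∈ ptnC 4 3, (-1 : ℤ) ^ μ.card = -1 by decide +kernel,
    show ∑ μ ∈ ptnC 4 4, (-1 : ℤ) ^ μ.card = 1 by decide +kernel] at h1
  norm_num [pn_zero, pn_one, pn_three, pn_four] at h1
  exact_mod_cast h1

theorem ClsData.card_split_odd [Nontrivial α] {c : Fin 2 → ℕ}
    (h : ClsData (Fintype.card α) N 2 c m₀ w) (hw : Odd w) :
    Nat.card {χ | χ ∈ clsSet α N 2 c ∧ classInner (fun n : alternatingGroup α => χ.1 n)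
      (fun n : alternatingGroup α => χ.1 n) ≠ 1} = 0 := by
  obtain ⟨u, hu, hu'⟩ := h.exists_elt Nat.prime_two
  have hu2 : u ∉ alternatingGroup α := by
    rw [Perm.mem_alternatingGroup, Perm.sign_of_cycleType', hu]
    simp [hw.neg_one_pow]
  rw [Nat.card_eq_zero]
  left
  rw [Set.isEmpty_coe_sort, Set.eq_empty_iff_forall_notMem]
  rintro χ ⟨h1, h2⟩
  exact hu' χ h1 (apply_eq_zero_of_classInner_res_ne_one alternatingGroup.index_eq_two h2 hu2)

theorem blockRank_lt_perm (hM : IsPModular p M) {B : Set (IrrCharacter (Perm α))}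
    (hB : IsPBlock M B) {D : Subgroup (Perm α)} (hD : IsDefectGroup p M B D) (hD1 : D ≠ ⊥) {s : ℕ}
    (hs : SectionalPRankLE p s D) : blockRank p B < p ^ s := by
  have := Fact.mk hM.prime
  obtain ⟨N, c, m₀, w, h, hBc⟩ := exists_clsData hM hB
  have h1 := blockRank_mono (p := p) hBc
  rw [h.blockRank_eq hM] at h1
  obtain ⟨E, h2, h3, h4, h5⟩ := h.exists_isConjLE hM hB hBc hD
  have h6 := hs.card_le_of_isConjLE (IsConjLE.of_le h5) h3 h4
  have := (Subgroup.nontrivial_iff_ne_bot D).2 hD1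
  have h7 := hs.one_le hD.isPGroup
  rcases Nat.eq_zero_or_pos w with rfl | hw
  · rw [cc_zero_right] at h1
    exact h1.trans_lt (Nat.one_lt_pow (by omega) hM.prime.one_lt)
  · have h8 := cc_lt (e := p - 1) hw
    rw [Nat.sub_add_cancel hM.prime.pos] at h8
    omega

theorem blockRank_lt_alt (hM : IsPModular p M) {b : Set (IrrCharacter (alternatingGroup α))}
    (hb : IsPBlock M b) {Q : Subgroup (alternatingGroup α)} (hQ : IsDefectGroup p M b Q)
    (hQ1 : Q ≠ ⊥) {s : ℕ} (hs : SectionalPRankLE p s Q) : blockRank p b < p ^ s := by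
  classical
  have := Fact.mk hM.prime
  have hp := hM.prime
  have := (Subgroup.nontrivial_iff_ne_bot Q).2 hQ1
  by_cases hc : IsCyclic Q
  · have h7 := hs.one_le hQ.isPGroup
    exact (hQ.blockRank_lt_of_isCyclic hM hb hc hQ1).trans_le
      (Nat.le_self_pow (by omega) p)
  have hs2 := hs.two_le hQ.isPGroup hc
  have hα : Nontrivial α := by
    by_contra hα
    rw [not_nontrivial_iff_subsingleton] at hα
    exact hQ1 (Subsingleton.elim _ _)
  have h2 := alternatingGroup.index_eq_two (α := α)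
  obtain ⟨θ, hθ⟩ := hb.nonempty hM
  obtain ⟨χ, hχ⟩ := irrOver_nonempty θ
  have hB := isPBlock_blockOf (M := M) χ
  set B := blockOf M χ.1
  have hcov : ∃ χ ∈ B, ∃ θ ∈ b, classInner (fun n : alternatingGroup α => χ.1 n) θ.1 ≠ 0 :=
    ⟨χ, hM.mem_blockOf_self χ, θ, hθ, hχ⟩
  have hov : ∀ θ ∈ b, ∃ χ ∈ B, classInner (fun n : alternatingGroup α => χ.1 n) θ.1 ≠ 0 :=
    fun θ hθ => hB.exists_over_of_covers hM hb hcov hθ
  obtain ⟨N, c, m₀, w, h, hBc⟩ := exists_clsData hM hB
  have h1 := blockRank_mono (p := p) hBc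
  have h3 := blockRank_le_add_of_index_two (p := p) h2 (C := clsSet α N p c) fun θ hθ => by
    obtain ⟨χ, h1, h2⟩ := hov θ hθ
    exact ⟨χ, hBc h1, h2⟩
  have h4 := hB.blockRank_le_two_mul hM h2 hov
  rw [h.blockRank_eq hM] at h1 h3
  obtain ⟨D, hD, hDQ⟩ := hB.exists_isDefectGroup_inf_eq hM hb hcov
    (Q := Q.map (alternatingGroup α).subtype) (Subgroup.map_subtype_le _)
    (by rwa [Subgroup.subgroupOf, Subgroup.comap_map_eq_self_of_injective
      (Subgroup.subtype_injective _)])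
  obtain ⟨E, e1, e2, e3, e4⟩ := h.exists_isConjLE hM hB hBc hD
  have h5 : Nat.card (E.subgroupOf (alternatingGroup α)) ≤ p ^ s := by
    refine hs.card_le_of_isConjLE (IsConjLE.of_le fun x hx => ?_)
      (fun a ha b hb => Subtype.ext (e2 _ ha _ hb)) fun a ha => Subtype.ext (e3 _ ha)
    have : (x : Perm α) ∈ Q.map (alternatingGroup α).subtype := hDQ ▸ ⟨e4 hx, x.2⟩
    obtain ⟨y, hy, hyx⟩ := this
    rwa [← Subtype.ext hyx]
  have h6 : Nat.card (E.subgroupOf (alternatingGroup α)) * (alternatingGroup α).relIndex E =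
      p ^ w := by
    rw [← e1, ← Subgroup.inf_relIndex_right, ← card_mul_relIndex_of_le
      (inf_le_right : alternatingGroup α ⊓ E ≤ E), ← Subgroup.inf_subgroupOf_left,
      Nat.card_congr (Subgroup.subgroupOfEquivOfLe inf_le_left).toEquiv]
  have h7 : (alternatingGroup α).relIndex E ∣ 2 := h2 ▸ Subgroup.relIndex_dvd_index_of_normal _ _
  have hpp : p ^ 2 ≤ p ^ s := Nat.pow_le_pow_right hp.pos hs2
  obtain ⟨e, rfl⟩ : ∃ e, p = e + 1 := ⟨p - 1, (Nat.sub_add_cancel hp.pos).symm⟩
  rw [Nat.add_sub_cancel] at h1 h3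
  by_cases hw2 : w = 2
  · subst hw2
    have := h.card_split_two hp
    have := cc_two_right e
    have := cc_two_right (e + 1)
    nlinarith
  have he : 1 ≤ e := by have := hp.two_le; omega
  rcases Nat.lt_or_ge w 2 with hw | hw
  · have : cc e w ≤ e := by
      interval_cases w
      · rw [cc_zero_right]; exact he
      · rw [cc_one_right]
    nlinarith
  have hw3 := two_mul_cc_lt (e := e) (show 3 ≤ w by omega)
  by_cases h2e : e = 1
  · subst h2e
    have h8 : 2 ^ w ≤ 2 * 2 ^ s := by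
      have := Nat.le_of_dvd two_pos h7
      calc 2 ^ w = _ := h6.symm
        _ ≤ 2 ^ s * 2 := Nat.mul_le_mul h5 this
        _ = _ := mul_comm _ _
    simp only [Nat.reduceAdd] at *
    rcases Nat.even_or_odd w with hw' | hw'
    · by_cases hw4 : w = 4
      · subst hw4
        rw [h.card_split_four, cc_one_left, pn_four] at h3
        omega
      · have := four_mul_cc_lt (w := w) (by obtain ⟨k, hk⟩ := hw'; omega)
        omega
    · rw [h.card_split_odd hw'] at h3
      omega
  · have h8 : (alternatingGroup α).relIndex E = 1 := by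
      have h9 : (alternatingGroup α).relIndex E ∣ (e + 1) ^ w := Dvd.intro_left _ h6
      refine Nat.eq_one_of_dvd_coprimes (Nat.Coprime.pow_right w ?_) h7 h9
      rw [Nat.coprime_primes Nat.prime_two hp]
      omega
    rw [h8, mul_one] at h6
    omega

end SymCh
end Cfsg
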