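import Cfsg.Agent.Blk.ThreeOver
import Cfsg.Agent.Blk.NormalDef
import Cfsg.Agent.Blk.FongRey
import Cfsg.Agent.Blk.AbTwo
import Cfsg.Agent.Blk.StarLin
import Cfsg.Agent.Blk.RankQuot
import Cfsg.Agent.Blk.PairMisc
import Cfsg.Agent.Blk.CycPerfect
import Cfsg.Agent.CT.GoodCount
import Cfsg.Agent.CT.Degrees
import Cfsg.Agent.Grp.Zsigmondy

/-! Blocks with three characters and a normal abelian defect group. -/

set_option autoImplicit false

universe u

namespace Cfsg

variable {p : ℕ} {M : Ideal AlgInt} {G : Type u} [Group G] [Finite G] {B : Set (IrrCharacter G)}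
  {D : Subgroup G}

theorem IsPModular.isPBlock_univ_of_isPGroup (hM : IsPModular p M) (hG : IsPGroup p G) :
    IsPBlock M (Set.univ : Set (IrrCharacter G)) := by
  have := Fintype.ofFinite G
  rw [← hM.principalBlock_eq_univ (Q := ⊤) (hG.to_subgroup ⊤) le_top]
  exact isPBlock_principalBlock

theorem IsBlockUnion.idemK_mem_suppGA_centralizer (hM : IsPModular p M) (hB : IsBlockUnion M B)
    [D.Normal] (hD : IsPGroup p D) :
    idemK M B ∈ suppGA (resK M) (Subgroup.centralizer (D : Set G)) :=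
  mem_suppGA.2 fun g hg => by rw [coeff_idemK, hB.blockCoeff_eq_zero_of_normal hM hD hg, red_zero]

theorem IsMaximalBrauerPair.covers_of_normal (hM : IsPModular p M) [D.Normal]
    {b : Set (IrrCharacter (Subgroup.centralizer (D : Set G)))}
    [Fintype (Subgroup.centralizer (D : Set G))] (hb : IsMaximalBrauerPair p M B D b) :
    ∃ χ ∈ B, ∃ θ ∈ b, classInner (fun n : Subgroup.centralizer (D : Set G) => χ.1 n) θ.1 ≠ 0 := by
  have h1 := (hb.isMaxPair hM).pairOf
  have h2 := h1.br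
  rw [brGA_eq_self ((hb.isPBlock.isBlockUnion hM).idemK_mem_suppGA_centralizer hM h1.pair.pgrp)] at h2
  rw [hb.isPBlock.covers_iff hM hb.isPBlock', h2]
  exact h1.pair.blk.ne_zero

theorem IsPBlock.odd_card_of_height_zero {M : Ideal AlgInt} (hM : IsPModular 2 M)
    (hB : IsPBlock M B) (hd : blockDefect 2 B ≠ 0) (h : ∀ χ ∈ B, blockHeight 2 B χ.1 = 0) :
    2 ∣ Nat.card B := by
  have h1 := congrArg (Int.cast : ℤ → ZMod 2) (hB.sum_contrib_self hM)
  push_cast at h1
  rw [Finset.sum_congr rfl (g := fun _ => (1 : ZMod 2)) fun χ hχ => by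
    have hχ := mem_irrFinset.1 hχ
    rw [ZMod.intCast_eq_one_iff_odd, ← Int.not_even_iff_odd, even_iff_two_dvd]
    intro h2
    have := (padicValInt_dvd_iff (p := 2) 1 _).1 (by simpa using h2)
    rw [hB.padicValInt_contrib_of_height_zero hM hχ hχ (h χ hχ), h χ hχ] at this
    simpa using this.resolve_left (hB.contrib_ne_zero_of_height_zero hM hχ hχ (h χ hχ)),
    Finset.sum_const, card_irrFinset, show (2 : ZMod 2) = 0 from rfl, zero_pow hd, zero_mul,
    nsmul_one] at h1
  exact (ZMod.natCast_eq_zero_iff _ _).1 h1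

section stable
variable [D.Normal] {b : Set (IrrCharacter (Subgroup.centralizer (D : Set G)))}
  (hM : IsPModular p M) (hb : IsMaximalBrauerPair p M B D b) (hs : blockStab b = ⊤)
  (hab : D ≤ Subgroup.centralizer (D : Set G))
include hM hb hab

theorem IsMaximalBrauerPair.exists_rmult_of_normal (μ : IrrCharacter D) :
    ∃ θ ∈ b, rmult θ μ ≠ 0 := by
  have := Fintype.ofFinite D
  obtain ⟨θ, hθ⟩ := hb.isPBlock'.nonempty hM
  obtain ⟨ν, hν⟩ := exists_rmult_under hab θ
  obtain ⟨θ', h1, h2⟩ := hb.isPBlock'.exists_over_of_covers_sub hM hab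
    Subgroup.le_normalizer_of_normal (hM.isPBlock_univ_of_isPGroup hb.1.1.1)
    ⟨θ, hθ, ν, trivial, (rmult_ne_zero_iff hab).1 hν⟩ (θ := μ) trivial
  exact ⟨θ', h1, (rmult_ne_zero_iff hab).2 h2⟩

include hs

theorem IsMaximalBrauerPair.eq_of_rmult_of_normal {θ θ' : IrrCharacter _} (hθ : θ ∈ b)
    (hθ' : θ' ∈ b) {μ : IrrCharacter D} (h : rmult θ μ ≠ 0) (h' : rmult θ' μ ≠ 0) : θ = θ' := by
  have := Fintype.ofFinite (Subgroup.centralizer (D : Set G))
  choose f hf using exists_rmult_under hab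
  have hu : ∀ {θ μ}, rmult θ μ ≠ 0 → μ = f θ := fun h => eq_of_rmult_of_le_ezStab hab
    Subgroup.le_normalizer_of_normal (centralizer_le_ezStab _) (hf _) h
  have h1 := hb.isPBlock.isDefectGroup_inf_of_stable hM hb.isPBlock' hs (hb.covers_of_normal hM)
    (hM.isMaximalBrauerPair_iff_isDefectGroup.1 hb).2
  have h2 := (h1.isNilpotentBlock_of_regular hM hb.isPBlock' fun x _ =>
    Subgroup.mem_centralizer_iff.2 fun y hy => Subtype.ext
      (Subgroup.mem_centralizer_iff.1 x.2 y hy)).card_eq_of_comm hM h1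
      (subgroupOf_le_centralizer hab _)
  have := isMulCommutative_of_le_centralizer hab
  rw [Nat.card_congr (Subgroup.subgroupOfEquivOfLe hab).toEquiv, ← card_irr_of_comm (G := D)] at h2
  have h3 : Function.Bijective fun θ : b => f θ := (Nat.bijective_iff_surjective_and_card _).2
    ⟨fun μ => by
      obtain ⟨θ, h1, h2⟩ := hb.exists_rmult_of_normal hM hab μ
      exact ⟨⟨θ, h1⟩, (hu h2).symm⟩, h2⟩
  exact congrArg Subtype.val (h3.1 (a₁ := ⟨θ, hθ⟩) (a₂ := ⟨θ', hθ'⟩) ((hu h).symm.trans (hu h')))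

theorem IsMaximalBrauerPair.charInertia_eq_of_normal {θ : IrrCharacter _} (hθ : θ ∈ b)
    {μ : IrrCharacter D} (h : rmult θ μ ≠ 0) : charInertia θ.1 = charInertia μ.1 := by
  ext g
  have h1 := rmult_cj hab θ μ (g := g) (top_le_normalizer_of_normal trivial)
    (top_le_normalizer_of_normal trivial)
  rw [← IrrCharacter.smul_eq_cj, ← IrrCharacter.smul_eq_cj] at h1
  rw [IrrCharacter.mem_charInertia_iff, IrrCharacter.mem_charInertia_iff]
  refine ⟨fun h2 => eq_of_rmult_of_le_ezStab hab Subgroup.le_normalizer_of_normal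
    (centralizer_le_ezStab _) h (by rwa [← h2, h1]), fun h2 => hb.eq_of_rmult_of_normal hM hs hab
    ((mem_blockStab.1 (hs ▸ Subgroup.mem_top g) θ).2 hθ) hθ (by rwa [← h2, h1]) h⟩

theorem IsMaximalBrauerPair.not_dvd_index_of_normal :
    ¬ p ∣ (Subgroup.centralizer (D : Set G)).index := by
  have := (hb.starSetup hM).not_dvd_inertialIndex hab
  rwa [show pairStab ⊤ D (subIdem M _ b) = ⊤ from eq_top_iff.2 fun g _ => mem_pairStab.2
    ⟨trivial, top_le_normalizer_of_normal trivial, (hb.isPBlock'.mem_blockStab_iff_gaConj hM).1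
      (hs ▸ Subgroup.mem_top g)⟩, Subgroup.relIndex_top_right] at this

theorem IsMaximalBrauerPair.charInertia_le_of_card_dvd [Fintype D] (hc : Nat.card D ∣ p ^ 2)
    {μ : D →* ℂˣ} (hμ : μ ≠ 1) (h : ∀ χ ∈ B, ∀ χ' ∈ B,
      classInner (fun n : D => χ.1 n) (IrrCharacter.ofHom μ).1 ≠ 0 →
      classInner (fun n : D => χ'.1 n) (IrrCharacter.ofHom μ).1 ≠ 0 → χ = χ') :
    charInertia (IrrCharacter.ofHom μ).1 ≤ Subgroup.centralizer (D : Set G) := by
  have := hM.fact_prime
  have hp := hM.prime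
  have hpD : IsPGroup p D := hb.1.1.1
  have hidx := hb.not_dvd_index_of_normal hM hs hab
  set C := Subgroup.centralizer (D : Set G)
  set I := charInertia (IrrCharacter.ofHom μ).1 with hI
  set K := μ.ker.map D.subtype with hK
  have hKD : K ≤ D := Subgroup.map_subtype_le _
  have hKp : Nat.card K ∣ p := by
    rw [hK, Subgroup.card_subtype]
    obtain ⟨i, hi, h1⟩ := (Nat.dvd_prime_pow hp).1 (μ.ker.card_subgroup_dvd_card.trans hc)
    have : i ≠ 2 := by
      rintro rfl
      exact hμ (MonoidHom.ker_eq_top_iff.1 (Subgroup.eq_top_of_le_card _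
        (h1 ▸ Nat.le_of_dvd (pow_pos hp.pos _) hc)))
    rw [h1]
    exact (pow_dvd_pow p (by omega)).trans (pow_one p).dvd
  have hCI : C ≤ I := centralizer_le_charInertia _
  have h1 : ∀ s ∈ I, s ∈ Subgroup.centralizer (K : Set G) → s ∈ C := by
    intro s hs1 hs2
    have h2 : s ^ p ∈ C := Subgroup.mem_centralizer_iff.2 fun x hx => by
      have h3 : s * x * s⁻¹ * x⁻¹ ∈ K := ⟨⟨_, ‹D.Normal›.conj_mem x hx s⟩ * (⟨x, hx⟩ : D)⁻¹, by
        rw [SetLike.mem_coe, MonoidHom.mem_ker, map_mul, mem_charInertia_ofHom.1 hs1 ⟨x, hx⟩,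
          map_inv, mul_inv_cancel], rfl⟩
      have h4 : ∀ n : ℕ, s ^ n * x = (s * x * s⁻¹ * x⁻¹) ^ n * x * s ^ n := fun n => by
        induction n with
        | zero => simp
        | succ n ih =>
          rw [pow_succ', mul_assoc, ih, ← mul_assoc, ← mul_assoc,
            ← Subgroup.mem_centralizer_iff.1 hs2 _ (pow_mem h3 n), pow_succ]
          generalize (s * x * s⁻¹ * x⁻¹) ^ n = y
          group
      rw [h4, orderOf_dvd_iff_pow_eq_one.1 ((K.orderOf_dvd_natCard h3).trans hKp), one_mul]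
    rw [← QuotientGroup.eq_one_iff, ← orderOf_eq_one_iff]
    refine Nat.eq_one_of_dvd_coprimes ((Nat.Prime.coprime_iff_not_dvd hp).2 hidx)
      (orderOf_dvd_of_pow_eq_one ?_) (orderOf_dvd_natCard _)
    rwa [← QuotientGroup.mk_pow, QuotientGroup.eq_one_iff]
  by_cases hK1 : K = ⊥
  · exact fun s hs => h1 s hs (Subgroup.mem_centralizer_iff.2 fun y hy => by
      rw [hK1] at hy; simp [Subgroup.mem_bot.1 hy])
  have hIK : I ≤ Subgroup.normalizer (K : Set G) := fun s hs => Subgroup.mem_normalizer_fintype (by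
    rintro _ ⟨x, hx, rfl⟩
    exact ⟨⟨_, ‹D.Normal›.conj_mem x x.2 s⟩, (mem_charInertia_ofHom.1 hs x).trans hx, rfl⟩)
  have h2 : (Subgroup.centralizer (K : Set G)).subgroupOf I = C.subgroupOf I :=
    le_antisymm (fun (s : I) hs => h1 s.1 s.2 hs) fun s hs => Subgroup.centralizer_le hKD hs
  have h3 : IsCyclic (I ⧸ C.subgroupOf I) := by
    have : ((Subgroup.centralizer (K : Set G)).subgroupOf I).Normal := h2 ▸ inferInstance
    have := isCyclic_quotient_centralizer_of_cyclic (hpD.to_le hKD) (isCyclic_of_card_dvd_prime hKp)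
      hK1 hIK (by
        rw [Subgroup.relIndex, h2]
        exact fun h => hidx (h.trans (Subgroup.relIndex_dvd_index_of_normal C I)))
    exact (QuotientGroup.quotientMulEquivOfEq h2).isCyclic.1 this
  obtain ⟨θ, hθ, h4⟩ := hb.exists_rmult_of_normal hM hab (IrrCharacter.ofHom μ)
  have h5 := hb.charInertia_eq_of_normal hM hs hab hθ h4
  have := Fintype.ofFinite G
  have := Fintype.ofFinite C
  have := Fintype.ofFinite (C.subgroupOf I)
  have h6 := card_over_of_isCyclic h3 (θ.subgroupOf hCI)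
  rw [charInertia_subgroupOf_eq_top' hCI (by rw [ezStab_eq_charInertia, h5]),
    Subgroup.relIndex_top_right, Nat.card_congr ((Equiv.subtypeEquivRight fun ψ =>
      (rmult_ne_zero_iff_subgroupOf hCI).symm.trans (rmult_ne_zero_iff hCI)).trans
      (cliffordCorr hCI h5.le))] at h6
  have h7 : ∀ χ : IrrCharacter G, classInner (fun n : C => χ.1 n) θ.1 ≠ 0 →
      χ ∈ B ∧ classInner (fun n : D => χ.1 n) (IrrCharacter.ofHom μ).1 ≠ 0 := fun χ hχ =>
    ⟨hb.isPBlock.mem_of_over_of_supp hM hb.isPBlock' (hb.covers_of_normal hM)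
      ((hb.isPBlock.isBlockUnion hM).idemK_mem_suppGA_centralizer hM hpD) hθ hχ,
      classInner_res_ne_zero_trans hab χ.isCharacter θ (IrrCharacter.ofHom μ).isCharacter hχ
        ((rmult_ne_zero_iff hab).1 h4)⟩
  have h8 : (C.subgroupOf I).index ≤ 1 := h6 ▸ Finite.card_le_one_iff_subsingleton.2
    ⟨fun χ χ' => Subtype.ext (h _ (h7 _ χ.2).1 _ (h7 _ χ'.2).1 (h7 _ χ.2).2 (h7 _ χ'.2).2)⟩
  have h9 := Subgroup.index_ne_zero_of_finite (H := C.subgroupOf I)
  exact Subgroup.subgroupOf_eq_top.1 (Subgroup.index_eq_one.1 (by omega))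

theorem IsMaximalBrauerPair.card_eq_three_of_stable (hk : Nat.card B = 3) : Nat.card D = 3 := by
  classical
  have := hM.fact_prime
  have hp := hM.prime
  have hB := hb.isPBlock
  have hD := (hM.isMaximalBrauerPair_iff_isDefectGroup.1 hb).2
  have hpD := hD.isPGroup
  have hcomm := isMulCommutative_of_le_centralizer hab
  have hcard := hD.card_eq hM hB
  have hd : blockDefect p B ≠ 0 := fun h => by
    have := hB.four_mul_card_le hM
    rw [h, hk] at this
    simp at this
  have hD1 : D ≠ ⊥ := fun h => hd (by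
    rwa [h, Subgroup.card_bot, eq_comm, Nat.pow_eq_one, or_iff_right hp.ne_one] at hcard)
  by_cases hl : blockRank p B = 1
  · exact (Agent.S4648.result p M hM B hB D hD hD1 hl (by omega)).2.1.trans hk
  have hp2 : p ≠ 2 := by
    rintro rfl
    have := hB.odd_card_of_height_zero hM hd fun χ hχ =>
      hD.blockHeight_eq_zero_of_normal hM hB hcomm hχ
    omega
  have := Fintype.ofFinite G
  have := Fintype.ofFinite D
  set C := Subgroup.centralizer (D : Set G)
  have := Fintype.ofFinite C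
  have h1 : 2 ≤ (B ∩ {χ | D ≤ charKer χ.1}).ncard := by
    have := blockRank_le_card (p := p) (B ∩ {χ | D ≤ charKer χ.1})
    rw [(hB.isBlockUnion hM).blockRank_inter_le_charKer hM hpD, Nat.card_coe_set_eq] at this
    have := hB.blockRank_pos hM
    omega
  have h2 := Set.ncard_inter_add_ncard_diff_eq_ncard B {χ | D ≤ charKer χ.1}
  rw [← Nat.card_coe_set_eq B, hk] at h2
  have h3 : ∀ (χ : IrrCharacter G) (μ : IrrCharacter D), classInner (fun n : D => χ.1 n) μ.1 ≠ 0 →
      (D ≤ charKer χ.1 ↔ μ = IrrCharacter.triv D) := fun χ μ h => by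
    rw [χ.le_charKer_iff_classInner_ne_zero D]
    refine ⟨fun h' => ?_, by rintro rfl; exact h⟩
    obtain ⟨g, rfl⟩ := clifford_exists_smul χ (θ := IrrCharacter.triv D) h' h
    exact IrrCharacter.smul_triv g
  have h4 : ∀ μ : IrrCharacter D, ∃ χ ∈ B, classInner (fun n : D => χ.1 n) μ.1 ≠ 0 := fun μ => by
    obtain ⟨χ, hχ⟩ := hB.nonempty hM
    obtain ⟨ν, hν⟩ := χ.exists_under D
    exact hB.exists_over_of_covers hM (hM.isPBlock_univ_of_isPGroup hpD) ⟨χ, hχ, ν, trivial, hν⟩
      trivial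
  have h5 : ∀ χ ∈ B, ∀ χ' ∈ B, ∀ μ μ' : IrrCharacter D, μ ≠ IrrCharacter.triv D →
      μ' ≠ IrrCharacter.triv D → classInner (fun n : D => χ.1 n) μ.1 ≠ 0 →
      classInner (fun n : D => χ'.1 n) μ'.1 ≠ 0 → χ = χ' := fun χ hχ χ' hχ' μ μ' hμ hμ' h h' =>
    (Set.ncard_le_one_iff (Set.toFinite (B \ {χ | D ≤ charKer χ.1}))).1 (by omega)
      ⟨hχ, fun h0 => hμ ((h3 _ _ h).1 h0)⟩ ⟨hχ', fun h0 => hμ' ((h3 _ _ h').1 h0)⟩
  have h6 : 1 < Nat.card D := (Subgroup.one_lt_card_iff_ne_bot D).2 hD1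
  obtain ⟨μ, hμ⟩ : ∃ μ, μ ≠ IrrCharacter.triv D :=
    haveI := Finite.one_lt_card_iff_nontrivial.1 (card_irr_of_comm (G := D) ▸ h6); exists_ne _
  obtain ⟨χ₃, hχ₃, h7⟩ := h4 μ
  have h8 : Nat.card D - 1 ∣ C.index := by
    have h9 : MulAction.orbit G μ = {IrrCharacter.triv D}ᶜ := by
      ext ν
      rw [← clifford_over_iff χ₃ h7, Set.mem_compl_singleton_iff]
      refine ⟨fun h h' => hμ ((h3 _ _ h7).1 ((h3 _ _ h).2 h')), fun h => ?_⟩
      obtain ⟨χ, hχ, h'⟩ := h4 ν
      rwa [h5 _ hχ₃ _ hχ _ _ hμ h h7 h']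
    have := μ.card_orbit
    rw [h9, Nat.card_coe_set_eq, Set.ncard_compl, Set.ncard_singleton, card_irr_of_comm] at this
    exact this ▸ Subgroup.index_dvd_of_le (centralizer_le_charInertia _)
  obtain ⟨θ, hθ, h9⟩ := hb.exists_rmult_of_normal hM hab (IrrCharacter.triv D)
  have hinv : charInertia θ.1 = ⊤ := (hb.charInertia_eq_of_normal hM hs hab hθ h9).trans
    (IrrCharacter.charInertia_eq_top_iff.2 IrrCharacter.smul_triv)
  have h10 : Nat.card {χ : IrrCharacter G // classInner (fun n : C => χ.1 n) θ.1 ≠ 0} ≤ 2 := by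
    have : 0 < (B \ {χ | D ≤ charKer χ.1}).ncard := (Set.ncard_pos (Set.toFinite _)).2
      ⟨χ₃, hχ₃, fun h0 => hμ ((h3 _ _ h7).1 h0)⟩
    refine (Set.ncard_le_ncard (s := {χ : IrrCharacter G | classInner (fun n : C => χ.1 n) θ.1 ≠ 0})
      (t := B ∩ {χ | D ≤ charKer χ.1}) fun χ hχ => ⟨?_, ?_⟩).trans (by omega)
    · exact hB.mem_of_over_of_supp hM hb.isPBlock' (hb.covers_of_normal hM)
        ((hB.isBlockUnion hM).idemK_mem_suppGA_centralizer hM hpD) hθ hχ
    · exact (h3 _ _ (classInner_res_ne_zero_trans hab χ.isCharacter θ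
        (IrrCharacter.triv D).isCharacter hχ ((rmult_ne_zero_iff hab).1 h9))).2 rfl
  have h11 : ∀ a a' : G ⧸ C, a ≠ 1 → a' ≠ 1 →
      (∀ c, Commute a c → IsCyclic (Subgroup.closure {a, c})) →
      (∀ c, Commute a' c → IsCyclic (Subgroup.closure {a', c})) → IsConj a a' := by
    have hg : ∀ a : G ⧸ C, (∀ c, Commute a c → IsCyclic (Subgroup.closure {a, c})) →
        ∀ c, Commute a c → θ.ExtTo ((Subgroup.closure {a, c}).comap (QuotientGroup.mk' C)) := by
      intro a h c hc
      obtain ⟨x, hx⟩ := (Subgroup.isCyclic_iff_exists_zpowers_eq_top _).1 (h c hc)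
      obtain ⟨g, rfl⟩ := QuotientGroup.mk'_surjective C x
      rw [← hx, ← MonoidHom.map_zpowers, Subgroup.comap_map_eq, QuotientGroup.ker_mk', sup_comm]
      exact extTo_sup_zpowers (top_le_normalizer_of_normal trivial)
        (by rw [ezStab_eq_charInertia, hinv]; trivial)
    rw [card_over_eq_card_good hinv _ (QuotientGroup.mk'_surjective C) (QuotientGroup.ker_mk' C)]
      at h10
    exact fun a a' ha ha' h h' => isConj_of_card_good_le_two (hg 1 fun c _ => by
      rw [Subgroup.closure_insert_one, ← Subgroup.zpowers_eq_closure]; infer_instance) h10 ha ha'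
      (hg a h) (hg a' h')
  have hker : (MulAut.conjNormal : G →* MulAut D).ker = C := by
    ext g
    exact (mem_centralizer_iff_aut_eq_one fun x => MulAut.conjNormal_apply g x).symm
  let ρ : G ⧸ C →* MulAut D := QuotientGroup.lift C MulAut.conjNormal hker.ge
  have hρ : Function.Injective ρ := (QuotientGroup.injective_lift_iff _ _ _).2 hker.symm
  by_cases h12 : 3 ≤ blockDefect p B
  · obtain ⟨r, hr, h13, h14⟩ := exists_primitive_prime_divisor
      (by have := hp.two_le; omega : 3 ≤ p) h12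
    have h15 : ∀ a : G ⧸ C, r ∣ orderOf a → a ≠ 1 ∧
        ∀ c, Commute a c → IsCyclic (Subgroup.closure {a, c}) := fun a ha =>
      ⟨by rintro rfl; exact hr.not_dvd_one (by simpa using ha), fun c hc =>
        isCyclic_of_primitive_prime ρ hp hr hcard h13 h14 hρ (isMulCommutative_closure_pair hc)
          (Subgroup.subset_closure (by simp)) ha⟩
    have := three_le_card_over hr (by
        rintro rfl
        exact h14 1 one_pos (by omega) (by simpa using (hp.even_sub_one hp2).two_dvd))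
      ((hcard ▸ h13).trans h8) (not_sq_dvd_of_primitive_prime ρ hp hr hcard h13 h14 hρ
        fun a a' ha ha' => h11 a a' (h15 a ha).1 (h15 a' ha').1 (h15 a ha).2 (h15 a' ha').2) hinv
    omega
  have : Nontrivial D := Finite.one_lt_card_iff_nontrivial.1 h6
  have h13 : ∀ a ≠ 1, ∀ v, ρ a v = v → v = 1 := by
    intro a ha v hv
    by_contra hv1
    obtain ⟨t, rfl⟩ := QuotientGroup.mk_surjective a
    let _ : CommGroup D := ⟨hcomm.is_comm.comm⟩
    let φ : D →* D := (ρ t).toMonoidHom / MonoidHom.id D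
    have h14 : φ.range ≠ ⊤ := fun h => hv1 ((injective_iff_map_eq_one φ).1
      (Finite.injective_iff_surjective.2 (MonoidHom.range_eq_top.1 h)) v (div_eq_one.2 hv))
    have h15 := card_trivOn (N := φ.range) (by rw [commutator_eq_bot]; exact bot_le)
    obtain ⟨ν, hν, hν1⟩ := (trivOn φ.range).bot_or_exists_ne_one.resolve_left fun h =>
      h14 (Subgroup.index_eq_one.1 (by rw [← h15, h, Subgroup.card_bot]))
    have h16 : IrrCharacter.ofHom ν ≠ IrrCharacter.triv D := fun h =>
      hν1 (IrrCharacter.ofHom_injective (h.trans IrrCharacter.ofHom_one.symm))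
    refine ha ((QuotientGroup.eq_one_iff t).2 (hb.charInertia_le_of_card_dvd hM hs hab
      (hcard ▸ pow_dvd_pow p (by omega)) hν1 (fun χ hχ χ' hχ' => h5 χ hχ χ' hχ' _ _ h16 h16)
      (mem_charInertia_ofHom.2 fun x => ?_)))
    have := hν _ ⟨x, rfl⟩
    rwa [MonoidHom.div_apply, map_div, div_eq_one] at this
  have h14 : ∀ a c : G ⧸ C, Commute a c → IsCyclic (Subgroup.closure {a, c}) := fun a c h =>
    isCyclic_of_free_hom (ρ.comp (Subgroup.subtype _)) (isMulCommutative_closure_pair h)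
      fun x hx => h13 x fun h => hx (Subtype.ext h)
  have h15 := (Nat.le_of_dvd Nat.card_pos h8).trans
    (card_le_two_of_forall_isConj fun a a' ha ha' => h11 a a' ha ha' (h14 a) (h14 a'))
  have h16 := Nat.le_self_pow hd p
  have := hp.two_le
  omega

end stable

theorem IsDefectGroup.card_eq_three_of_normal (hM : IsPModular p M) (hB : IsPBlock M B)
    (hD : IsDefectGroup p M B D) [D.Normal] (hab : D ≤ Subgroup.centralizer (D : Set G))
    (hk : Nat.card B = 3) : Nat.card D = 3 := by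
  induction hn : Nat.card G using Nat.strong_induction_on generalizing G with
  | _ n ih =>
  obtain ⟨b, hb⟩ := hD.exists_isMaximalBrauerPair hM hB
  by_cases hs : blockStab b = ⊤
  · exact hb.card_eq_three_of_stable hM hs hab hk
  have := Fintype.ofFinite G
  have := Fintype.ofFinite (Subgroup.centralizer (D : Set G))
  have := Fintype.ofFinite (blockStab b)
  have hCT := le_blockStab b
  obtain ⟨B', hB', hcov, hind⟩ := hb.isPBlock'.fr_surj hM rfl hCT hB (hb.covers_of_normal hM)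
  obtain ⟨D', hD'⟩ := hB'.exists_isDefectGroup hM
  have h1 : D'.map (blockStab b).subtype = D := le_antisymm
    ((hb.isPBlock'.fr_isDefectGroup hM rfl hCT hcov hind hD').isConjLE hM hB hD).le_of_normal_right
    ((hb.isPBlock'.fr_isDefectGroup hM rfl hCT hcov hind hD').le_of_normal hM hB hD.isPGroup)
  have h2 : D.subgroupOf (blockStab b) = D' := (congrArg (Subgroup.comap _) h1).symm.trans
    (Subgroup.comap_map_eq_self_of_injective (Subgroup.subtype_injective _) _)
  subst h2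
  rw [← Nat.card_congr (Subgroup.subgroupOfEquivOfLe (hab.trans hCT)).toEquiv]
  refine ih _ (hn ▸ card_lt_of_ne_top hs) hB' hD' (subgroupOf_le_centralizer hab _) ?_ rfl
  rw [← hk]
  refine Nat.card_congr (Equiv.ofBijective (fun ψ => ⟨⟨_, hb.isPBlock'.fr_isIrr hM rfl hCT hB' hcov
    ψ.2⟩, (hb.isPBlock'.fr_mem_iff hM rfl hCT hcov hind _).2 ⟨ψ, ψ.2, rfl⟩⟩) ⟨fun ψ ψ' h => ?_, ?_⟩)
  · exact Subtype.ext (hb.isPBlock'.fr_indFun_inj hM rfl hCT hB' hcov ψ.2 ψ'.2
      (congrArg (fun χ : B => χ.1.1) h))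
  · rintro ⟨χ, hχ⟩
    obtain ⟨ψ, hψ, h⟩ := (hb.isPBlock'.fr_mem_iff hM rfl hCT hcov hind _).1 hχ
    exact ⟨⟨ψ, hψ⟩, Subtype.ext (Subtype.ext h.symm)⟩

end Cfsg
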