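import Cfsg.Agent.Blk.Principal
import Cfsg.Agent.Blk.Kappa

/-! Principal blocks for two different primes. -/

set_option autoImplicit false

namespace Cfsg

open scoped ComplexConjugate

universe u

variable {G : Type u} [Group G] {p q : ℕ} {M N : Ideal AlgInt}

theorem IsPModular.blockHeight_triv_eq_zero [Finite G] (hM : IsPModular p M) :
    blockHeight p (principalBlock M G) (IrrCharacter.triv G).1 = 0 := by
  have := hM.fact_prime
  have := factorization_charDegree_eq (p := p) (hM.triv_mem_principalBlock (G := G))
  rw [IrrCharacter.charDegree_triv, Nat.factorization_one, hM.blockDefect_principalBlock] at this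
  simp only [Finsupp.coe_zero, Pi.zero_apply] at this
  omega

/-- `|G|_q` times the proportion of `q`-regular elements is a `q`-unit -/
theorem IsPModular.valM_pow_mul_regular [Fintype G] (hN : IsPModular q N) :
    valM N (((q ^ (Nat.card G).factorization q : ℕ) : ℂ) *
      classInner (pRegularPart q (IrrCharacter.triv G).1) (IrrCharacter.triv G).1) = 1 := by
  have h := (isPBlock_principalBlock.red_kappa_pRegularPart_ne_zero_iff hN
    (hN.triv_mem_principalBlock (G := G)) hN.triv_mem_principalBlock).2
    hN.blockHeight_triv_eq_zero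
  rw [red_ne_zero_iff, kappa_def] at h
  simpa using h

theorem IsPModular.pow_mul_blockPart_regular_mem [Finite G] (hN : IsPModular q N)
    (B : Set (IrrCharacter G)) (χ : IrrCharacter G) (g : G) :
    ((q ^ (Nat.card G).factorization q : ℕ) : ℂ) * blockPart B (pRegularPart q χ.1) g ∈
      valO N := by
  have := Fintype.ofFinite G
  rw [blockPart_eq_sum, Finset.mul_sum]
  refine sum_mem fun ψ _ => ?_
  rw [← mul_assoc, ← kappa_mul_one]
  exact mul_mem (mul_mem (hN.kappa_pRegularPart_mem χ ψ) (ψ.mem_valO 1))
    (ψ.mem_valO g)

/-- if the principal `p`-block and the principal `q`-block only share the principal character,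
no `p`-element has class size divisible by `q` -/
theorem IsPModular.not_dvd_index_centralizer_of_inter [Finite G] (hM : IsPModular p M)
    (hN : IsPModular q N) (hpq : q ≠ p)
    (h : ∀ χ : IrrCharacter G, χ ∈ principalBlock M G → χ ∈ principalBlock N G →
      χ = IrrCharacter.triv G)
    {u : G} (hu : ∃ k : ℕ, orderOf u = p ^ k) :
    ¬ q ∣ (Subgroup.centralizer ({u} : Set G)).index := by
  classical
  have := Fintype.ofFinite G
  have := hM.fact_prime
  have := hN.fact_prime
  set C := Subgroup.centralizer ({u} : Set G) with hC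
  set f := pRegularPart q (IrrCharacter.triv G).1 with hf
  set c := classInner f (IrrCharacter.triv G).1 with hc
  have hcf : IsClassFunction G f := (IrrCharacter.triv G).isClassFunction.pRegularPart q
  have h1 : ∀ g, blockPart (principalBlock M G) f g = c := by
    intro g
    rw [blockPart_eq_sum, Finset.sum_eq_single (IrrCharacter.triv G)]
    · simp [hc]
    · intro χ hχ hne
      have hn : χ ∉ principalBlock N G := fun h' => hne (h χ (mem_irrFinset.1 hχ) h')
      rw [hf, hN.classInner_pRegularPart_eq_zero (χ := IrrCharacter.triv G) (ψ := χ) hn, zero_mul]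
    · intro h'
      exact absurd (mem_irrFinset.2 hM.triv_mem_principalBlock) h'
  have h2 := hM.blockPart_principalBlock_section hu hC hcf (s := 1)
    (by rw [orderOf_one]; exact hM.prime.not_dvd_one)
  have h3 : (fun s : C => f (u * s)) = pRegularPart q (IrrCharacter.triv C).1 := by
    funext s
    have hcomm : Commute u (s : G) := commute_of_mem_centralizer_eq hC s
    obtain ⟨k, hk⟩ := hu
    have hqu : ¬ q ∣ orderOf u := by
      rw [hk]; intro h'
      exact hpq ((Nat.prime_dvd_prime_iff_eq hN.prime hM.prime).1 (hN.prime.dvd_of_dvd_pow h'))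
    have hiff : q ∣ orderOf (u * s) ↔ q ∣ orderOf s := by
      rw [← Subgroup.orderOf_coe]
      constructor
      · intro h'
        rcases hN.prime.dvd_mul.1 (h'.trans hcomm.orderOf_mul_dvd_mul_orderOf) with h'' | h''
        · exact absurd h'' hqu
        · exact h''
      · intro h'
        have e : (s : G) = u⁻¹ * (u * s) := by group
        have hc2 : Commute u⁻¹ (u * s) := ((Commute.refl u).mul_right hcomm).inv_left
        rw [e] at h'
        rcases hN.prime.dvd_mul.1 (h'.trans hc2.orderOf_mul_dvd_mul_orderOf) with h'' | h''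
        · rw [orderOf_inv] at h''; exact absurd h'' hqu
        · exact h''
    simp only [hf, pRegularPart_apply, hiff]
    simp
  rw [h1, h3] at h2
  have h4 := hN.pow_mul_blockPart_regular_mem (principalBlock M C) (IrrCharacter.triv C) 1
  rw [← h2, mem_valO_iff] at h4
  have h5 := hN.valM_pow_mul_regular (G := G)
  rw [← hf, ← hc] at h5
  intro hd
  have h6 : (Nat.card G).factorization q =
      (Nat.card C).factorization q + C.index.factorization q := by
    rw [← C.card_mul_index, Nat.factorization_mul Nat.card_pos.ne' C.index_ne_zero_of_finite]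
    rfl
  have h7 : 0 < C.index.factorization q :=
    hN.prime.factorization_pos_of_dvd C.index_ne_zero_of_finite hd
  rw [h6, pow_add, Nat.cast_mul, mul_right_comm, map_mul] at h5
  have h8 : valM N ((q ^ C.index.factorization q : ℕ) : ℂ) < 1 :=
    hN.valM_natCast_lt_one_iff.2 (dvd_pow_self q h7.ne')
  have h9 := mul_lt_one_of_nonneg_of_lt_one_right h4 zero_le h8
  exact h9.ne h5

/-- if all `p`-elements have class size a power of `p`, the group is `P × O_{p'}` -/
theorem normal_and_sup_of_class_sizes [Finite G] [Fact p.Prime] (P : Sylow p G)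
    (h : ∀ u ∈ (P : Subgroup G), ∀ q : ℕ, q.Prime → q ≠ p →
      ¬ q ∣ (Subgroup.centralizer ({u} : Set G)).index) :
    (P : Subgroup G).Normal ∧ (P : Subgroup G) ⊔ pPrimeCore p G = ⊤ := by
  have key : ∀ u ∈ (P : Subgroup G), ∀ g : G, ∃ y ∈ (P : Subgroup G),
      g * u * g⁻¹ = y * u * y⁻¹ := by
    intro u hu g
    have hco : (P : Subgroup G).index.Coprime (Subgroup.centralizer ({u} : Set G)).index := by
      refine Nat.Coprime.symm (Nat.coprime_of_dvd fun q hq h1 h2 => ?_)
      by_cases e : q = p
      · subst e; exact P.not_dvd_index h2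
      · exact h u hu q hq e h1
    obtain ⟨y, hy, c, hc, rfl⟩ := exists_mul_eq_of_coprime_index hco g
    refine ⟨y, hy, ?_⟩
    have := Subgroup.mem_centralizer_singleton_iff.1 hc
    calc y * c * u * (y * c)⁻¹ = y * (c * u) * c⁻¹ * y⁻¹ := by group
      _ = y * u * y⁻¹ := by rw [this]; group
  refine ⟨⟨fun u hu g => ?_⟩, ?_⟩
  · obtain ⟨y, hy, e⟩ := key u hu g
    rw [e]; exact mul_mem (mul_mem hy hu) (inv_mem hy)
  · rw [sup_comm, ← hasNormalPComplement_iff_sup_sylow]
    exact hasNormalPComplement_of_controls_fusion P fun x hx g _ => key x hx g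

end Cfsg
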